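import Cfsg.Agent.CLAS.Bal5

/-!
# Local balance: linear groups
-/

set_option autoImplicit false

namespace CL.LBal

open Module CL.AutInd CL.AutPSL CL.AutForm CL.FieldAut CL.Lang CL.Gr Matrix Cfsg
open Matrix.SpecialLinearGroup (toGL transvection transvection_coe diag2n diag2n_coe)

variable {ι : Type} [Fintype ι] [DecidableEq ι] {F F₀ : Type*} [Field F] [Field F₀] {p : ℕ}

theorem transvection_pow_char (r : ℕ) [CharP F r] {i j : ι} (hij : i ≠ j) (c : F) :
    transvection hij c ^ r = 1 := by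
  have h : ∀ k : ℕ, transvection hij c ^ k = transvection hij (k * c) := fun k => by
    induction k with
    | zero => simp [SpecialLinearGroup.transvection_coeff_zero]
    | succ k ih => rw [pow_succ, ih, ← SpecialLinearGroup.transvection_add]; simp [add_mul]
  rw [h, CharP.cast_eq_zero, zero_mul, SpecialLinearGroup.transvection_coeff_zero]

theorem pow_mem_of_normal [Nontrivial ι] (r : ℕ) [CharP F r] {N : Subgroup (SpecialLinearGroup ι F)}
    [N.Normal] (h : ¬ N ≤ Subgroup.center _) (s : SpecialLinearGroup ι F) :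
    s ^ r ∈ N ⊔ Subgroup.center _ := by
  have hn := Subgroup.Normal.map ‹N.Normal› _ (QuotientGroup.mk'_surjective (Subgroup.center _))
  have h1 := CL.SL.pslIwasawa.commutator_le _ (nN := hn) fun h0 => h fun a ha =>
    (QuotientGroup.eq_one_iff a).1 (eq_of_smul_eq_smul (M := ProjectiveSpecialLinearGroup ι F)
      fun x => (Set.eq_univ_iff_forall.1 h0 x ⟨_, a, ha, rfl⟩).trans (one_smul _ x).symm)
  have h2 : Abelianization.of (QuotientGroup.mk' (Subgroup.center _) s) ^ r = 1 := by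
    refine CL.SL.transvection_induction (fun s => Abelianization.of (QuotientGroup.mk' _ s) ^ r = 1)
      (by simp) (fun i j hij c => ?_) (fun a b ha hb => ?_) s
    · rw [← map_pow, ← map_pow, transvection_pow_char, map_one, map_one]
    · rw [map_mul, map_mul, mul_pow, ha, hb, one_mul]
  rw [← QuotientGroup.ker_mk' (Subgroup.center _), ← Subgroup.comap_map_eq]
  rw [← map_pow, ← map_pow, ← MonoidHom.mem_ker, Abelianization.ker_of] at h2
  exact h1 h2

theorem eq_of_diag_eq [Nontrivial ι] (r : ℕ) [Fact r.Prime] [CharP F r] {A B : GL ι F}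
    (h : diag ι F A = diag ι F B) (hA : A ^ r = 1) (hB : B ^ r = 1) : A = B := by
  obtain ⟨c, rfl⟩ := diag_eq_iff.1 h
  rw [(show Commute _ _ from Lang.scalar_comm c A).mul_pow, hA, one_mul, ← map_pow,
    ← map_one (GeneralLinearGroup.scalar ι)] at hB
  have h1 : ((c : F) - 1) ^ r = 0 := by
    rw [sub_pow_char, one_pow, ← Units.val_pow_eq_pow_val, scalar_inj hB, Units.val_one, sub_self]
  rw [show c = 1 from Units.ext (sub_eq_zero.1 (pow_eq_zero_iff (Fact.out : r.Prime).ne_zero |>.1 h1)),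
    map_one, mul_one]

theorem Phi_refl (e : F₀ →+* F) (g : GL ι F₀) :
    Phi e (LinearEquiv.refl F _) g = GeneralLinearGroup.map e g :=
  gl_ext fun v => cj_mulVec (LinearEquiv.refl F _) _ v

variable (ι) in
/-- The inner automorphisms coming from the special linear group over a subfield. -/
noncomputable def thL (e : F₀ →+* F) :
    SpecialLinearGroup ι F₀ →* MulAut (ProjectiveSpecialLinearGroup ι F) :=
  (diag ι F).comp ((Phi e (LinearEquiv.refl F _)).comp toGL)

theorem thL_tv (e : F₀ →+* F) {i j : ι} (hij : i ≠ j) (c : F₀) :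
    thL ι e (transvection hij c) = diag ι F (toGL (transvection hij (e c))) := by
  rw [thL, MonoidHom.comp_apply, MonoidHom.comp_apply, Phi_refl]
  congr 1
  ext a b
  simp [transvection_coe, one_apply, single_apply, apply_ite e]

theorem mem_range_thL (e : F₀ →+* F) {g : GL ι F₀} (h : g.1.det = 1) :
    diag ι F (Phi e (LinearEquiv.refl F _) g) ∈ (thL ι e).range := by
  obtain ⟨s, rfl⟩ := exists_toGL_eq (g := g) (Units.ext h)
  exact ⟨s, rfl⟩

variable [Nontrivial ι]

theorem thL_eq_one (e : F₀ →+* F) (s : SpecialLinearGroup ι F₀) :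
    thL ι e s = 1 ↔ s ∈ Subgroup.center _ :=
  diag_eq_one_iff.trans ((Phi_mem_scalars_iff e _ _).trans (mem_center_SL_iff s).symm)

theorem exists_thL (e : F₀ →+* F) (hp : p.Prime) (hpF : (p : F₀) ≠ 0) (h : p ∣ Fintype.card ι) :
    ∃ y ∈ (thL ι e).range, orderOf y = p := by
  have := Fact.mk hp
  by_cases h2 : p = 2
  · subst h2
    obtain ⟨i, j, hij⟩ := exists_pair_ne ι
    have h1 := CL.SL.diag2n_decompose hij (-1 : F₀) (by simp)
    set w := transvection hij (-1 : F₀) * transvection hij.symm 1 * transvection hij (-1) with hw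
    have h3 : w ^ 2 ^ 2 = 1 := by
      rw [show w ^ 2 ^ 2 = (w * w) * (w * w) by rw [pow_two 2, pow_mul, sq, sq],
        show w * w = diag2n hij (-1 : F₀) (by simp) from by rw [h1]; simp [hw, mul_assoc]]
      refine Subtype.ext ?_
      rw [Matrix.SpecialLinearGroup.coe_mul, diag2n_coe, diagonal_mul_diagonal]
      exact (congrArg diagonal (funext fun a => by split_ifs <;> simp)).trans diagonal_one
    obtain ⟨k, -, hk⟩ := (Nat.dvd_prime_pow hp).1 (orderOf_dvd_of_pow_eq_one
      (by rw [← map_pow, h3, map_one] : thL ι e w ^ 2 ^ 2 = 1))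
    cases k with
    | zero =>
      obtain ⟨c, -, hc⟩ := Matrix.SpecialLinearGroup.mem_center_iff.1
        ((thL_eq_one e w).1 (orderOf_eq_one_iff.1 hk))
      simpa [hw, transvection_coe, mul_add, add_mul, hij, hij.symm, mul_apply, single_apply,
        one_apply] using congrFun (congrFun hc j) i
    | succ k => exact ⟨_, pow_mem (MonoidHom.mem_range.2 ⟨w, rfl⟩) (2 ^ k), by
        rw [orderOf_pow_of_dvd (by positivity) (hk ▸ pow_dvd_pow 2 k.le_succ), hk, pow_succ,
          Nat.mul_div_cancel_left _ (by positivity)]⟩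
  · obtain ⟨g, s, h6, h7, -, h9⟩ := exists_perm (F := F₀) hp h2 h
    refine ⟨_, mem_range_thL e h7, orderOf_eq_prime ?_ fun h => ?_⟩
    · rw [← map_pow, ← map_pow, h6, map_one, map_one]
    · obtain ⟨c, rfl⟩ := mem_scalars_iff'.1 ((Phi_mem_scalars_iff e _ _).1 (diag_eq_one_iff.1 h))
      exact h9 c fun v => by simp [funext_iff, mulVec_diagonal]

theorem tv_pow (r : ℕ) [CharP F r] (α : MulAut (GL ι F)) {i j : ι} (hij : i ≠ j) (c : F) :
    α (toGL (transvection hij c)) ^ r = 1 := by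
  rw [← map_pow, ← map_pow, transvection_pow_char, map_one, map_one]

theorem eq_one_of_commute [Finite F] {σ : F ≃+* F} {e : F₀ →+* F} (he : FixEmb σ e)
    {a : MulAut (ProjectiveSpecialLinearGroup ι F)} (ho : (orderOf a).Coprime (orderOf σ))
    (h : ∀ k ∈ (thL ι e).range, Commute a k) : a = 1 := by
  obtain ⟨r, hr⟩ := CharP.exists F
  have := Fact.mk (CharP.char_is_prime F r)
  have h1 : ∀ i j (hij : i ≠ j) (c : F₀), a * diag ι F (toGL (transvection hij (e c))) * a⁻¹ =
      diag ι F (toGL (transvection hij (e c))) := fun i j hij c => by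
    rw [← thL_tv, (h _ ⟨_, rfl⟩).eq, mul_inv_cancel_right]
  obtain ⟨γ, rfl | ⟨h3, rfl⟩⟩ := exists_eq_gam Fintype.one_lt_card a
  · have h2 : ∀ i j (hij : i ≠ j) (c : F₀), γ.left.1 * single i j (γ.right (e c)) =
        single i j (e c) * γ.left.1 := fun i j hij c => by
      have h2 := eq_of_diag_eq r ((gam_mul_diag γ _).symm.trans (h1 i j hij c)) (tv_pow r _ _ _)
        (tv_pow r 1 _ _)
      rw [conjAut_apply, mul_inv_eq_iff_eq_mul] at h2
      simpa [coe_fieldAut, transvection_coe, mul_add, add_mul, Matrix.map_add] using congrArg Units.val h2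
    obtain ⟨c, hc⟩ := mem_range_scalar_of_commute_single (M := γ.left.1) fun i j hij => by
      simpa [Commute, SemiconjBy] using (h2 i j hij 1).symm
    obtain ⟨i, j, hij⟩ := exists_pair_ne ι
    have hc0 : c ≠ 0 := by rintro rfl; exact γ.left.ne_zero (by simpa using hc.symm)
    refine gam_eq_one_iff.2 ⟨right_eq_one frm_gam (pow_eq_one_of_fix he fun t => ?_) ho,
      mem_scalars_iff'.2 ⟨Units.mk0 c hc0, Units.ext hc⟩⟩
    simpa [← hc, hc0, mul_comm] using congrFun (congrFun (h2 i j hij t) i) j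
  · refine (γ.left.ne_zero (Matrix.ext fun a j => ?_)).elim
    obtain ⟨i, hi, hij⟩ := CL.SL.exists_third_index h3 a j
    have h2 := h1 i j hij 1
    rw [mul_assoc (gam ι F γ), tau_mul_diag, _root_.mul_inv_rev, ← mul_assoc, ← mul_assoc,
      mul_inv_cancel_right, gam_mul_diag] at h2
    have h4 := eq_of_diag_eq r h2 (tv_pow r (conjAut γ * invT ι F) _ _) (tv_pow r 1 _ _)
    rw [conjAut_apply, mul_inv_eq_iff_eq_mul, ← invT_fieldAut, ← inv_mul_eq_iff_eq_mul,
      ← mul_assoc, ← eq_mul_inv_iff_mul_eq, ← map_inv, SpecialLinearGroup.transvection_inv] at h4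
    have h5 := congrArg Units.val h4
    rw [Units.val_mul, Units.val_mul, coe_invT_inv] at h5
    simpa [coe_fieldAut, transvection_coe, mul_add, add_mul, Matrix.map_add, hi, hi.symm]
      using congrFun (congrFun h5 a) i

theorem crit_fld [Finite F] {σ : F ≃+* F} (ho : orderOf σ = p) (hp : p.Prime) (hpF : (p : F) ≠ 0) :
    Crit p (Inn _) (fld ι F σ) := by
  have he := fixEmb_subtype σ
  set e := (fixF σ).subtype
  obtain ⟨r, hr⟩ := CharP.exists (fixF σ)
  have hr' := CharP.char_is_prime (fixF σ) r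
  have hp0 : (p : fixF σ) ≠ 0 := fun h => hpF (by rw [← map_natCast e, h, map_zero])
  have hK : (thL ι e).range ≤ Inn _ ⊓ Subgroup.centralizer {fld ι F σ} := by
    rintro _ ⟨s, rfl⟩
    exact ⟨inn_eq_map_ker.ge ⟨_, Units.ext ((det_Phi e _ _).trans (by simp)), rfl⟩,
      ((cent_fld he).ge ⟨_, ⟨_, rfl⟩, rfl⟩).2⟩
  have hL : ∀ d ∈ Inn _ ⊓ Subgroup.centralizer {fld ι F σ}, ∃ g,
      diag ι F (Phi e (LinearEquiv.refl F _) g) = d := fun d hd => by
    obtain ⟨_, ⟨g, rfl⟩, h⟩ := (cent_fld he).le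
      ⟨Subgroup.map_le_range _ _ (inn_eq_map.le hd.1), hd.2⟩
    exact ⟨g, h⟩
  obtain ⟨i, j, hij⟩ := exists_pair_ne ι
  refine ⟨fun h => ?_, fun y hy hyo => bal_of_family (fun _ : Unit => (thL ι e).range) (fun _ => hK)
    ?_ (fun _ M hM hn hc => by_contra fun h0 => ?_) fun a _ ha h => eq_one_of_commute he (ho ▸ ha) (h ())⟩
  · obtain ⟨c, -, hc⟩ := Matrix.SpecialLinearGroup.mem_center_iff.1 ((thL_eq_one e _).1
      (Subgroup.mem_bot.1 (h ▸ hK ⟨transvection hij 1, rfl⟩)))
    simpa [transvection_coe, hij] using congrFun (congrFun hc i) j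
  · rintro d hd - - _ ⟨s, rfl⟩
    obtain ⟨g, rfl⟩ := hL d hd
    have := mem_range_thL e (g := g * toGL s * g⁻¹) (by simp [← GeneralLinearGroup.val_det_apply])
    simp only [map_mul, map_inv] at this
    exact this
  · have h1 : ∃ y ∈ (thL ι e).range, orderOf y = p := by
      by_cases h : p ∣ Fintype.card ι
      · exact exists_thL e hp hp0 h
      obtain ⟨g, rfl⟩ := hL y hy
      refine exists_orderOf_eq hp hyo h ?_
      simpa only [map_mul, map_pow, Phi_scalar, diag_scalar, one_mul] using mem_range_thL e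
        (g := GeneralLinearGroup.scalar ι (GeneralLinearGroup.det g)⁻¹ * g ^ Fintype.card ι) (by
          rw [← GeneralLinearGroup.val_det_apply, map_mul, GeneralLinearGroup.det_scalar, map_pow,
            ← mul_pow, inv_mul_cancel, one_pow, Units.val_one])
    obtain ⟨_, ⟨s, rfl⟩, hs⟩ := h1
    have : (M.comap (thL ι e)).Normal := ⟨fun a ha g => by simpa using hn _ ⟨g, rfl⟩ _ ha⟩
    have h2 : M.comap (thL ι e) ⊔ Subgroup.center _ ≤ M.comap (thL ι e) :=
      sup_le le_rfl fun a ha => by simp [(thL_eq_one e a).2 ha]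
    have h3 := h2 (pow_mem_of_normal r (fun h => h0 ((Subgroup.eq_bot_iff_forall _).2 fun m hm => by
      obtain ⟨a, rfl⟩ := hM hm; exact (thL_eq_one e a).2 (h hm))) s)
    obtain ⟨z, hz, hzo⟩ := exists_orderOf_eq (K := M) hp hs (fun h => hp0 (by
      rw [(Nat.prime_dvd_prime_iff_eq hp hr').1 h, CharP.cast_eq_zero])) (by simpa using h3)
    exact hp.one_lt.ne' (Nat.Coprime.eq_one_of_dvd hc.symm (hzo ▸ M.orderOf_dvd_natCard hz))

omit [Nontrivial ι] in
theorem mem_range_gam [Finite F] (hn : 3 ≤ Fintype.card ι)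
    (a : MulAut (ProjectiveSpecialLinearGroup ι F)) (ha : (orderOf a).Coprime 2) :
    a ∈ (gam ι F).range := by
  obtain ⟨k, hk⟩ := Nat.coprime_two_right.1 ha
  have := pow_mem (Subgroup.sq_mem_of_index_two (index_range_gam hn) a) (k + 1)
  rwa [← pow_mul, show 2 * (k + 1) = 2 * k + 1 + 1 from rfl, ← hk, pow_succ,
    pow_orderOf_eq_one, one_mul] at this

theorem sq_eq_one_of_id (τ : F ≃+* F) (h : ∀ t, τ (RingHom.id F t) = RingHom.id F t) : τ ^ 2 = 1 := by
  rw [show τ = 1 from RingEquiv.ext h, one_pow]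

theorem bal_gf [Fintype F] {q n : ℕ} (hF : Fintype.card F = q ^ 2) (hn : 3 ≤ n) (h2 : (2 : F) ≠ 0) :
    Bal 2 (Inn _) (fld _ F (SqField.conj hF) * tau (Fin n) F) := by
  have hn' : 3 ≤ Fintype.card (Fin n) := by simpa using hn
  have : Nontrivial (Fin n) := Fin.nontrivial_iff_two_le.2 (by omega)
  have h6 : ∀ g, PhiE (RingHom.id F) (LinearEquiv.refl F _) (Uni.std hF (Fin n)) g =
      (Orth.glEquiv _ F).symm g.1 := fun _ => Phi_id _
  refine bal_ext (θ := SemidirectProduct.inl.comp (PhiE (RingHom.id F) (LinearEquiv.refl F _)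
    (Uni.std hF (Fin n)))) (fun _ => rfl) frm_gam (std_HT hF) (Uni.std_nondeg hF _) hn'
    (Uni.exists_isotropic (Uni.sig_ne_id hF) (Uni.std_nondeg hF _) (by simp; omega)) Nat.prime_two
    (by exact_mod_cast h2) (.inl rfl) (fun g => ?_) (fun d hd => ?_)
    (fun a ha _ => mem_range_gam hn' a ha) sq_eq_one_of_id
  · rw [MonoidHom.comp_apply, ← AutPSL.diag_apply, h6]
    refine ⟨inn_eq_map_ker.ge ⟨_, Units.ext ?_, rfl⟩, ((cent_gf hF).ge ⟨_, ?_, rfl⟩).2⟩
    · rw [GeneralLinearGroup.val_det_apply, ← FGL.det_glEquiv, MulEquiv.apply_symm_apply,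
        ((Witt.Form.mem_SO _).1 (Witt.Form.E_le_SO _ g.2)).2, Units.val_one]
    · exact (Uni.mem_GU_iff hF).2 (by simpa using Witt.Form.E_le_O g.2)
  · obtain ⟨g, hg, rfl⟩ := (cent_gf hF).le ⟨Subgroup.map_le_range _ _ (inn_eq_map.le hd.1), hd.2⟩
    exact ⟨SemidirectProduct.inl g, g, GU_le hF hg, by rw [Phi_id]; rfl, rfl⟩

theorem bal_graph [Fintype F] {n : ℕ} (hn : 3 ≤ n) (hp : p.Prime) (hpF : (p : F) ≠ 0)
    {γ : GammaL (Fin n) F} (ho : orderOf (gam _ F γ * tau _ F) = p) :
    Bal p (Inn _) (gam _ F γ * tau (Fin n) F) := by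
  have hn' : 3 ≤ Fintype.card (Fin n) := by simpa using hn
  have : Nontrivial (Fin n) := Fin.nontrivial_iff_two_le.2 (by omega)
  obtain rfl : p = 2 := by_contra fun h => tau_not_mem_range hn' ((Subgroup.mul_mem_cancel_left _
    (MonoidHom.mem_range.2 ⟨γ, rfl⟩)).1 (mem_range_gam hn' _
      (ho ▸ (Nat.coprime_primes hp Nat.prime_two).2 h)))
  have h2 : (2 : F) ≠ 0 := by exact_mod_cast hpF
  have h3 := pow_orderOf_eq_one (gam _ F γ * tau (Fin n) F)
  by_cases hσ : γ.right = 1
  · rw [gam_eq, hσ, map_one, mul_one] at ho h3 ⊢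
    rw [ho, graph_sq] at h3
    obtain ⟨c, hc⟩ := mem_scalars_iff'.1 (diag_eq_one_iff.1 h3)
    exact (crit_graph frm_gam (ρ := SemidirectProduct.inl.comp (Subgroup.subtype ⊤)) (fun _ => rfl)
      amb_L (gr_L γ.left) (refl_of_eq (bG_nd _) (bG_swap_iff.2 hc.symm)) h2 hn'
      (mem_range_gam hn') sq_eq_one_of_id).1
  rw [ho, sq, mul_assoc, ← mul_assoc (tau _ F), tau_mul_gam_mul_tau, ← map_mul] at h3
  obtain ⟨r, hc⟩ := CharP.exists F
  obtain ⟨f, hr', hF⟩ := FiniteField.card F r
  have := Fact.mk hr'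
  obtain ⟨-, hF, h4⟩ := gf_data hF hσ (by simpa [sq, dualGamma_right] using (gam_eq_one_iff.1 h3).1)
  rw [gam_eq, mul_assoc, h4] at ho ⊢
  obtain ⟨α, -, h5⟩ := langProp_gf hF _ ⟨_, rfl⟩ ho
  exact (bal_gf hF hn h2).of_conj (α := α⁻¹) (by rw [h5]; group)

end CL.LBal
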