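/-
Rank three actions: the counting trick (Burnside and Cauchy-Schwarz) and double cosets.
-/
import Mathlib

set_option autoImplicit false

namespace CL.Rk

open MulAction

variable {H : Type*} [Group H] [Finite H] {X Y : Type*} [MulAction H X] [MulAction H Y]
  [Finite X] [Finite Y]

theorem burn (H X Y : Type*) [Group H] [Fintype H] [MulAction H X] [MulAction H Y] [Finite X]
    [Finite Y] : ∑ g : H, (Nat.card (fixedBy X g) : ℤ) * Nat.card (fixedBy Y g) =
      Nat.card (orbitRel.Quotient H (X × Y)) * Nat.card H := by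
  classical
  have := Fintype.ofFinite X
  have := Fintype.ofFinite Y
  have := Fintype.ofFinite (orbitRel.Quotient H (X × Y))
  have h := sum_card_fixedBy_eq_card_orbits_mul_card_group H (X × Y)
  rw [Nat.card_eq_fintype_card (α := H), Nat.card_eq_fintype_card (α := orbitRel.Quotient H _),
    ← Nat.cast_mul, ← h, Nat.cast_sum]
  refine Finset.sum_congr rfl fun g _ => ?_
  rw [← Nat.cast_mul, ← Nat.card_prod, ← Nat.card_eq_fintype_card]
  congr 1
  exact Nat.card_congr ⟨fun p => ⟨(p.1.1, p.2.1), Prod.ext p.1.2 p.2.2⟩,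
    fun p => (⟨p.1.1, congrArg Prod.fst p.2⟩, ⟨p.1.2, congrArg Prod.snd p.2⟩),
    fun _ => rfl, fun _ => rfl⟩

theorem card_eq_of_orbits (h₁ : Nat.card (orbitRel.Quotient H (X × X)) ≤ 3)
    (h₂ : Nat.card (orbitRel.Quotient H (Y × Y)) ≤ 3)
    (h₃ : 3 ≤ Nat.card (orbitRel.Quotient H (X × Y))) : Nat.card X = Nat.card Y := by
  have := Fintype.ofFinite H
  have key : ∑ g : H, ((Nat.card (fixedBy X g) : ℤ) - Nat.card (fixedBy Y g)) ^ 2 ≤ 0 := by
    have e : ∀ g : H, ((Nat.card (fixedBy X g) : ℤ) - Nat.card (fixedBy Y g)) ^ 2 =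
        (Nat.card (fixedBy X g) : ℤ) * Nat.card (fixedBy X g) +
          (Nat.card (fixedBy Y g) : ℤ) * Nat.card (fixedBy Y g) -
          2 * ((Nat.card (fixedBy X g) : ℤ) * Nat.card (fixedBy Y g)) := fun g => by ring
    simp only [e, Finset.sum_sub_distrib, Finset.sum_add_distrib, ← Finset.mul_sum, burn]
    have : (0 : ℤ) ≤ Nat.card H := Nat.cast_nonneg _
    nlinarith [(Nat.cast_le (α := ℤ)).2 h₁, (Nat.cast_le (α := ℤ)).2 h₂, (Nat.cast_le (α := ℤ)).2 h₃]
  have h := (Finset.sum_eq_zero_iff_of_nonneg fun g _ => sq_nonneg _).1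
    (le_antisymm key (Finset.sum_nonneg fun g _ => sq_nonneg _)) 1 (Finset.mem_univ _)
  rw [fixedBy_one_eq_univ, fixedBy_one_eq_univ, Nat.card_univ, Nat.card_univ] at h
  exact_mod_cast sub_eq_zero.1 (pow_eq_zero_iff two_ne_zero |>.1 h)

omit [Finite H] [Finite X] in
theorem orbits_prod_le [IsPretransitive H X] (x : X) :
    Nat.card (orbitRel.Quotient H (X × Y)) ≤ Nat.card (orbitRel.Quotient (stabilizer H x) Y) := by
  refine Nat.card_le_card_of_surjective (Quotient.map' (fun y => (x, y)) ?_) ?_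
  · rintro y y' ⟨k, hk⟩
    exact ⟨k, Prod.ext k.2 hk⟩
  · rintro ⟨x', y⟩
    obtain ⟨g, rfl⟩ := exists_smul_eq H x x'
    exact ⟨Quotient.mk'' (g⁻¹ • y), Quotient.sound' ⟨g⁻¹, by simp⟩⟩

omit [Finite H] [Finite Y] in
theorem orbits_le_three {a b c : Y}
    (h : ∀ y, (∃ g : H, g • a = y) ∨ (∃ g : H, g • b = y) ∨ ∃ g : H, g • c = y) :
    Nat.card (orbitRel.Quotient H Y) ≤ 3 := by
  refine (Nat.card_le_card_of_surjective
    (![Quotient.mk'' a, Quotient.mk'' b, Quotient.mk'' c] : Fin 3 → orbitRel.Quotient H Y) ?_).trans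
    (by simp)
  rintro ⟨y⟩
  rcases h y with h | h | h
  · exact ⟨0, (Quotient.sound' h).symm⟩
  · exact ⟨1, (Quotient.sound' h).symm⟩
  · exact ⟨2, (Quotient.sound' h).symm⟩

omit [Finite H] in
theorem three_le_orbits {a b c : Y} (h₁ : ∀ g : H, g • a ≠ b) (h₂ : ∀ g : H, g • a ≠ c)
    (h₃ : ∀ g : H, g • b ≠ c) : 3 ≤ Nat.card (orbitRel.Quotient H Y) := by
  have k : ∀ {a b : Y}, (∀ g : H, g • a ≠ b) →
      (Quotient.mk'' a : orbitRel.Quotient H Y) ≠ Quotient.mk'' b := fun h e =>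
    let ⟨g, hg⟩ := Quotient.exact' e.symm; h g hg
  refine le_trans (by simp) (Nat.card_le_card_of_injective
    (![Quotient.mk'' a, Quotient.mk'' b, Quotient.mk'' c] : Fin 3 → orbitRel.Quotient H Y) ?_)
  intro i j
  fin_cases i <;> fin_cases j <;> simp [k h₁, k h₂, k h₃, (k h₁).symm, (k h₂).symm, (k h₃).symm]

omit [Finite H] [Finite X] in
/-- Among three points other than `x`, two are in the same orbit of the stabiliser. -/
theorem four_of_rank {x : X} (h : Nat.card (orbitRel.Quotient (stabilizer H x) X) = 3)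
    {a b c : X} (ha : a ≠ x) (hb : b ≠ x) (hc : c ≠ x) :
    (∃ k ∈ stabilizer H x, k • a = b) ∨ (∃ k ∈ stabilizer H x, k • a = c) ∨
      ∃ k ∈ stabilizer H x, k • b = c := by
  by_contra hcon
  simp only [not_or, not_exists, not_and] at hcon
  have : Finite (orbitRel.Quotient (stabilizer H x) X) := Nat.finite_of_card_ne_zero (by omega)
  have k : ∀ {a b : X}, (∀ g ∈ stabilizer H x, g • a ≠ b) →
      (Quotient.mk'' a : orbitRel.Quotient (stabilizer H x) X) ≠ Quotient.mk'' b := fun h e =>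
    let ⟨g, hg⟩ := Quotient.exact' e.symm; h g g.2 hg
  have k0 : ∀ {a : X}, a ≠ x →
      (Quotient.mk'' x : orbitRel.Quotient (stabilizer H x) X) ≠ Quotient.mk'' a := fun h =>
    k fun g hg e => h (e.symm.trans hg)
  have h4 := Nat.card_le_card_of_injective (![Quotient.mk'' x, Quotient.mk'' a, Quotient.mk'' b,
    Quotient.mk'' c] : Fin 4 → orbitRel.Quotient (stabilizer H x) X) (by
      intro i j
      fin_cases i <;> fin_cases j <;> simp [k hcon.1, k hcon.2.1, k hcon.2.2, (k hcon.1).symm,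
        (k hcon.2.1).symm, (k hcon.2.2).symm, k0 ha, k0 hb, k0 hc, (k0 ha).symm, (k0 hb).symm,
        (k0 hc).symm])
  simp [h] at h4

end CL.Rk
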