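/-
Rank three actions of the symplectic groups in odd characteristic: index of a transvection-free subgroup.
-/
import Cfsg.Agent.CLAS.RkDef
import Cfsg.Agent.KSG.CoopS3

set_option autoImplicit false

namespace CL.Rk

open Module CL.Witt CL.Witt.Form FormType Submodule

variable {F : Type*} [Field F] [Finite F] {V : Type*} [AddCommGroup V] [Module F V]
  [FiniteDimensional F V] {f : Form (alt F) V} {K : Subgroup (V ≃ₗ[F] V)}

namespace A

open CL.Coop CL.Root MulAction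
open scoped Pointwise

variable {Ω : Type*} [MulAction (V ≃ₗ[F] V) Ω] {ω ω₁ : Ω} {u u' y z : V} {k : ℕ}

theorem num1 {q X a o N : ℕ} (hq : 2 ≤ q) (hX : q ^ 2 ≤ X) (ho : o * a = X ^ 2 * q) (ha : a ≤ q)
    (hN : N ≤ q ^ 2 * X ^ 2) (h : (X ^ 2 - 1) * o ≤ N * (a - 1)) : False := by
  have h0 : 0 < X := lt_of_lt_of_le (by positivity) hX
  have h1 : (X ^ 2 - 1) * (X ^ 2 * q) ≤ q ^ 2 * X ^ 2 * (q - 1) * q := by
    rw [← ho, ← mul_assoc]
    exact Nat.mul_le_mul (h.trans (Nat.mul_le_mul hN (by omega))) ha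
  have h2 : X ^ 2 - 1 ≤ q ^ 2 * (q - 1) :=
    Nat.le_of_mul_le_mul_right (h1.trans_eq (by ring)) (show 0 < X ^ 2 * q by positivity)
  obtain ⟨r, rfl⟩ := Nat.exists_eq_add_of_le' hq
  have h3 := Nat.pow_le_pow_left hX 2
  rw [show r + 2 - 1 = r + 1 from rfl, tsub_le_iff_right] at h2
  nlinarith [Nat.zero_le (r ^ 4), Nat.zero_le (r ^ 3), Nat.zero_le (r ^ 2)]

theorem num2 {q X a o N τ : ℕ} (hq : 2 ≤ q) (hX : q ^ 2 ≤ X) (ho : o * a = X ^ 2 * q) (ha : a ≤ X)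
    (hN : N ≤ q ^ 2 * X ^ 2) (hτ : τ * q = X ^ 2)
    (h : (X ^ 2 - 1) * (τ - q) * o ≤ N * ((a - 1) * (a - 1))) : False := by
  have h4 : 4 ≤ X := le_trans (by nlinarith) hX
  have h1 : (X ^ 2 - 1) * (X ^ 2 - q ^ 2) * (X ^ 2 * q) ≤
      q ^ 2 * X ^ 2 * ((X - 1) * (X - 1)) * X * q := by
    calc _ = (X ^ 2 - 1) * (τ - q) * o * a * q := by
          rw [← ho, ← hτ, sq q, ← tsub_mul]
          ring
      _ ≤ _ := Nat.mul_le_mul_right _ (Nat.mul_le_mul (h.trans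
        (Nat.mul_le_mul hN (Nat.mul_le_mul (by omega) (by omega)))) ha)
  have h2 : (X ^ 2 - 1) * (X ^ 2 - X) ≤ X * ((X - 1) * (X - 1)) * X := by
    refine Nat.le_of_mul_le_mul_right (c := X ^ 2 * q) (le_trans ?_ (h1.trans ?_)) (by positivity)
    · gcongr
    · calc _ = q ^ 2 * (X ^ 2 * ((X - 1) * (X - 1)) * X * q) := by ring
        _ ≤ X * _ := Nat.mul_le_mul_right _ hX
        _ = _ := by ring
  obtain ⟨Y, rfl⟩ := Nat.exists_eq_add_of_le' (show 1 ≤ X by omega)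
  rw [show (Y + 1) ^ 2 - 1 = Y * (Y + 2) from Nat.sub_eq_of_eq_add (by ring),
    show (Y + 1) ^ 2 - (Y + 1) = (Y + 1) * Y from Nat.sub_eq_of_eq_add (by ring),
    Nat.add_sub_cancel] at h2
  have h5 : 0 < Y * Y * (Y + 1) := by
    have : 0 < Y := by omega
    positivity
  nlinarith

omit [Finite F] [FiniteDimensional F V] in
theorem smul_orbit {g : V ≃ₗ[F] V} (hg : g ∈ f.O) (u : V) (ω : Ω) :
    g • orbit (f.U u) ω = orbit (f.U (g u)) (g • ω) := by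
  have key : ∀ {g : V ≃ₗ[F] V}, g ∈ f.O → ∀ (u : V) (ω : Ω),
      g • orbit (f.U u) ω ⊆ orbit (f.U (g u)) (g • ω) := by
    rintro g hg u ω _ ⟨_, ⟨x, rfl⟩, rfl⟩
    exact ⟨⟨_, conj_mem_U hg x.2⟩, by simp [Subgroup.smul_def, mul_smul]⟩
  refine (key hg u ω).antisymm (Set.subset_smul_set_iff.2 ?_)
  have := key (inv_mem hg) (g u) (g • ω)
  rwa [inv_smul_smul, show g⁻¹ (g u) = u from g.symm_apply_apply u] at this

omit [Finite F] [FiniteDimensional F V] in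
theorem tv_add_sub (h : f.B y z = 0) :
    f.tv (y + z) 1 * f.tv (y - z) 1 = f.tv y 1 * f.tv y 1 * (f.tv z 1 * f.tv z 1) := by
  ext x
  simp only [LinearEquiv.mul_apply, tv_apply, map_add, map_smul, map_sub, f.alt_B_self, h,
    f.B_eq_zero_symm h, LinearMap.add_apply, LinearMap.sub_apply]
  module

variable (hf : f.Nondeg) (h2 : (2 : F) ≠ 0) (hm : finrank F V = 2 * (k + 1)) (hk : 2 ≤ k)
include hf h2 hm

theorem card_A {hu : f.q u = 0} (huu : f.B u u' = 1) {b : F} (hb : b ∉ Zw f hu ω₁) :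
    Nat.card (Aw f hu u' ω₁) ≤ Nat.card F ^ k := by
  obtain ⟨χ, h1, h3⟩ := exists_char hb
  have h7 := card_sq_le hf hu (f.alt_q u') huu (ψ := χ.compAddMonoidHom (AddMonoidHom.mulLeft 2))
    (fun h => h3 (by simpa [mul_div_cancel₀ _ h2] using DFunLike.congr_fun h (b / 2)))
    (fun x hx => Aw_le hx) (fun x : Aw f hu u' ω₁ => x.1) (fun x => ⟨Aw_le x.2, fun y hy =>
      h1 _ (by simpa [f.alt_symm y, two_mul] using sub_mem_Zw hy x.2)⟩) Subtype.val_injective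
  rw [← card_Wp hf hu (f.alt_q u') huu, card_Wp_alt hf huu hm, ← sq] at h7
  exact (Nat.pow_le_pow_iff_left two_ne_zero).1 h7

omit h2 in
theorem card_orb (hu : f.q u = 0) (huu : f.B u u' = 1) (ω₁ : Ω) :
    Nat.card (orbit (f.U u) ω₁) * (Nat.card (Aw f hu u' ω₁) * Nat.card (Zw f hu ω₁)) =
      (Nat.card F ^ k) ^ 2 * Nat.card F := by
  have : Finite V := Module.finite_of_finite F
  rw [card_orbit huu, card_Wp_alt hf huu hm, card_ker_alt]

include hk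

/-- A point with a short orbit under `U u` is fixed by all transvections with centre `u`. -/
theorem full (huu : f.B u u' = 1) (ho : Nat.card (orbit (f.U u) ω₁) ≤ Nat.card F ^ 2) (b : F) :
    f.tv u b • ω₁ = ω₁ := by
  by_contra hb
  have hb' : b ∉ Zw f (f.alt_q u) ω₁ := fun h => hb (f.ei_zero_eq_tv u b ▸ h.2)
  have h1 := card_orb hf hm (f.alt_q u) huu ω₁
  have h3 := card_A hf h2 hm huu hb'
  have h4 := card_mul_two_le (A := Zw f (f.alt_q u) ω₁) (B := ⊤) le_top fun h => hb' (h trivial)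
  rw [AddSubgroup.card_top] at h4
  have h5 : 0 < Nat.card F := Nat.card_pos
  have h6 := Nat.pow_le_pow_right h5 hk
  generalize Nat.card F ^ k = X at *
  have h7 := Nat.mul_le_mul ho (Nat.mul_le_mul h3 (le_refl (Nat.card (Zw f (f.alt_q u) ω₁))))
  have h8 := Nat.mul_le_mul_left (Nat.card F ^ 2 * X) h4
  have h9 := Nat.mul_le_mul_right (X * Nat.card F) h6
  have : 0 < X ^ 2 * Nat.card F := Nat.mul_pos (pow_pos (lt_of_lt_of_le (by positivity) h6) 2) h5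
  nlinarith

variable [Finite Ω] (hN : Nat.card (orbit f.E ω) ≤ Nat.card F ^ 2 * (Nat.card F ^ k) ^ 2)
  (hT : ∀ ω' ∈ orbit f.E ω, ∀ v c, f.tv v c • ω' = ω' → v = 0 ∨ c = 0)
include hN hT

omit hf h2 hm hk hN [Finite F] [FiniteDimensional F V] [Finite Ω] in
theorem Z_bot {hu : f.q u = 0} (huu : f.B u u' = 1) (h₀ : ω₁ ∈ orbit f.E ω) : Zw f hu ω₁ = ⊥ :=
  eq_bot_iff.2 fun a ha => (hT _ h₀ u a (f.ei_zero_eq_tv u a ▸ ha.2)).resolve_left (by
    rintro rfl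
    simp at huu)

theorem A_zero {hu : f.q u = 0} (huu : f.B u u' = 1) (h₀ : ω₁ ∈ orbit f.E ω)
    (hy : y ∈ Aw f hu u' ω₁) : y = 0 := by
  have : Finite V := Module.finite_of_finite F
  by_contra h0
  have hq : 2 ≤ Nat.card F := Finite.one_lt_card
  have hX := Nat.pow_le_pow_right (show 0 < Nat.card F by omega) hk
  have ho := card_orb hf hm hu huu ω₁
  rw [Z_bot hT huu h₀, AddSubgroup.card_bot, mul_one] at ho
  have hN' := (card_Cl_le (hu := hu) (u' := u') (ω := ω) ω₁).trans hN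
  have hS : ∀ g, Lv f u u' g 1 → ∀ ω' ∈ orbit (f.U u) ω₁, g • ω' ∈ Cl f hu u' ω ω₁ :=
    fun g hg ω' h => hg.mem_Cl' (orbit_U_le_Cl ⟨h₀, rfl, rfl⟩ h)
  have hD : ∀ g, Lv f u u' g 1 → ∀ ω : Ω, ∀ x ∈ Aw f hu u' ω, g x ∈ Aw f hu u' (g • ω) :=
    fun g hg ω x hx => by simpa using hg.mem_Aw hx
  by_cases h1 : ∀ z ∈ Aw f hu u' ω₁, z ∈ F ∙ y
  · exact num1 hq hX ho ((card_le_of_subset h1).trans (card_line_le y)) hN'
      (vec_alt hf huu hm hS hD (Aw_le hy) h0 (fun ω' h => Aw_eq_of_orbit h ▸ hy) fun _ h => h.2.1)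
  push Not at h1
  obtain ⟨z, hz, h1⟩ := h1
  have h3 : f.B y z = 0 := by
    have := sub_mem_Zw hy hz
    rw [Z_bot hT huu h₀, AddSubgroup.mem_bot, f.alt_symm y z, sub_neg_eq_add, ← two_mul] at this
    exact (mul_eq_zero.1 this).resolve_left h2
  have h4 : ∀ y' ∈ Wp f u u', y' ≠ 0 → Nat.card {v // v ∈ Wp f u u' ∧ f.B y' v = 0} *
      Nat.card F = (Nat.card F ^ k) ^ 2 := fun y' h2 h3 => by
    obtain ⟨x, h4, h5⟩ := hf.exists_perp_eq' (not_mem_of_Wp hu (f.alt_q u') huu h2 h3) 1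
    rw [card_fiber_lin (Wp f u u') _ h4 (by simp [h5]), card_Wp_alt hf huu hm]
  obtain ⟨τ, hτ⟩ : ∃ τ, τ * Nat.card F = (Nat.card F ^ k) ^ 2 := ⟨_, h4 y (Aw_le hy) h0⟩
  have h5 := pair_cover (F := F) (S := Cl f hu u' ω ω₁) (S₁ := orbit (f.U u) ω₁)
    (P := fun v => v ∈ Wp f u u' ∧ v ≠ 0)
    (R := fun y' v => v ∈ Wp f u u' ∧ v ∉ F ∙ y' ∧ f.B y' v = 0)
    (fun ω v => v ∈ Aw f hu u' ω) (fun ω v => v ∈ Aw f hu u' ω) (t := τ - Nat.card F)
    (card_ne_zero_sub (Wp f u u').toAddSubgroup).ge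
    (fun y' h => tsub_le_iff_right.mpr (by
      rw [Nat.eq_of_mul_eq_mul_right Nat.card_pos (hτ.trans (h4 y' h.1 h.2).symm)]
      exact (card_le_of_subset fun v hv => or_iff_not_imp_right.mpr fun h => ⟨hv.1, h, hv.2⟩).trans
        (card_or_le.trans (Nat.add_le_add_left (card_line_le (F := F) y') _))))
    (fun y' z' h5 h6 => by
      obtain ⟨g, hg, h7, h8⟩ := exists_lv_pair hf hu (f.alt_q u') huu (Aw_le hy) h5.1 (Aw_le hz)
        h6.1 h0 h5.2 h1 h6.2.1 one_ne_zero one_ne_zero one_ne_zero (by simp [f.alt_q])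
        (by simp [f.alt_q]) (by simp [f.B_eq_zero_symm h6.2.2, f.B_eq_zero_symm h3])
        fun g hg => ⟨g, hf.alt_E_eq_O ▸ hg, fun _ _ => rfl⟩
      rw [one_smul] at h7 h8
      exact ⟨g, fun ω' h => ⟨hS g hg _ h, h7 ▸ hD g hg _ y (Aw_eq_of_orbit h ▸ hy),
        h8 ▸ hD g hg _ z (Aw_eq_of_orbit h ▸ hz)⟩⟩)
    (fun ω' h => (card_le_of_subset fun v hv => ⟨hv.1, hv.2.2⟩).trans
      ((card_ne_zero_sub _).trans (congrArg (· - 1) h.2.1)).le)
    fun ω' h y' _ _ => (card_le_of_subset fun v hv => ⟨hv.1, fun e => hv.2.2.1 (e ▸ zero_mem _)⟩).trans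
      ((card_ne_zero_sub _).trans (congrArg (· - 1) h.2.1)).le
  erw [card_Wp_alt hf huu hm] at h5
  exact num2 hq hX ho (card_A hf h2 hm huu (b := 1) (by simp [Z_bot hT huu h₀])) hN' hτ h5

/-- There are at most `q` orbits of `U u`. -/
theorem card_orbits (h0 : u ≠ 0) :
    Nat.card {S : Set Ω // ∃ ω' ∈ orbit f.E ω, S = orbit (f.U u) ω'} ≤ Nat.card F := by
  obtain ⟨u', huu⟩ := hf.exists_B_eq h0 1
  have h1 := card_mul_orbit_le (S := orbit f.E ω) (fun g hg _ h => smul_mem_orb (U_le_E u hg) h)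
    (fun S : {S : Set Ω // ∃ ω' ∈ orbit f.E ω, S = orbit (f.U u) ω'} => S.2.choose)
    (fun S => S.2.choose_spec.1) (fun S S' h => Subtype.ext (S.2.choose_spec.2.trans
      ((orbit_eq_iff.2 h).trans S'.2.choose_spec.2.symm))) fun S => by
      have := card_orb hf hm (f.alt_q u) huu S.2.choose
      rw [Z_bot hT huu S.2.choose_spec.1, show Aw f _ u' S.2.choose = ⊥ from eq_bot_iff.2 fun y hy =>
        A_zero hf h2 hm hk hN hT huu S.2.choose_spec.1 hy, AddSubgroup.card_bot,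
        AddSubgroup.card_bot, mul_one, mul_one] at this
      exact this.ge
  have h5 : 0 < Nat.card F := Nat.card_pos
  exact Nat.le_of_mul_le_mul_right (h1.trans (hN.trans_eq (by ring))) (by positivity)

theorem tv_mem_orbit (huu : f.B u u' = 1) (h₀ : ω₁ ∈ orbit f.E ω) (hy : y ∈ Wp f u u') (c : F) :
    f.tv y c • ω₁ ∈ orbit (f.U u) ω₁ := by
  have : Finite V := Module.finite_of_finite F
  by_cases h0 : y = 0
  · rw [h0, tv_zero_left, one_smul]
    exact mem_orbit_self _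
  obtain ⟨y', hyy⟩ := hf.exists_B_eq h0 1
  obtain ⟨h3, h4⟩ := f.mem_perp_span_pair.1 hy
  have h1 := full hf h2 hm hk (ω₁ := (u, orbit (f.U u) ω₁)) hyy (le_trans (le_trans
    (card_le_of_subset (p' := fun p : V × Set Ω => p.1 - u ∈ F ∙ y ∧
      ∃ ω' ∈ orbit f.E ω, p.2 = orbit (f.U p.1) ω') ?_) (card_pair_le
      (P := fun v => v - u ∈ F ∙ y) (R := fun v S => ∃ ω' ∈ orbit f.E ω, S = orbit (f.U v) ω')
      fun v hv => card_orbits hf h2 hm hk hN hT ?_)) ?_) c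
  · rw [← show _ = orbit (f.U u) ω₁ from congrArg Prod.snd h1]
    exact Set.smul_mem_smul_set (mem_orbit_self _)
  · rintro _ ⟨⟨g, hg⟩, rfl⟩
    refine ⟨?_, _, smul_mem_orb (U_le_E y hg) h₀, smul_orbit (U_le_O y hg) u ω₁⟩
    obtain ⟨x, a, h5, rfl⟩ := (mem_U (f.alt_q y)).1 hg
    change f.ei y x a u - u ∈ _
    rw [h5.ei_apply_of_perp (f.B_eq_zero_symm h3), sub_sub_cancel_left]
    exact neg_mem (smul_mem _ _ (mem_span_singleton_self y))
  · rintro rfl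
    obtain ⟨a, ha⟩ := mem_span_singleton.1 hv
    simpa [f.B_eq_zero_symm h4, huu, alt_σ] using congrArg (f.B · u') ha
  · rw [sq]
    exact Nat.mul_le_mul_right _ ((Nat.card_le_card_of_injective
      (fun v => (⟨v.1 - u, v.2⟩ : {v // v ∈ F ∙ y})) fun _ _ h =>
        Subtype.ext (sub_left_inj.1 (congrArg Subtype.val h))).trans (card_line_le y))

theorem main : False := by
  have : Nontrivial V := Module.nontrivial_of_finrank_pos (R := F) (by omega)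
  obtain ⟨u, h0⟩ := exists_ne (0 : V)
  obtain ⟨u', huu⟩ := hf.exists_B_eq h0 1
  have hu := f.alt_q u
  have hu' := f.alt_q u'
  have hc := f.isCompl_perp_pair hu hu' huu
  let M : Subgroup (V ≃ₗ[F] V) :=
    { carrier := {g | g ∈ f.E ∧ ∀ ω' ∈ orbit f.E ω, g • ω' ∈ orbit (f.U u) ω'}
      one_mem' := ⟨one_mem _, fun _ _ => by simp⟩
      mul_mem' := fun {a b} ha hb => ⟨mul_mem ha.1 hb.1, fun ω' h => by
        rw [mul_smul, ← orbit_eq_iff.2 (hb.2 _ h)]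
        exact ha.2 _ (smul_mem_orb hb.1 h)⟩
      inv_mem' := fun {a} ha => ⟨inv_mem ha.1, fun ω' h => mem_orbit_symm.1 (by
        simpa using ha.2 _ (smul_mem_orb (inv_mem ha.1) h))⟩ }
  have hM : ∀ l ∈ f.O, l u = u → l u' = u' → Lv f u u' l 1 ∧
      ∀ ω' ∈ orbit f.E ω, ∃ x, Cy f u u' ω' l x := fun l hl h3 h4 =>
    ⟨Lv.one (hf.alt_E_eq_O ▸ hl) h3 h4, fun ω' h => exists_cy hu huu ((hf.fix_le_of_tv (M := M)
      hc.disjoint (fun v hv c => ⟨hf.alt_E_eq_O ▸ f.tv_mem_O v c, fun _ h =>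
        tv_mem_orbit hf h2 hm hk hN hT huu h hv c⟩) (f.mem_fix_span.2 ⟨hl, by simp [h3, h4]⟩)).2 _ h)⟩
  obtain ⟨c, c1, c2, c3, c4, -⟩ := exists_ext hu hu' huu (LinearEquiv.neg F)
  replace c3 : ∀ x ∈ Wp f u u', c x = -x := fun x hx => c3 ⟨x, hx⟩
  obtain ⟨hcl, c5⟩ := hM c (c4 ((alt_isIsom_iff _ _ _).2 fun x y => by simp)) c1 c2
  obtain ⟨x, hx⟩ := c5 ω (mem_orbit_self ω)
  have hw : f.B u ((2 : F)⁻¹ • x) = 0 := by simp [hx.2.choose_spec.1.huv]
  obtain ⟨b, -, h3⟩ := hx.fix hcl (okA hw 0) (by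
    rw [map_smul, c3 x hx.mem, alt_σ]
    match_scalars
    field_simp
    ring)
  generalize (2 : F)⁻¹ • x = w at *
  have h4 : f.ei u w 0 • ω ∈ orbit f.E ω := smul_mem_orb (ei_mem_E _ _ _) (mem_orbit_self ω)
  have h5 : Cy f u u' (f.ei u w 0 • ω) c 0 := ⟨by simp, b, okA (by simp) _, by
    rw [h3, ← mul_smul, (okA (f.B_zero_right u) _).ei_mul (okA hw 0)]
    simp⟩
  generalize f.ei u w 0 • ω = ω₂ at *
  have h6 : ∀ l ∈ f.O, l u = u → l u' = u' → ∃ b, l • ω₂ = f.tv u b • ω₂ := fun l hl h6 h7 => by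
    obtain ⟨hl', h8⟩ := hM l hl h6 h7
    obtain ⟨y, hy⟩ := h8 _ h4
    have h9 := Cy.comm (hu := hu) (fun y hy => A_zero hf h2 hm hk hN hT huu h4 hy) hcl hl' h5 hy (by
      ext v
      obtain ⟨p, hp, v, hv, rfl⟩ := mem_sup.mp (hc.sup_eq_top ▸ mem_top : v ∈ _)
      obtain ⟨α, β, rfl⟩ := mem_span_pair.mp hp
      simp [h6, h7, c1, c2, c3 v hv, c3 _ (hl'.perp hv)])
    rw [c3 y hy.mem] at h9
    obtain rfl : y = 0 := by
      have : (2 : F) • y = 0 := by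
        simp only [alt_σ, one_smul, map_zero, add_zero, zero_add] at h9
        rw [two_smul, ← neg_eq_iff_add_eq_zero, h9]
      exact (smul_eq_zero.1 this).resolve_left h2
    obtain ⟨-, b, -, e⟩ := hy
    exact ⟨b, e.trans (by rw [ei_zero_eq_tv])⟩
  have cm : ∀ {g}, g ∈ f.O → g u = u → ∀ c (ω : Ω), g • f.tv u c • ω = f.tv u c • g • ω :=
    fun {g} hg h c ω => by
      rw [smul_smul, smul_smul, mul_inv_eq_iff_eq_mul.1 (tv_conj hg u c), h]
  have hW := finrank_Wp hf hu hu' huu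
  have : Nontrivial (Wp f u u') := Module.nontrivial_of_finrank_pos (R := F) (by omega)
  obtain ⟨⟨y, hy⟩, hy0⟩ := exists_ne (0 : Wp f u u')
  replace hy0 : y ≠ 0 := fun h => hy0 (Subtype.ext h)
  have fx : ∀ z ∈ Wp f u u', f.tv z 1 u = u ∧ f.tv z 1 u' = u' := fun z hz =>
    ⟨f.tv_apply_of_B_eq_zero 1 (f.B_eq_zero_symm (f.mem_perp_span_pair.1 hz).1),
      f.tv_apply_of_B_eq_zero 1 (f.B_eq_zero_symm (f.mem_perp_span_pair.1 hz).2)⟩
  obtain ⟨θ, hθ⟩ := h6 _ (f.tv_mem_O y 1) (fx y hy).1 (fx y hy).2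
  have all : ∀ z ∈ Wp f u u', z ≠ 0 → f.tv z 1 • ω₂ = f.tv u θ • ω₂ := fun z hz hz0 => by
    obtain ⟨g, hg, g1, g2, rfl⟩ := exists_levi hf hu hu' huu hy hz hy0 hz0 (by simp [f.alt_q])
    obtain ⟨β, hβ⟩ := h6 g⁻¹ (inv_mem hg) ((LinearEquiv.symm_apply_eq _).mpr g1.symm)
      ((LinearEquiv.symm_apply_eq _).mpr g2.symm)
    rw [← tv_conj hg, mul_smul, mul_smul, hβ, cm (f.tv_mem_O y 1) (fx y hy).1, hθ,
      cm (f.tv_mem_O u β) (f.tv_apply_self u β), cm hg g1, ← hβ, smul_inv_smul]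
  obtain ⟨z, hz, hz1⟩ : ∃ z ∈ Wp f u u' ⊓ f.perp (F ∙ y), z ∉ F ∙ y := by
    refine SetLike.not_le_iff_exists.1 fun h => ?_
    have e1 := Submodule.finrank_mono h
    have e2 := Submodule.finrank_sup_add_finrank_inf_eq (Wp f u u') (f.perp (F ∙ y))
    have e3 := Submodule.finrank_le (Wp f u u' ⊔ f.perp (F ∙ y))
    have e4 := hf.finrank_perp (F ∙ y)
    rw [finrank_span_singleton hy0] at e1 e4
    omega
  have hyy := mem_span_singleton_self (R := F) y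
  have e := congrArg (· • ω₂) (tv_add_sub (f.mem_perp_span_singleton.1 hz.2))
  have z0 : z ≠ 0 := fun h => hz1 (h ▸ zero_mem _)
  have z1 : y + z ≠ 0 := fun h => hz1 (eq_neg_of_add_eq_zero_right h ▸ neg_mem hyy)
  have z2 : y - z ≠ 0 := fun h => hz1 (sub_eq_zero.1 h ▸ hyy)
  simp only [mul_smul, all _ (sub_mem hy hz.1) z2, all _ hz.1 z0, all _ (add_mem hy hz.1) z1, hθ,
    cm (f.tv_mem_O _ 1) (fx _ (add_mem hy hz.1)).1, cm (f.tv_mem_O _ 1) (fx _ hz.1).1,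
    cm (f.tv_mem_O _ 1) (fx _ hy).1, smul_left_cancel_iff] at e
  rw [smul_smul, tv_mul, ← two_mul] at e
  obtain rfl : θ = 0 :=
    (mul_eq_zero.1 ((hT _ h4 _ _ e.symm).resolve_left h0)).resolve_left h2
  rw [tv_zero, one_smul] at hθ
  exact one_ne_zero ((hT _ h4 _ _ hθ).resolve_left hy0)

end A

/-- A transvection-free subgroup has index `> q^(dim V)`. -/
theorem index_gt (h : R3 f K) (hT : TF f K) : Nat.card F ^ finrank F V < K.relIndex f.O := by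
  have : Finite V := Module.finite_of_finite F
  have : Finite (V ≃ₗ[F] V) := Finite.of_injective _ DFunLike.coe_injective
  obtain ⟨m, hm⟩ := h.nd.even_finrank_alt
  have hd := h.dim
  obtain ⟨k, rfl⟩ : ∃ k, m = k + 1 := ⟨m - 1, by omega⟩
  by_contra hlt
  refine A.main (ω := ((1 : V ≃ₗ[F] V) : _ ⧸ K)) h.nd h.two (k := k) (by omega) (by omega) ?_ ?_
  · rw [h.nd.alt_E_eq_O, Nat.card_coe_set_eq]
    refine (MulAction.index_stabilizer f.O _).symm.trans_le ?_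
    rw [show MulAction.stabilizer f.O ((1 : V ≃ₗ[F] V) : _ ⧸ K) = K.subgroupOf f.O from
      Subgroup.ext fun g => SetLike.ext_iff.mp (MulAction.stabilizer_quotient K) g.1]
    exact (not_lt.1 hlt).trans_eq (by rw [hm]; ring)
  · rintro _ ⟨⟨g, hg⟩, rfl⟩ v c e
    have hg' := inv_mem (E_le_O hg)
    have h1 : g⁻¹ * f.tv v c * g⁻¹⁻¹ ∈ K := by
      rw [← MulAction.stabilizer_quotient K, MulAction.mem_stabilizer_iff, inv_inv, mul_smul,
        mul_smul, inv_smul_eq_iff]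
      exact e
    rw [tv_conj hg'] at h1
    simpa using hT _ _ h1

end CL.Rk
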