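/-
Rank three actions of the symplectic groups in odd characteristic: no split elements.
-/
import Cfsg.Agent.CLAS.RkB1

set_option autoImplicit false
set_option maxRecDepth 100000
set_option synthInstance.maxSize 2000

namespace CL.Rk.B4

open Module CL.Witt CL.Witt.Form FormType Submodule CL.Rk

variable {F : Type*} [Field F] {V : Type*} [AddCommGroup V] [Module F V]
  {f : Form (alt F) V} {K : Subgroup (V ≃ₗ[F] V)}

/-- A frame `e, e', r, s`. -/
structure Fr (f : Form (alt F) V) (e e' r s : V) : Prop where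
  ee : f.B e e' = 1
  er : f.B e r = 0
  er' : f.B e' r = 0
  rs : f.B r s = 1
  es : f.B e s = 0
  es' : f.B e' s = 0

variable {e e' r s : V} {x x' c : V ≃ₗ[F] V} {ρ σ τ ρ' σ' τ' l : F}

theorem Fr.coef (H : Fr f e e' r s) {p q u p' q' u' : F}
    (h : p • e + q • e' + u • r = p' • e + q' • e' + u' • r) : p = p' ∧ q = q' ∧ u = u' := by
  have h1 := congrArg (fun v => f.B v e') h
  have h2 := congrArg (fun v => f.B e v) h
  have h3 := congrArg (fun v => f.B v s) h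
  have := f.B_eq_zero_symm H.er'
  simp only [f.B_add_left, Bl, f.B_add_right, Br, H.ee, H.er, H.rs, H.es, H.es', f.alt_B_self,
    this] at h1 h2 h3
  exact ⟨by linear_combination h1, by linear_combination h2, by linear_combination h3⟩

theorem mem_W {v : V} : v ∈ span F {e, e'} ⊔ F ∙ r ↔ ∃ p q u : F, v = p • e + q • e' + u • r := by
  constructor
  · intro h
    obtain ⟨a, ha, b, hb, rfl⟩ := mem_sup.1 h
    obtain ⟨p, q, rfl⟩ := mem_span_pair.1 ha
    obtain ⟨u, rfl⟩ := mem_span_singleton.1 hb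
    exact ⟨p, q, u, rfl⟩
  · rintro ⟨p, q, u, rfl⟩
    exact add_mem (mem_sup_left (mem_span_pair.2 ⟨p, q, rfl⟩))
      (mem_sup_right (mem_span_singleton.2 ⟨u, rfl⟩))

theorem Fr.fix_r (H : Fr f e e' r s) (hx : x ∈ Sup f K (span F {e, e'} ⊔ F ∙ r)) : x r = r := by
  refine hx.2.2 r fun v hv => ?_
  obtain ⟨p, q, u, rfl⟩ := mem_W.1 hv
  simp only [f.B_add_left, Bl, H.er, H.er', f.alt_B_self]
  ring

/-- Coordinates of a unipotent element. -/
structure Co (f : Form (alt F) V) (K : Subgroup (V ≃ₗ[F] V)) (e e' r : V) (x : V ≃ₗ[F] V)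
    (ρ σ τ : F) : Prop where
  mem : x ∈ Sup f K (span F {e, e'} ⊔ F ∙ r)
  e1 : x e = e + ρ • r
  e2 : x e' = e' + σ • e + τ • r

theorem Co.mul (H : Fr f e e' r s) (h : Co f K e e' r x ρ σ τ) (h' : Co f K e e' r x' ρ' σ' τ') :
    Co f K e e' r (x * x') (ρ + ρ') (σ + σ') (τ + τ' + σ' * ρ) := by
  refine ⟨mul_mem h.mem h'.mem, ?_, ?_⟩
  · rw [LinearEquiv.mul_apply, h'.e1, map_add, map_smul, h.e1, H.fix_r h.mem]
    module
  · rw [LinearEquiv.mul_apply, h'.e2, map_add, map_add, map_smul, map_smul, h.e1, h.e2,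
      H.fix_r h.mem]
    module

theorem Co.inv (H : Fr f e e' r s) (h : Co f K e e' r x ρ σ τ) :
    Co f K e e' r x⁻¹ (-ρ) (-σ) (σ * ρ - τ) := by
  refine ⟨inv_mem h.mem, x.injective ?_, x.injective ?_⟩
  · rw [map_add, map_smul, h.e1, H.fix_r h.mem, ← LinearEquiv.mul_apply, mul_inv_cancel,
      LinearEquiv.coe_one, id]
    module
  · rw [map_add, map_add, map_smul, map_smul, h.e1, h.e2, H.fix_r h.mem, ← LinearEquiv.mul_apply,
      mul_inv_cancel, LinearEquiv.coe_one, id]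
    module

theorem inv_smul_of {v : V} (l0 : l ≠ 0) (h : c v = l • v) : c⁻¹ v = l⁻¹ • v :=
  c.injective (by
    rw [map_smul, h, smul_smul, inv_mul_cancel₀ l0, one_smul, ← LinearEquiv.mul_apply,
      mul_inv_cancel, LinearEquiv.coe_one, id])

theorem Co.conj (H : Fr f e e' r s) (h : Co f K e e' r x ρ σ τ)
    (hc : c ∈ Sup f K (span F {e, e'} ⊔ F ∙ r)) (l0 : l ≠ 0) (ce : c e = l • e)
    (ce' : c e' = l⁻¹ • e') : Co f K e e' r (c * x * c⁻¹) (l⁻¹ * ρ) (l ^ 2 * σ) (l * τ) := by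
  refine ⟨mul_mem (mul_mem hc h.mem) (inv_mem hc), ?_, ?_⟩
  · rw [LinearEquiv.mul_apply, LinearEquiv.mul_apply, inv_smul_of l0 ce, map_smul, map_smul, h.e1,
      map_add, map_smul, ce, H.fix_r hc]
    match_scalars <;> field_simp
  · rw [LinearEquiv.mul_apply, LinearEquiv.mul_apply, inv_smul_of (inv_ne_zero l0) ce', map_smul,
      map_smul, h.e2, map_add, map_add, map_smul, map_smul, ce, ce', H.fix_r hc]
    match_scalars <;> field_simp

variable [FiniteDimensional F V]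

theorem Fr.eq_one (H : Fr f e e' r s) (hf : f.Nondeg) (hT : TF f K)
    (hx : x ∈ Sup f K (span F {e, e'} ⊔ F ∙ r)) (h1 : x e = e) (h2 : x e' = e') : x = 1 := by
  have hr : r ≠ 0 := by
    rintro rfl
    simpa using H.rs
  refine hT.eq_one hf hx.1 hx.2.1 hr fun v hv => ?_
  have h3 := hx.2.2 (v - (f.B v e' • e + f.B e v • e')) (by
    rw [f.perp_sup]
    refine ⟨proj_perp H.ee v, f.mem_perp_span_singleton.2 ?_⟩
    rw [f.B_sub_right, f.B_add_right, Br, Br, hv, f.B_eq_zero_symm H.er, f.B_eq_zero_symm H.er']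
    ring)
  rw [map_sub, map_add, map_smul, map_smul, h1, h2] at h3
  exact sub_left_inj.1 h3

theorem Co.apply_s (H : Fr f e e' r s) (hf : f.Nondeg) (h : Co f K e e' r x ρ σ τ) :
    ∃ γ : F, x s = s + ((τ - σ * ρ) • e + (-ρ) • e' + γ • r) := by
  obtain ⟨p, q, u, h1⟩ := mem_W.1 (Sup.sub_mem hf h.mem s)
  rw [sub_eq_iff_eq_add'] at h1
  have h2 := mem_O_B h.mem.2.1 e s
  have h3 := mem_O_B h.mem.2.1 e' s
  have h4 : f.B e' e = -1 := by rw [f.alt_symm, H.ee]
  rw [h1, h.e1] at h2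
  rw [h1, h.e2] at h3
  simp only [f.B_add_left, Bl, f.B_add_right, Br, H.ee, H.er, H.er', H.rs, H.es, H.es',
    f.alt_B_self, f.B_eq_zero_symm H.er, f.B_eq_zero_symm H.er', h4] at h2 h3
  refine ⟨u, ?_⟩
  rw [h1, show p = τ - σ * ρ by linear_combination -h3 + σ * h2,
    show q = -ρ by linear_combination h2]

theorem Co.key (H : Fr f e e' r s) (hf : f.Nondeg) (hT : TF f K) (h : Co f K e e' r x ρ σ τ)
    (h' : Co f K e e' r x' ρ' σ' τ') (hc : σ' * ρ = σ * ρ') :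
    2 * (τ' * ρ - τ * ρ') = ρ * ρ' * (σ' - σ) := by
  have a1 := ((h'.mul H h).inv H).mul H (h.mul H h')
  have a2 : (x' * x)⁻¹ * (x * x') = 1 := by
    refine H.eq_one hf hT a1.mem ?_ ?_
    · rw [a1.e1]
      match_scalars <;> ring
    · rw [a1.e2]
      match_scalars
      · rfl
      · ring
      · linear_combination hc
  rw [inv_mul_eq_one] at a2
  obtain ⟨γ, h1⟩ := h.apply_s H hf
  obtain ⟨γ', h2⟩ := h'.apply_s H hf
  have a3 : f.B ((x' * x) s) s = f.B ((x * x') s) s := by rw [a2]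
  simp only [LinearEquiv.mul_apply, h1, h2, map_add, map_smul, h.e1, h.e2, h'.e1, h'.e2,
    H.fix_r h.mem, H.fix_r h'.mem] at a3
  simp only [LinearMap.add_apply, LinearMap.map_smulₛₗ₂, alt_σ, smul_eq_mul, H.rs, H.es, H.es',
    f.alt_B_self, LinearMap.smul_apply, f.B_add_left, Bl] at a3
  linear_combination -a3

theorem Co.false (H : Fr f e e' r s) (hf : f.Nondeg) (hT : TF f K) (two : (2 : F) ≠ 0)
    (h : Co f K e e' r x ρ σ τ) (hc : c ∈ Sup f K (span F {e, e'} ⊔ F ∙ r)) (l0 : l ≠ 0)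
    (l2 : l ^ 2 ≠ 1) (l3 : l ^ 3 ≠ 1) (ce : c e = l • e) (ce' : c e' = l⁻¹ • e') (hρ : ρ ≠ 0)
    (hσ : σ = 0 → τ ≠ 0) : False := by
  have h' := h.conj H hc l0 ce ce'
  by_cases h0 : σ = 0
  · have h1 := h.key H hf hT h' (by rw [h0]; ring)
    rw [h0] at h1
    refine mul_ne_zero (mul_ne_zero two (mul_ne_zero hρ (hσ h0))) (sub_ne_zero.2 l2) ?_
    linear_combination l * h1 + 2 * τ * ρ * mul_inv_cancel₀ l0
  · have h2 := (h.mul H h').mul H ((h'.mul H h).inv H)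
    have h1 := h.key H hf hT h2 (by ring)
    refine mul_ne_zero (mul_ne_zero two (mul_ne_zero (pow_ne_zero 2 hρ) h0)) (sub_ne_zero.2 l3) ?_
    linear_combination l * h1 + 2 * σ * ρ ^ 2 * mul_inv_cancel₀ l0

theorem core (hf : f.Nondeg) (hK : K ≤ f.O) (hT : TF f K) (two : (2 : F) ≠ 0) {U : Submodule F V}
    (hU : U = span F {e, e'}) (he : f.B e e' = 1) (hr : r ∈ f.perp U) (hr0 : r ≠ 0)
    (hc : c ∈ Sup f K U) (l0 : l ≠ 0) (l2 : l ^ 2 ≠ 1) (l3 : l ^ 3 ≠ 1) (ce : c e = l • e)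
    (ce' : c e' = l⁻¹ • e') (hX : ∀ x ∈ Sup f K (U ⊔ F ∙ r), ∃ d : F, x e - d • e ∈ f.perp U)
    {w₁ w₂ y₁ y₂ a b : F} (ha : a ≠ 0) (h1 : y₁ ≠ 0) (h2 : y₂ ≠ 0)
    (hg : f.tv (w₁ • e + w₂ • e' + r) b * f.tv (y₁ • e + y₂ • e') a ∈ K) : False := by
  subst hU
  obtain ⟨s, hs, hs'⟩ := hf.exists_perp_eq' (H := span F {e, e'}) (x := r)
    (fun h => hr0 (Hyp.eq_zero ⟨e, e', he, rfl⟩ h hr)) 1
  obtain ⟨hr1, hr2⟩ := f.mem_perp_span_pair.1 hr
  have H : Fr f e e' r s :=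
    ⟨he, hr1, hr2, hs', hs e (subset_span (by simp)), hs e' (subset_span (by simp))⟩
  have h4 : f.B e' e = -1 := by rw [f.alt_symm, he]
  have hcX : c ∈ Sup f K (span F {e, e'} ⊔ F ∙ r) := Sup.mono le_sup_left hc
  -- general elements
  have gen : ∀ x ∈ Sup f K (span F {e, e'} ⊔ F ∙ r), ∃ μ ρ μ' σ τ : F, μ * μ' = 1 ∧
      x e = μ • e + ρ • r ∧ x e' = μ' • e' + σ • e + τ • r := by
    intro x hx
    obtain ⟨p, q, u, a1⟩ := mem_W.1 (Sup.apply_mem hf hx (mem_W.2 ⟨1, 0, 0, by simp⟩ : e ∈ _))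
    obtain ⟨p', q', u', a2⟩ := mem_W.1 (Sup.apply_mem hf hx (mem_W.2 ⟨0, 1, 0, by simp⟩ : e' ∈ _))
    obtain ⟨d, a3⟩ := hX x hx
    have a4 := (f.mem_perp_span_pair.1 a3).1
    have a5 := mem_O_B hx.2.1 e e'
    rw [a1] at a4
    rw [a1, a2] at a5
    simp only [f.B_sub_right, f.B_add_left, Bl, f.B_add_right, Br, he, hr1, hr2, f.alt_B_self,
      f.B_eq_zero_symm hr1, f.B_eq_zero_symm hr2, h4] at a4 a5
    have a6 : q = 0 := by linear_combination a4
    refine ⟨p, u, q', p', u', by linear_combination a5 + p' * a6, by rw [a1, a6]; simp, ?_⟩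
    rw [a2]
    abel
  set w := w₁ • e + w₂ • e' + r with hw
  set y := y₁ • e + y₂ • e' with hy
  have hgX : f.tv w b * f.tv y a ∈ Sup f K (span F {e, e'} ⊔ F ∙ r) := by
    refine ⟨hg, hK hg, fun v hv => ?_⟩
    rw [LinearEquiv.mul_apply, f.tv_apply_of_B_eq_zero a (hv y (mem_W.2 ⟨y₁, y₂, 0, by simp [hy]⟩)),
      f.tv_apply_of_B_eq_zero b (hv w (mem_W.2 ⟨w₁, w₂, 1, by simp [hw]⟩))]
  obtain ⟨μ, ρ, μ', σ, τ, hμ, g1, g2⟩ := gen _ hgX
  have hye : f.B y e = -y₂ := by simp [hy, alt_σ, f.alt_B_self, h4]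
  have hye' : f.B y e' = y₁ := by simp [hy, alt_σ, f.alt_B_self, he]
  have hρ : ρ ≠ 0 := by
    intro h0
    rw [LinearEquiv.mul_apply, tv_apply f w, tv_apply f y, hye] at g1
    generalize b * f.B w (e + (a * -y₂) • y) = κ at g1
    obtain ⟨-, b2, b3⟩ := H.coef (p := 1 - a * y₂ * y₁ + κ * w₁) (q := -(a * y₂ ^ 2) + κ * w₂)
      (u := κ) (p' := μ) (q' := 0) (u' := ρ) (by rw [zero_smul, add_zero, ← g1, hy, hw]; module)
    rw [b3, h0] at b2
    exact mul_ne_zero ha (pow_ne_zero 2 h2) (by linear_combination -b2)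
  have hσ : σ = 0 → τ ≠ 0 := by
    intro h0 h0'
    rw [LinearEquiv.mul_apply, tv_apply f w, tv_apply f y, hye'] at g2
    generalize b * f.B w (e' + (a * y₁) • y) = κ at g2
    obtain ⟨b1, -, b3⟩ := H.coef (p := a * y₁ ^ 2 + κ * w₁) (q := 1 + a * y₁ * y₂ + κ * w₂)
      (u := κ) (p' := σ) (q' := μ') (u' := τ) (by rw [add_comm (σ • e), ← g2, hy, hw]; module)
    rw [b3, h0', h0] at b1
    exact mul_ne_zero ha (pow_ne_zero 2 h1) (by linear_combination b1)
  generalize f.tv w b * f.tv y a = g at hgX g1 g2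
  have hn := mul_mem (mul_mem (mul_mem hcX hgX) (inv_mem hcX)) (inv_mem hgX)
  obtain ⟨ν, ρ', ν', σ', τ', hν, n1, n2⟩ := gen _ hn
  have hnr := H.fix_r hn
  have hng : c * g * c⁻¹ * g⁻¹ * g = c * g * c⁻¹ := by group
  generalize c * g * c⁻¹ * g⁻¹ = n at hn n1 n2 hnr hng
  have k1 : n (g e) = c (g (c⁻¹ e)) := by
    rw [← LinearEquiv.mul_apply, hng]; rfl
  have k2 : n (g e') = c (g (c⁻¹ e')) := by
    rw [← LinearEquiv.mul_apply, hng]; rfl
  rw [inv_smul_of l0 ce, map_smul, map_smul, g1, map_add, map_add, map_smul, map_smul, map_smul,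
    map_smul, n1, hnr, ce, H.fix_r hcX] at k1
  rw [inv_smul_of (inv_ne_zero l0) ce', map_smul, map_smul, g2] at k2
  simp only [map_add, map_smul, n1, n2, hnr, ce, ce', H.fix_r hcX, inv_inv] at k2
  obtain ⟨b1, -, b2⟩ := H.coef (p := μ * ν) (q := 0) (u := μ * ρ' + ρ) (p' := μ) (q' := 0)
    (u' := l⁻¹ * ρ) (by
      have : μ • e + (0 : F) • e' + (l⁻¹ * ρ) • r = l⁻¹ • (μ • l • e + ρ • r) := by
        match_scalars <;> field_simp
      rw [this, ← k1]; module)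
  obtain ⟨b3, -, b4⟩ := H.coef (p := μ' * σ' + σ * ν) (q := μ' * ν') (u := μ' * τ' + σ * ρ' + τ)
    (p' := l ^ 2 * σ) (q' := μ') (u' := l * τ) (by
      have : (l ^ 2 * σ) • e + μ' • e' + (l * τ) • r =
          l • (μ' • l⁻¹ • e' + σ • l • e + τ • r) := by
        match_scalars <;> field_simp
      rw [this, ← k2]; module)
  have μ0 : μ ≠ 0 := left_ne_zero_of_mul_eq_one hμ
  have μ0' : μ' ≠ 0 := right_ne_zero_of_mul_eq_one hμ
  have l1 : l - 1 ≠ 0 := fun h => l2 (by rw [sub_eq_zero.1 h]; simp)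
  obtain rfl : ν = 1 := mul_left_cancel₀ μ0 (by rw [b1, mul_one])
  obtain rfl : ν' = 1 := by simpa using hν
  refine Co.false H hf hT two (x := n) (ρ := ρ') (σ := σ') (τ := τ')
    ⟨hn, by simpa using n1, by simpa using n2⟩ hcX l0 l2 l3 ce ce' ?_ ?_
  · intro h0
    rw [h0] at b2
    field_simp at b2
    exact mul_ne_zero hρ l1 (by linear_combination b2)
  · intro h0 h0'
    rw [h0] at b3
    have : σ = 0 := by
      by_contra h5
      exact mul_ne_zero h5 (sub_ne_zero.2 l2) (by linear_combination -b3)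
    rw [h0', this] at b4
    exact mul_ne_zero (hσ this) l1 (by linear_combination -b4)

end CL.Rk.B4

namespace CL.Rk

open Module CL.Witt CL.Witt.Form FormType Submodule

variable {F : Type*} [Field F] [Finite F] {V : Type*} [AddCommGroup V] [Module F V]
  [FiniteDimensional F V] {f : Form (alt F) V} {K : Subgroup (V ≃ₗ[F] V)}

/-- Without `I`-lines all partners are perpendicular.
PROOF. Suppose `B v w ≠ 0`, `U = ⟨v,w⟩`, `c = tv w (-b) * tv v a ∈ Sup U`, `c ≠ 1`, `c ≠ -1` on `U`.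
`exists_diag`: `e e' l`; trace `l + l⁻¹ = 2 + a b B(v,w)²`, so `(l-1)²/l` and `l` are non-squares,
`l³ ≠ 1`. Put `y = e + e'`. For each `a ≠ 0` take a partner `(w,b)` of `(y,a)`,
`g = tv w (-b) * tv y a`. CLAIM `w ∈ U`. Then `g ∈ Sup U`, `g ≠ 1`, `g e = m e`, `m ≠ 0, 1`, and
`a = (m-1)²/(m(m⁻¹-m))` is determined by `m` (`w ∝ (g-1) y`), so `F* → F* \ 1` is injective:
contradiction. Proof of the claim: let `w = w₁ e + w₂ e' + r ∉ U`, `X = Sup (U ⊔ F w)`. If `X` is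
irreducible modulo `U^⊥`: `perp_of_par` gives `w ∈ U^⊥`, so `tv y a` conjugates `c` into `K`,
against `not_norm`. Otherwise `X` fixes `⟨d⟩` modulo `r`, `d ∈ {e, e'}` (the eigenvectors of `c`);
by symmetry (`(e,e',l) ↦ (e',-e,l⁻¹)`) `d = e`. Elements of `X`: `x e = μ e + ρ r`,
`x e' = μ⁻¹ e' + σ e + τ r`; `x ∈ X` trivial on `e, e'` is `1` (`TF.eq_one`, centre `r`). For `g`:
`ρ₀ ≠ 0` (the `e'`-component of `g e` vanishes, so `B(w, t e) ≠ 0`), and `σ₀ ≠ 0` or `τ₀ ≠ 0`.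
`n = c g c⁻¹ g⁻¹` has `μ = 1`, `ρ ≠ 0`, (`σ ≠ 0` or `σ = 0, τ ≠ 0`); `n' = c n c⁻¹` has
`(l⁻¹ρ, l²σ, lτ)`. Two elements of `X` that commute on `e, e'` commute; evaluate on `s` with
`B r s = 1`, `s ⊥ e, e'` (`x s - s` is determined modulo `r` by `ρ, σ, τ`). `σ = 0`: `n, n'` commute,
giving `2ρτ(l - l⁻¹) = 0`. `σ ≠ 0`: `n'' = [n,n']` has `(0, 0, σρ(l²-l⁻¹)) `, commutes with `n`,
giving `2ρτ'' = 0`. -/
theorem perp_of_no_IL (h : R3 f K) (hT : TF f K) (hP : Par f K) (hI : ∀ U, ¬ IL f K U)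
    {v w : V} {a b : F} (hab : ¬ IsSquare (a * b)) (hg : f.tv w (-b) * f.tv v a ∈ K) :
    f.B v w = 0 := by
  by_contra hne
  have hf := h.nd
  have hU := hyp_of_ne hne
  have hb : b ≠ 0 := by rintro rfl; exact hab (by simp)
  have hwv := f.alt_symm v w
  set c := f.tv w (-b) * f.tv v a with hc
  have hvU : v ∈ span F {v, w} := subset_span (by simp)
  have hwU : w ∈ span F {v, w} := subset_span (by simp)
  have hcS : c ∈ Sup f K (span F {v, w}) := by
    refine ⟨hg, h.le hg, fun x hx => ?_⟩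
    rw [hc, LinearEquiv.mul_apply, f.tv_apply_of_B_eq_zero a (hx v hvU),
      f.tv_apply_of_B_eq_zero _ (hx w hwU)]
  have hcv : f.B v (c v) ≠ 0 := by
    rw [hc, LinearEquiv.mul_apply, tv_apply_self, tv_apply, f.B_add_right, Br, f.alt_B_self, hwv]
    intro h0
    exact mul_ne_zero hb (pow_ne_zero 2 hne) (by linear_combination h0)
  have c1 : c ≠ 1 := by
    intro h0
    rw [h0] at hcv
    exact hcv (f.alt_B_self v)
  have c2 : ¬ ∀ u ∈ span F {v, w}, c u = -u := by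
    intro h0
    rw [h0 v hvU] at hcv
    exact hcv (by simp [f.alt_B_self])
  obtain ⟨e, e', l, he, hUe, l0, l2, ce, ce', hdiag⟩ := exists_diag h hT hU (hI _) hcS c1 c2
  have h4 : f.B e' e = -1 := by rw [f.alt_symm, he]
  -- the trace
  have l3 : l ^ 3 ≠ 1 := by
    intro l3
    obtain ⟨v₁, v₂, hv⟩ := mem_span_pair.1 (hUe ▸ hvU)
    obtain ⟨w₁, w₂, hw⟩ := mem_span_pair.1 (hUe ▸ hwU)
    have a1 : f.B (c e) e' = l := by rw [ce, Bl, he, mul_one]
    have a2 : f.B e (c e') = l⁻¹ := by rw [ce', Br, he, mul_one]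
    rw [hc, LinearEquiv.mul_apply, tv_apply, tv_apply] at a1 a2
    subst hv hw
    simp only [f.B_add_left, Bl, f.B_add_right, Br, he, f.alt_B_self, h4] at a1 a2 hne
    have hβ : v₁ * w₂ - v₂ * w₁ ≠ 0 := fun h0 => hne (by linear_combination h0)
    have a3 : l + l⁻¹ = 2 + a * b * (v₁ * w₂ - v₂ * w₁) ^ 2 := by linear_combination -a1 - a2
    refine hab ⟨(l - 1) * l / (v₁ * w₂ - v₂ * w₁), ?_⟩
    field_simp at a3 ⊢
    linear_combination (-l ^ 2) * a3 - (a * b * (v₁ * w₂ - v₂ * w₁) ^ 2) * l3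
  generalize span F {v, w} = U at hU hcS c2 hUe hdiag
  clear_value c
  have heU : e ∈ U := hUe ▸ subset_span (by simp)
  have heU' : e' ∈ U := hUe ▸ subset_span (by simp)
  have hy0 : e + e' ≠ 0 := by
    intro h0
    have : f.B e (e + e') = 0 := by rw [h0]; simp
    simp [he, f.alt_B_self] at this
  obtain ⟨k, -, b', hb', hg'⟩ := hP (e + e') hy0 1 one_ne_zero (e + e') hy0
  generalize k (e + e') = w' at hg'
  rw [one_mul] at hb'
  have hb0 : b' ≠ 0 := by rintro rfl; exact hb' (by simp)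
  by_cases hw' : w' ∈ U
  · have hgS : f.tv w' (-b') * f.tv (e + e') 1 ∈ Sup f K U := by
      refine ⟨hg', h.le hg', fun x hx => ?_⟩
      rw [LinearEquiv.mul_apply, f.tv_apply_of_B_eq_zero 1 (hx _ (add_mem heU heU')),
        f.tv_apply_of_B_eq_zero _ (hx _ hw')]
    obtain ⟨m, m0, g1, g2⟩ := hdiag _ hgS
    have g3 : f.tv w' b' (m • e) = f.tv (e + e') 1 e := by
      rw [← g1, ← LinearEquiv.mul_apply, ← mul_assoc, tv_mul, add_neg_cancel, tv_zero, one_mul]
    have g4 : f.tv w' b' (m⁻¹ • e') = f.tv (e + e') 1 e' := by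
      rw [← g2, ← LinearEquiv.mul_apply, ← mul_assoc, tv_mul, add_neg_cancel, tv_zero, one_mul]
    obtain ⟨w₁, w₂, rfl⟩ := mem_span_pair.1 (hUe ▸ hw')
    have a1 := congrArg (fun x => f.B x e') g3
    have a2 := congrArg (fun x => f.B e x) g3
    have a3 := congrArg (fun x => f.B e x) g4
    simp only [tv_apply, f.B_add_left, Bl, f.B_add_right, Br, he, f.alt_B_self, h4] at a1 a2 a3
    have a4 : b' * w₁ * w₂ = 1 := mul_left_cancel₀ m0 (by linear_combination -a1)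
    have a5 : m = 1 := by
      field_simp at a3
      exact mul_left_cancel₀ h.two (by linear_combination -a3 + a4)
    rw [a5] at a2
    exact hb' ⟨b' * w₂, by linear_combination b' * a2⟩
  by_cases hirr : ∀ y ∈ U, y ≠ 0 → ∃ g ∈ Sup f K (U ⊔ F ∙ w'), ∀ d : F, g y - d • y ∉ f.perp U
  · have hwp := perp_of_par h hT hU hcS c1 hirr (add_mem heU heU') hy0 hw' (neg_ne_zero.2 hb0) hg'
    refine not_norm h hT hU (hI _) hcS c1 c2 (add_mem heU heU') hy0 one_ne_zero ?_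
    set t := f.tv (e + e') 1 with ht
    have t1 : t w' = w' := f.tv_apply_of_B_eq_zero 1 (hwp _ (add_mem heU heU'))
    have t2 : (t * c * t⁻¹) w' = w' := by
      rw [LinearEquiv.mul_apply, LinearEquiv.mul_apply,
        B4.inv_smul_of one_ne_zero (show t w' = (1 : F) • w' by rw [t1, one_smul]), inv_one,
        one_smul, hcS.2.2 w' hwp, t1]
    have t3 := tv_conj (mul_mem (mul_mem (f.tv_mem_O (e + e') 1) hcS.2.1)
      (inv_mem (f.tv_mem_O (e + e') 1))) w' (-b')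
    rw [← ht, t2, mul_inv_eq_iff_eq_mul] at t3
    convert K.mul_mem (K.mul_mem hg' hcS.1) (K.inv_mem hg') using 1
    rw [eq_comm, mul_inv_rev, ← mul_assoc, mul_inv_eq_iff_eq_mul, t3]
    group
  push Not at hirr
  obtain ⟨y, hy, y0, hX⟩ := hirr
  obtain ⟨u, hu, r, hr, rfl⟩ := hU.exists_add w'
  have hr0 : r ≠ 0 := by
    rintro rfl
    exact hw' (by simpa using hu)
  have hW : U ⊔ F ∙ (u + r) = U ⊔ F ∙ r := by
    refine le_antisymm (sup_le le_sup_left ((span_singleton_le_iff_mem _ _).2 ?_))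
      (sup_le le_sup_left ((span_singleton_le_iff_mem _ _).2 ?_))
    · exact add_mem (mem_sup_left hu) (mem_sup_right (mem_span_singleton_self r))
    · exact (Submodule.add_mem_iff_right _ (mem_sup_left hu)).1
        (mem_sup_right (mem_span_singleton_self _))
  rw [hW] at hX
  obtain ⟨w₁, w₂, rfl⟩ := mem_span_pair.1 (hUe ▸ hu)
  obtain ⟨p, q, rfl⟩ := mem_span_pair.1 (hUe ▸ hy)
  have hsc : ∀ (z : V) (p : F), p ≠ 0 → (∀ g ∈ Sup f K (U ⊔ F ∙ r), ∃ d : F,
      g (p • z) - d • p • z ∈ f.perp U) → ∀ g ∈ Sup f K (U ⊔ F ∙ r), ∃ d : F,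
      g z - d • z ∈ f.perp U := by
    intro z p hp H g hg
    obtain ⟨d, hd⟩ := H g hg
    refine ⟨d, (Submodule.smul_mem_iff _ hp).1 ?_⟩
    rwa [map_smul, smul_comm, ← smul_sub] at hd
  by_cases hq : q = 0
  · rw [hq, zero_smul, add_zero] at hX y0
    exact B4.core hf h.le hT h.two hUe he hr hr0 hcS l0 l2 l3 ce ce'
      (hsc e p (by rintro rfl; simp at y0) hX) (y₁ := 1) (y₂ := 1) (w₁ := w₁) (w₂ := w₂)
      (b := -b') one_ne_zero one_ne_zero one_ne_zero (by simpa only [one_smul] using hg')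
  by_cases hp : p = 0
  · rw [hp, zero_smul, zero_add] at hX
    refine B4.core (e := e') (e' := -e) (l := l⁻¹) hf h.le hT h.two ?_ (by simp [h4]) hr hr0 hcS
      (inv_ne_zero l0) (by simpa using l2) (by simpa using l3) ce' (by simp [ce])
      (hsc e' q hq hX) (y₁ := 1) (y₂ := -1) (w₁ := w₂) (w₂ := -w₁) (b := -b') one_ne_zero
      one_ne_zero (by simp) ?_
    · rw [hUe]
      refine le_antisymm (span_le.2 ?_) (span_le.2 ?_)
      · rintro _ (rfl | rfl)
        · exact mem_span_pair.2 ⟨0, -1, by simp⟩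
        · exact mem_span_pair.2 ⟨1, 0, by simp⟩
      · rintro _ (rfl | rfl)
        · exact mem_span_pair.2 ⟨0, 1, by simp⟩
        · exact mem_span_pair.2 ⟨-1, 0, by simp⟩
    · convert hg' using 3
      · module
      · module
  obtain ⟨d, hd⟩ := hX c (Sup.mono le_sup_left hcS)
  have a1 := hd e heU
  have a2 := hd e' heU'
  simp only [map_add, map_smul, map_sub, ce, ce', he, h4, f.alt_B_self, smul_eq_mul] at a1 a2
  have a3 : l⁻¹ = d := mul_left_cancel₀ hq (by linear_combination a1)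
  have a4 : l = d := mul_left_cancel₀ hp (by linear_combination -a2)
  exact l2 (by rw [pow_two]; nth_rw 1 [a4, ← a3]; exact inv_mul_cancel₀ l0)

end CL.Rk
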