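/-
Rank three actions of the symplectic groups in odd characteristic: the spread of elliptic lines.
-/
import Cfsg.Agent.CLAS.RkB1

set_option autoImplicit false
set_option maxRecDepth 100000
set_option synthInstance.maxSize 2000

namespace CL.Rk.B5

open Module CL.Witt CL.Witt.Form FormType Submodule CL.Rk

variable {F : Type*} [Field F] {V : Type*} [AddCommGroup V] [Module F V]
  {f : Form (alt F) V} {K : Subgroup (V ≃ₗ[F] V)}

/-- Data of an `E`-line. -/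
structure EP (f : Form (alt F) V) (K : Subgroup (V ≃ₗ[F] V)) (v w : V) (a b : F) : Prop where
  ne : v ≠ 0
  perp : f.B v w = 0
  ns : ¬ IsSquare (a * b)
  mem : f.tv w (-b) * f.tv v a ∈ K

/-- `E`-lines. -/
def EL (f : Form (alt F) V) (K : Subgroup (V ≃ₗ[F] V)) (l : Submodule F V) : Prop :=
  ∃ v w a b, EP f K v w a b ∧ l = span F {v, w}

variable {v w y z : V} {a b : F} {l l' m : Submodule F V}

theorem EP.ha (h : EP f K v w a b) : a ≠ 0 := by
  rintro rfl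
  exact h.ns (by simp)

theorem EP.hb (h : EP f K v w a b) : b ≠ 0 := by
  rintro rfl
  exact h.ns (by simp)

theorem EP.indep (hT : TF f K) (h : EP f K v w a b) (c : F) : w ≠ c • v := by
  rintro rfl
  have h1 := h.mem
  rw [tv_smul, tv_mul] at h1
  rcases hT _ _ h1 with h0 | h0
  · exact h.ne h0
  · exact h.ns ⟨c * b, by linear_combination b * h0⟩

theorem EP.perp' (h : EP f K v w a b) : f.B w v = 0 := f.B_eq_zero_symm h.perp

theorem EL.iso (h : EL f K l) : l ≤ f.perp l := by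
  obtain ⟨v, w, a, b, h, rfl⟩ := h
  refine span_le.2 ?_
  rintro _ (rfl | rfl)
  · exact f.mem_perp_span_pair.2 ⟨f.alt_B_self _, h.perp'⟩
  · exact f.mem_perp_span_pair.2 ⟨h.perp, f.alt_B_self _⟩

theorem EL.map (hK : K ≤ f.O) (h : EL f K l) {k : V ≃ₗ[F] V} (hk : k ∈ K) :
    EL f K (l.map (k : V →ₗ[F] V)) := by
  obtain ⟨v, w, a, b, h, rfl⟩ := h
  refine ⟨k v, k w, a, b, ⟨by simpa using h.ne, (mem_O_B (hK hk) v w).trans h.perp, h.ns, ?_⟩,
    by simp [Submodule.map_span, Set.image_pair]⟩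
  rw [← tv_conj (hK hk), ← tv_conj (hK hk), conj_mul]
  exact K.mul_mem (K.mul_mem hk h.mem) (K.inv_mem hk)

/-- Any nonzero vector of an `E`-line may serve as first vector. -/
theorem EL.basis (h : EL f K l) (hy : y ∈ l) (h0 : y ≠ 0) :
    ∃ e a b, EP f K y e a b ∧ l = span F {y, e} := by
  obtain ⟨v, w, a, b, h, rfl⟩ := h
  obtain ⟨s, t, rfl⟩ := mem_span_pair.1 hy
  have hD : b * s ^ 2 - a * t ^ 2 ≠ 0 := by
    intro hD
    by_cases hs : s = 0
    · subst hs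
      have ht : t ≠ 0 := by rintro rfl; simp at h0
      have : a * t ^ 2 = 0 := by linear_combination -hD
      exact mul_ne_zero h.ha (pow_ne_zero 2 ht) this
    · exact h.ns ⟨a * t / s, by field_simp; linear_combination a * hD⟩
  set D := b * s ^ 2 - a * t ^ 2 with hDdef
  have h1 := h.perp
  have h2 := h.perp'
  refine ⟨(a * t) • v + (b * s) • w, a * b / D, 1 / D, ⟨h0, ?_, ?_, ?_⟩, ?_⟩
  · simp [alt_σ, f.alt_B_self, h1, h2]
  · rintro ⟨r, hr⟩
    refine h.ns ⟨r * D, ?_⟩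
    field_simp at hr
    linear_combination hr
  · have : f.tv ((a * t) • v + (b * s) • w) (-(1 / D)) * f.tv (s • v + t • w) (a * b / D) =
        f.tv w (-b) * f.tv v a := by
      ext x
      simp only [LinearEquiv.mul_apply, tv_apply, map_add, map_smul, LinearMap.add_apply,
        LinearMap.map_smulₛₗ₂, alt_σ, smul_eq_mul, f.alt_B_self, h1, h2, LinearMap.smul_apply]
      match_scalars
      · rfl
      · field_simp; rw [hDdef]; ring
      · field_simp; rw [hDdef]; ring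
    rw [this]
    exact h.mem
  · refine le_antisymm (span_le.2 ?_) (span_le.2 ?_)
    · rintro _ (rfl | rfl)
      · refine mem_span_pair.2 ⟨b * s / D, -t / D, ?_⟩
        match_scalars
        · field_simp; rw [hDdef]; ring
        · field_simp; ring
      · refine mem_span_pair.2 ⟨-(a * t) / D, s / D, ?_⟩
        match_scalars
        · field_simp; ring
        · field_simp; rw [hDdef]; ring
    · rintro _ (rfl | rfl)
      · exact mem_span_pair.2 ⟨_, _, rfl⟩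
      · exact mem_span_pair.2 ⟨_, _, rfl⟩

theorem EL.exists_perp (hT : TF f K) (h : EL f K l) (y : V) : ∃ n ∈ l, n ≠ 0 ∧ f.B y n = 0 := by
  obtain ⟨v, w, a, b, h, rfl⟩ := h
  by_cases hv : f.B y v = 0
  · exact ⟨v, subset_span (by simp), h.ne, hv⟩
  · refine ⟨(-f.B y w) • v + f.B y v • w, mem_span_pair.2 ⟨_, _, rfl⟩, fun h0 => ?_, ?_⟩
    · refine h.indep hT (f.B y w / f.B y v) (smul_right_injective V hv ?_)
      simp only [smul_smul, mul_div_cancel₀ _ hv]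
      rw [← sub_eq_zero, ← h0]
      module
    · simp only [map_add, map_smul, smul_eq_mul]
      ring

theorem comm_tv (h : f.B v w = 0) (a b : F) : Commute (f.tv v a) (f.tv w b) := by
  have h' : f.B w v = 0 := f.B_eq_zero_symm h
  ext x
  simp only [LinearEquiv.mul_apply, tv_apply, map_add, map_smul, smul_eq_mul, h, h']
  module

theorem finrank_pair (v w : V) : finrank F (span F {v, w} : Submodule F V) ≤ 2 := by
  classical
  have := finrank_span_finset_le_card (R := F) ({v, w} : Finset V)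
  rw [Set.finrank, Finset.coe_pair] at this
  exact this.trans (Finset.card_le_two)

theorem EL.finrank_le (h : EL f K l) : finrank F l ≤ 2 := by
  obtain ⟨v, w, a, b, -, rfl⟩ := h
  exact finrank_pair v w

/-- The hypotheses of the last case. -/
structure Hy (f : Form (alt F) V) (K : Subgroup (V ≃ₗ[F] V)) : Prop where
  r : R3 f K
  tf : TF f K
  par : Par f K
  nI : ∀ U, ¬ IL f K U
  ell : ∀ (v w : V) (a b : F), ¬ IsSquare (a * b) → f.tv w (-b) * f.tv v a ∈ K → f.B v w = 0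

theorem Hy.exists_line (H : Hy f K) (h0 : y ≠ 0) : ∃ l, EL f K l ∧ y ∈ l := by
  obtain ⟨k, -, b, hb, hg⟩ := H.par y h0 1 one_ne_zero y h0
  exact ⟨_, ⟨y, k y, 1, b, ⟨h0, H.ell _ _ _ _ hb hg, hb, hg⟩, rfl⟩, subset_span (by simp)⟩

/-- A subspace that is a union of `E`-lines. -/
def Cl (f : Form (alt F) V) (K : Subgroup (V ≃ₗ[F] V)) (W : Submodule F V) : Prop :=
  ∀ m, EL f K m → ∀ n ∈ m, n ≠ 0 → n ∈ W → m ≤ W

variable [Finite F] [FiniteDimensional F V]

/-- Property (S). -/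
theorem Hy.cl_perp_line (H : Hy f K) (hl' : EL f K l') : Cl f K (f.perp l') := by
  intro l hl y hy h0 hyp
  obtain ⟨e, a, b, hE, rfl⟩ := hl.basis hy h0
  obtain ⟨y', hy', h0', hey'⟩ := hl'.exists_perp H.tf e
  obtain ⟨e', a', b', hE', rfl⟩ := hl'.basis hy' h0'
  obtain ⟨h1, h2⟩ := f.mem_perp_span_pair.1 hyp
  have key : f.B e e' = 0 := by
    by_contra hne
    have hU := hyp_of_ne hne
    have hye' : f.B y e' = 0 := f.B_eq_zero_symm h2
    have hyy' : f.B y y' = 0 := f.B_eq_zero_symm h1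
    set t := f.tv e (-b) with ht
    set s := f.tv y a with hs
    have hgO : t * s ∈ f.O := H.r.le hE.mem
    have hte : t e' = e' + (-b * f.B e e') • e := rfl
    have hg1 : (t * s) e' = t e' := by
      rw [LinearEquiv.mul_apply, hs, f.tv_apply_of_B_eq_zero a hye']
    have hg2 : (t * s) y' = y' := by
      rw [LinearEquiv.mul_apply, hs, f.tv_apply_of_B_eq_zero a hyy', ht,
        f.tv_apply_of_B_eq_zero _ hey']
    set c := f.tv (t e') (-b') * (f.tv e' (-b'))⁻¹ with hc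
    have hcK : c ∈ K := by
      have h3 := K.mul_mem (K.mul_mem (K.mul_mem hE.mem hE'.mem) (K.inv_mem hE.mem))
        (K.inv_mem hE'.mem)
      rw [← conj_mul, tv_conj hgO, tv_conj hgO, hg1, hg2] at h3
      convert h3 using 1
      rw [hc]
      group
    have hce : f.B e' (c e') ≠ 0 := by
      rw [hc, tv_inv, LinearEquiv.mul_apply, tv_apply_self, tv_apply, hte]
      have h4 := f.alt_symm e e'
      simp only [map_add, map_smul, LinearMap.add_apply, LinearMap.map_smulₛₗ₂, alt_σ,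
        smul_eq_mul, f.alt_B_self, LinearMap.smul_apply, h4]
      have := mul_ne_zero (mul_ne_zero hE'.hb (pow_ne_zero 2 hE.hb)) (pow_ne_zero 4 hne)
      intro h5
      exact this (by linear_combination h5)
    have hcS : c ∈ Sup f K (span F {e, e'}) := by
      refine ⟨hcK, H.r.le hcK, fun x hx => ?_⟩
      obtain ⟨h5, h6⟩ := f.mem_perp_span_pair.1 hx
      rw [hc, tv_inv, LinearEquiv.mul_apply, f.tv_apply_of_B_eq_zero _ h6,
        f.tv_apply_of_B_eq_zero]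
      rw [hte, f.B_add_left, Bl, h5, h6]
      simp
    have hcomm : Commute s c := by
      rw [hc, tv_inv]
      refine (comm_tv ?_ _ _).mul_right (comm_tv hye' _ _)
      rw [hte, f.B_add_right, Br, hye', hE.perp]
      simp
    refine not_norm H.r H.tf hU (H.nI _) hcS ?_ ?_ (subset_span (by simp) : e ∈ _) ?_
      (neg_ne_zero.2 hE.hb) ?_
    · rintro h5
      rw [h5] at hce
      exact hce (f.alt_B_self e')
    · intro h5
      rw [h5 e' (subset_span (by simp))] at hce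
      exact hce (by simp [f.alt_B_self])
    · rintro rfl
      simp at hne
    · have h5 := K.mul_mem (K.mul_mem hE.mem hcK) (K.inv_mem hE.mem)
      convert h5 using 1
      rw [← ht, ← hs, mul_assoc t s c, hcomm.eq]
      group
  refine span_le.2 ?_
  rintro _ (rfl | rfl)
  · exact hyp
  · exact f.mem_perp_span_pair.2 ⟨f.B_eq_zero_symm hey', f.B_eq_zero_symm key⟩

theorem Hy.cl_perp (H : Hy f K) {W : Submodule F V} (hW : Cl f K W) : Cl f K (f.perp W) := by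
  intro m hm n hn h0 hnW x hx z hz
  by_cases hz0 : z = 0
  · simp [hz0]
  obtain ⟨m', hm', hzm⟩ := H.exists_line hz0
  have h1 : n ∈ f.perp m' := f.perp_anti (hW m' hm' z hzm hz0 hz) hnW
  exact H.cl_perp_line hm' m hm n hn h0 h1 hx z hzm

theorem Hy.cl_sup (H : Hy f K) (hl : EL f K l) (hl' : EL f K l') : Cl f K (l ⊔ l') := by
  rw [← H.r.nd.perp_perp (l ⊔ l'), f.perp_sup]
  exact H.cl_perp fun m hm n hn h0 h => le_inf (H.cl_perp_line hl m hm n hn h0 h.1)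
    (H.cl_perp_line hl' m hm n hn h0 h.2)

theorem Hy.line_eq (H : Hy f K) (hl : EL f K l) (hl' : EL f K l') (hy : y ∈ l) (hy' : y ∈ l')
    (h0 : y ≠ 0) : l = l' := by
  have h1 := H.cl_sup hl hl l' hl' y hy' h0 (by simpa using hy)
  have h2 := H.cl_sup hl' hl' l hl y hy h0 (by simpa using hy')
  rw [sup_idem] at h1 h2
  exact le_antisymm h2 h1

/-- A transvection maps an `E`-line to an `E`-line only by fixing it. -/
theorem Hy.perp_one (H : Hy f K) (hm : EL f K m) {g : V ≃ₗ[F] V}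
    (hg : ∀ x ∈ m, g x = x + f.B y x • y) (hgm : EL f K (m.map (g : V →ₗ[F] V))) :
    y ∈ f.perp m := by
  intro x hx
  by_contra hne
  have hne' : f.B y x ≠ 0 := fun h => hne (f.B_eq_zero_symm h)
  obtain ⟨n, hn, h0, hyn⟩ := hm.exists_perp H.tf y
  have h1 : m.map (g : V →ₗ[F] V) = m :=
    H.line_eq hgm hm ⟨n, hn, by simp [hg n hn, hyn]⟩ hn h0
  have h2 : g x ∈ m := h1 ▸ ⟨x, hx, rfl⟩
  rw [hg x hx, m.add_mem_iff_right hx, m.smul_mem_iff hne'] at h2
  exact hne (hm.iso h2 x hx)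

/-- The vectors whose `E`-line is mapped to an `E`-line. -/
def J (f : Form (alt F) V) (K : Subgroup (V ≃ₗ[F] V)) (g : V ≃ₗ[F] V) (z : V) : Prop :=
  z = 0 ∨ ∃ m, EL f K m ∧ z ∈ m ∧ EL f K (m.map (g : V →ₗ[F] V))

theorem Hy.J_of_fix (H : Hy f K) {W : Submodule F V} (hW : Cl f K W) {g : V ≃ₗ[F] V}
    (hg : ∀ x ∈ W, g x = x) (hz : z ∈ W) : J f K g z := by
  by_cases h0 : z = 0
  · exact Or.inl h0
  obtain ⟨m, hm, hzm⟩ := H.exists_line h0
  have h1 := hW m hm z hzm h0 hz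
  refine Or.inr ⟨m, hm, hzm, ?_⟩
  have : m.map (g : V →ₗ[F] V) = m := by
    ext x
    constructor
    · rintro ⟨x, hx, rfl⟩
      simpa [hg x (h1 hx)] using hx
    · intro hx
      exact ⟨x, hx, hg x (h1 hx)⟩
  rwa [this]

theorem Hy.J_one (H : Hy f K) (hl : EL f K l) (hy : y ∈ l) (h0 : y ≠ 0) (z : V) :
    J f K (f.tv y 1) z ↔ z ∈ f.perp l := by
  refine ⟨?_, H.J_of_fix (H.cl_perp_line hl) fun x hx => f.tv_apply_of_B_eq_zero 1 (hx y hy)⟩
  rintro (rfl | ⟨m, hm, hz, hgm⟩)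
  · exact zero_mem _
  · have h1 := H.perp_one hm (y := y) (fun x _ => by rw [tv_apply, one_mul]) hgm
    exact f.le_perp_comm.1 (H.cl_perp_line hm l hl y hy h0 h1) hz

theorem Hy.J_two (H : Hy f K) (hl : EL f K l) (hl' : EL f K l') (hy : y ∈ l) {y' : V}
    (hy' : y' ∈ l') (hz : z ∈ f.perp (l ⊔ l')) : J f K (f.tv y 1 * f.tv y' 1) z :=
  H.J_of_fix (H.cl_perp (H.cl_sup hl hl')) (fun x hx => by
    rw [LinearEquiv.mul_apply, f.tv_apply_of_B_eq_zero 1 (hx y' (mem_sup_right hy')),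
      f.tv_apply_of_B_eq_zero 1 (hx y (mem_sup_left hy))]) hz

theorem Hy.J_two' (H : Hy f K) (hl : EL f K l) (hl' : EL f K l') (hy : y ∈ l) (h0 : y ≠ 0) {y' : V}
    (hy' : y' ∈ l') (hn : y' ∉ l) (hz : J f K (f.tv y 1 * f.tv y' 1) z) :
    z ∈ f.perp (l ⊔ l') ∨ z ∈ l ⊔ l' := by
  rcases hz with rfl | ⟨m, hm, hz, hgm⟩
  · exact Or.inl (zero_mem _)
  by_cases hS : z ∈ l ⊔ l'
  · exact Or.inr hS
  left
  have h0' : y' ≠ 0 := by rintro rfl; exact hn (zero_mem _)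
  obtain ⟨n, hnm, hn0, hyn⟩ := hm.exists_perp H.tf y'
  have hap : ∀ x, (f.tv y 1 * f.tv y' 1) x =
      x + f.B y' x • y' + f.B y (x + f.B y' x • y') • y := fun x => by
    rw [LinearEquiv.mul_apply, tv_apply, tv_apply, one_mul, one_mul]
  have h1 : m.map ((f.tv y 1 * f.tv y' 1 : V ≃ₗ[F] V) : V →ₗ[F] V) ≤ m ⊔ l := by
    refine H.cl_sup hm hl _ hgm ((f.tv y 1 * f.tv y' 1) n) ⟨n, hnm, rfl⟩ (by simpa using hn0) ?_
    rw [hap, hyn, zero_smul, add_zero]
    exact add_mem (mem_sup_left hnm) (mem_sup_right (l.smul_mem _ hy))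
  have h2 : ∀ x ∈ m, f.B y' x = 0 := by
    intro x hx
    by_contra hne
    have h3 : (f.tv y 1 * f.tv y' 1) x ∈ m ⊔ l := h1 ⟨x, hx, rfl⟩
    rw [hap, Submodule.add_mem_iff_left _ (mem_sup_right (l.smul_mem _ hy)),
      Submodule.add_mem_iff_right _ (mem_sup_left hx), Submodule.smul_mem_iff _ hne] at h3
    obtain ⟨x₀, hx₀, u, hu, h4⟩ := mem_sup.1 h3
    by_cases h5 : x₀ = 0
    · rw [h5, zero_add] at h4
      exact hn (h4 ▸ hu)
    · refine hS (H.cl_sup hl hl' m hm x₀ hx₀ h5 ?_ hz)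
      rw [eq_sub_of_add_eq h4]
      exact sub_mem (mem_sup_right hy') (mem_sup_left hu)
  have h3 := H.perp_one hm (y := y) (fun x hx => by rw [hap, h2 x hx, zero_smul, add_zero]) hgm
  rw [f.perp_sup]
  exact ⟨f.le_perp_comm.1 (H.cl_perp_line hm l hl y hy h0 h3) hz,
    f.le_perp_comm.1 (H.cl_perp_line hm l' hl' y' hy' h0' fun x hx =>
      f.B_eq_zero_symm (h2 x hx)) hz⟩

omit [Finite F] [FiniteDimensional F V] in
theorem J_conj (hK : K ≤ f.O) {g k k' : V ≃ₗ[F] V} (hk : k ∈ K) (hk' : k' ∈ K)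
    (h : J f K (k * g * k') z) : J f K g (k' z) := by
  rcases h with rfl | ⟨m, hm, hz, hgm⟩
  · exact Or.inl (map_zero _)
  refine Or.inr ⟨_, hm.map hK hk', ⟨z, hz, rfl⟩, ?_⟩
  convert hgm.map hK (K.inv_mem hk) using 1
  rw [← Submodule.map_comp, ← Submodule.map_comp]
  congr 1
  ext x
  simp

omit [Finite F] [FiniteDimensional F V] in
theorem J_iff (hK : K ≤ f.O) {g k k' : V ≃ₗ[F] V} (hk : k ∈ K) (hk' : k' ∈ K) (z : V) :
    J f K g (k' z) ↔ J f K (k * g * k') z := by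
  refine ⟨fun h => ?_, J_conj hK hk hk'⟩
  have h1 : g = k⁻¹ * (k * g * k') * k'⁻¹ := by group
  rw [h1] at h
  simpa using J_conj hK (K.inv_mem hk) (K.inv_mem hk') h

/-- The invariant of a set of vectors. -/
def Iv (f : Form (alt F) V) (K : Subgroup (V ≃ₗ[F] V)) (S : V → Prop) : Prop × Prop × Prop :=
  (∀ z, S z, ∃ l, EL f K l ∧ ∀ z, S z ↔ z ∈ f.perp l,
    ∃ W : Submodule F V, (∀ z, S z ↔ z ∈ W) ∧ ∃ x, x ≠ 0 ∧ x ∈ W ∧ x ∈ f.perp W)

omit [Finite F] [FiniteDimensional F V] in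
theorem Iv_imp (hK : K ≤ f.O) {k : V ≃ₗ[F] V} (hk : k ∈ K) {S S' : V → Prop}
    (h : ∀ z, S' (k z) ↔ S z) : ((Iv f K S).1 → (Iv f K S').1) ∧
      ((Iv f K S).2.1 → (Iv f K S').2.1) ∧ ((Iv f K S).2.2 → (Iv f K S').2.2) := by
  refine ⟨fun h1 z => ?_, ?_, ?_⟩
  · obtain ⟨z, rfl⟩ := k.surjective z
    exact (h z).2 (h1 z)
  · rintro ⟨l, hl, h1⟩
    refine ⟨_, hl.map hK hk, fun z => ?_⟩
    obtain ⟨z, rfl⟩ := k.surjective z
    rw [h, h1, perp_apply (hK hk)]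
  · rintro ⟨W, h1, x, h0, hx, hx'⟩
    refine ⟨W.map (k : V →ₗ[F] V), fun z => ?_, k x, by simpa using h0, ⟨x, hx, rfl⟩,
      (perp_apply (hK hk)).2 hx'⟩
    obtain ⟨z, rfl⟩ := k.surjective z
    rw [h, h1]
    simp

omit [Finite F] [FiniteDimensional F V] in
theorem Iv_eq (hK : K ≤ f.O) {k : V ≃ₗ[F] V} (hk : k ∈ K) {S S' : V → Prop}
    (h : ∀ z, S' (k z) ↔ S z) : Iv f K S = Iv f K S' := by
  obtain ⟨a1, a2, a3⟩ := Iv_imp hK hk h
  obtain ⟨b1, b2, b3⟩ := Iv_imp hK (K.inv_mem hk) (S := S') (S' := S)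
    (fun z => by rw [← h]; simp)
  exact Prod.ext (propext ⟨a1, b1⟩) (Prod.ext (propext ⟨a2, b2⟩) (propext ⟨a3, b3⟩))

theorem Hy.false (H : Hy f K) : False := by
  have hf := H.r.nd
  have hdim := H.r.dim
  have : Nontrivial V := Module.nontrivial_of_finrank_pos (R := F) (by omega)
  obtain ⟨y, h0⟩ := exists_ne (0 : V)
  obtain ⟨l, hl, hy⟩ := H.exists_line h0
  have hd := hl.finrank_le
  obtain ⟨y', hy'p, hy'n⟩ : ∃ y' ∈ f.perp l, y' ∉ l := by
    by_contra hc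
    push Not at hc
    have h1 := Submodule.finrank_mono (show f.perp l ≤ l from hc)
    have h2 := hf.finrank_add_finrank_perp l
    omega
  have h0' : y' ≠ 0 := by rintro rfl; exact hy'n (zero_mem _)
  obtain ⟨l', hl', hy'⟩ := H.exists_line h0'
  obtain ⟨u, hu⟩ := hf.exists_B_eq h0 1
  have hup : u ∉ f.perp l := fun h => by simpa [hu] using h y hy
  have hun : u ∉ l := fun h => hup (hl.iso h)
  have hu0 : u ≠ 0 := by rintro rfl; exact hun (zero_mem _)
  obtain ⟨p, hp, hu'⟩ := H.exists_line hu0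
  -- the second element
  have hiso : l ⊔ l' ≤ f.perp (l ⊔ l') := by
    have h1 := H.cl_perp_line hl l' hl' y' hy' h0' hy'p
    rw [f.perp_sup]
    exact sup_le (le_inf hl.iso (f.le_perp_comm.1 h1)) (le_inf h1 hl'.iso)
  have hJb : ∀ z, J f K (f.tv y 1 * f.tv y' 1) z ↔ z ∈ f.perp (l ⊔ l') := fun z =>
    ⟨fun h => (H.J_two' hl hl' hy h0 hy' hy'n h).elim id fun h => hiso h, H.J_two hl hl' hy hy'⟩
  -- the third element
  have hnd : ∀ x ∈ l ⊔ p, x ∈ f.perp (l ⊔ p) → x = 0 := by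
    intro x hx hx'
    rw [f.perp_sup] at hx'
    obtain ⟨r, hr, s, hs, rfl⟩ := mem_sup.1 hx
    have hs0 : s = 0 := by
      by_contra hs0
      exact hup (H.cl_perp_line hl p hp s hs hs0
        ((Submodule.add_mem_iff_right _ (hl.iso hr)).1 hx'.1) hu')
    rw [hs0, add_zero] at hx' ⊢
    by_contra hr0
    exact hup (f.le_perp_comm.1 (H.cl_perp_line hp l hl r hr hr0 hx'.2) hu')
  obtain ⟨r, hr, hr0⟩ : ∃ r ∈ f.perp (l ⊔ p), r ≠ 0 := by
    refine Submodule.exists_mem_ne_zero_of_ne_bot fun h => ?_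
    have h1 := hf.finrank_add_finrank_perp (l ⊔ p)
    have h2 := Submodule.finrank_sup_add_finrank_inf_eq l p
    have h3 := hp.finrank_le
    rw [h, finrank_bot] at h1
    omega
  have hJc : ∀ W : Submodule F V, (∀ z, J f K (f.tv y 1 * f.tv u 1) z ↔ z ∈ W) →
      W = f.perp (l ⊔ p) := by
    intro W hW
    refine le_antisymm (fun x hx => ?_) fun x hx => (hW x).1 (H.J_two hl hp hy hu' hx)
    rcases H.J_two' hl hp hy h0 hu' hun ((hW x).2 hx) with h1 | h1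
    · exact h1
    rcases H.J_two' hl hp hy h0 hu' hun ((hW (x + r)).2
      (W.add_mem hx ((hW r).1 (H.J_two hl hp hy hu' hr)))) with h2 | h2
    · exact (Submodule.add_mem_iff_left _ hr).1 h2
    · exact absurd (hnd r ((Submodule.add_mem_iff_right _ h1).1 h2) hr) hr0
  have hJ1 : ∀ z, J f K 1 z := fun z => H.J_of_fix (W := ⊤) (fun _ _ _ _ _ _ => le_top)
    (fun _ _ => rfl) mem_top
  -- values of the invariant
  have a2 : (Iv f K (J f K (f.tv y 1))).2.1 := ⟨l, hl, H.J_one hl hy h0⟩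
  have a3 : (Iv f K (J f K (f.tv y 1))).2.2 :=
    ⟨_, H.J_one hl hy h0, y, h0, hl.iso hy, f.le_perp_perp l hy⟩
  have b2 : ¬ (Iv f K (J f K (f.tv y 1 * f.tv y' 1))).2.1 := by
    rintro ⟨q, hq, h1⟩
    have h2 : q = l ⊔ l' := hf.perp_injective (by ext z; rw [← h1, hJb])
    have h3 : q = l := H.line_eq hq hl (h2 ▸ mem_sup_left hy) hy h0
    exact hy'n (h3 ▸ h2 ▸ mem_sup_right hy')
  have b3 : (Iv f K (J f K (f.tv y 1 * f.tv y' 1))).2.2 :=
    ⟨_, hJb, y, h0, hiso (mem_sup_left hy), f.le_perp_perp _ (mem_sup_left hy)⟩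
  have c1 : ¬ (Iv f K (J f K (f.tv y 1 * f.tv u 1))).1 := fun h =>
    h0 (hnd y (mem_sup_left hy) (hJc ⊤ (fun z => ⟨fun _ => mem_top, fun _ => h z⟩) ▸ mem_top))
  have c3 : ¬ (Iv f K (J f K (f.tv y 1 * f.tv u 1))).2.2 := by
    rintro ⟨W, hW, x, hx0, hx, hx'⟩
    rw [hJc W hW] at hx hx'
    rw [hf.perp_perp] at hx'
    exact hx0 (hnd x hx' hx)
  have o1 : (Iv f K (J f K 1)).1 := hJ1
  have o3 : ¬ (Iv f K (J f K 1)).2.2 := by
    rintro ⟨W, hW, x, hx0, -, hx'⟩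
    exact hx0 (hf.right x fun z => hx' z ((hW z).1 (hJ1 z)))
  refine H.r.false_of_inv (fun g => Iv f K (J f K g))
    (fun g _ k hk k' hk' => Iv_eq H.r.le hk' (J_iff H.r.le hk hk')) (f.tv_mem_O y 1)
    (mul_mem (f.tv_mem_O y 1) (f.tv_mem_O y' 1)) (mul_mem (f.tv_mem_O y 1) (f.tv_mem_O u 1))
    (fun h => o3 (h ▸ a3)) (fun h => o3 (h ▸ b3)) (fun h => c1 (h ▸ o1))
    (fun h => b2 (h ▸ a2)) (fun h => c3 (h ▸ a3)) (fun h => c3 (h ▸ b3))

end CL.Rk.B5

namespace CL.Rk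

open Module CL.Witt CL.Witt.Form FormType Submodule

variable {F : Type*} [Field F] [Finite F] {V : Type*} [AddCommGroup V] [Module F V]
  [FiniteDimensional F V] {f : Form (alt F) V} {K : Subgroup (V ≃ₗ[F] V)}

/-- The last case: all partners are perpendicular.
PROOF. `E`-line: `ℓ = ⟨v,w⟩`, `v w ≠ 0`, `B v w = 0`, `ab` non-square, `g = tv w (-b) * tv v a ∈ K`
(`w ∉ F v` by `TF`). Every `v ≠ 0` is on an `E`-line; `K` permutes them. For `0 ≠ y = λv + μw`:
`g = tv y α * tv e β`, `Δ = bλ² - aμ² ≠ 0`, `α = ab/Δ`, `e = aμ v + bλ w`, `β = -1/Δ`, `ℓ = ⟨y,e⟩`.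
(S) `0 ≠ y ∈ ℓ`, `y ⊥ ℓ'` gives `ℓ ⊥ ℓ'`: otherwise take `0 ≠ y' ∈ ℓ' ⊓ ℓ^⊥`, decompose both,
`B e e' ≠ 0`, `U = ⟨e,e'⟩`, `c = [g,g'] = [tv e β, tv e' β'] ∈ Sup U`, `c ≠ ±1` on `U`, and
`tv e β` conjugates `c` like `g`: `not_norm`. Hence two `E`-lines through a point coincide (take
`z ∈ ℓ₁^⊥ \ ℓ₂^⊥` and an `E`-line through `z`), `L y` = the `E`-line through `y`, and
`n ∈ L₁ + L₂ → L n ≤ L₁ + L₂` (double perp). `J g = {z | z = 0 ∨ g (L z) is an E-line}`,
`J (k g k') = k'⁻¹ J g`. `J (tv y 1) = (L y)^⊥`; for `y' ∉ L y`, `Σ = L y + L y'`,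
`t = tv y 1 * tv y' 1`: `Σ^⊥ ⊆ J t ⊆ Σ^⊥ ∪ Σ`. Take `y' ∈ (L y)^⊥ \ L y` (`Σ ≤ Σ^⊥`, `J = Σ^⊥`) and
`y'' ∉ (L y)^⊥` (`Σ''` non-degenerate; if `J` is a subspace then `J = Σ''^⊥` (`Σ''^⊥ ≠ 0`), which
has no radical). Invariant: `I g = (Nat.card (J g), J g is a subspace with a nonzero radical vector)`
and `J 1 = V ⊋ (L y)^⊥ ⊋ Σ^⊥`, `J t'' ≠ V`: `R3.false_of_inv`. -/
theorem false_of_ell (h : R3 f K) (hT : TF f K) (hP : Par f K) (hI : ∀ U, ¬ IL f K U)
    (hE : ∀ (v w : V) (a b : F), ¬ IsSquare (a * b) → f.tv w (-b) * f.tv v a ∈ K →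
      f.B v w = 0) : False := by
  exact B5.Hy.false ⟨h, hT, hP, hI, hE⟩

end CL.Rk
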