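/-
Rank three actions: pulling back along a surjection.
-/
import Mathlib

set_option autoImplicit false

namespace CL.Rk

open MulAction

theorem comp_data {H G X : Type*} [Group H] [Group G] [MulAction G X] (π : H →* G)
    (hπ : Function.Surjective π) (hp : IsPreprimitive G X) (x : X) :
    letI := MulAction.compHom X π
    IsPreprimitive H X ∧ Nat.card (orbitRel.Quotient (stabilizer H x) X) =
      Nat.card (orbitRel.Quotient (stabilizer G x) X) := by
  letI := MulAction.compHom X π
  let φ : X →ₑ[π] X := ⟨id, fun _ _ => rfl⟩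
  refine ⟨(isPreprimitive_congr hπ (f := φ) Function.bijective_id).2 hp,
    Nat.card_congr (Quotient.congr (Equiv.refl X) fun a b => ⟨?_, ?_⟩)⟩
  · rintro ⟨k, hk⟩
    exact ⟨⟨π k, k.2⟩, hk⟩
  · rintro ⟨⟨k, hk'⟩, hk⟩
    obtain ⟨k, rfl⟩ := hπ k
    exact ⟨⟨k, hk'⟩, hk⟩

end CL.Rk
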