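/-
Rank three actions of the symplectic groups in odd characteristic: the reducible case and the disconnected case.
-/
import Cfsg.Agent.CLAS.RkDef

set_option autoImplicit false

namespace CL.Rk

open Module CL.Witt CL.Witt.Form FormType Submodule

variable {F : Type*} [Field F] [Finite F] {V : Type*} [AddCommGroup V] [Module F V]
  [FiniteDimensional F V] {f : Form (alt F) V} {K : Subgroup (V ≃ₗ[F] V)}

namespace I1

omit [Finite F] [FiniteDimensional F V] in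
theorem inv_iff {P : V → Prop} (h : ∀ k ∈ K, ∀ v, P v → P (k v)) (h' : ∀ (c : F) v, P v → P (c • v)) :
    ∀ k ∈ K, ∀ (c : F) v, c ≠ 0 → (P (c • k v) ↔ P v) := fun k hk c v hc =>
  ⟨fun e => by simpa [smul_smul, hc] using h _ (K.inv_mem hk) _ (h' c⁻¹ _ e), fun e => h' _ _ (h k hk v e)⟩

omit [Finite F] [FiniteDimensional F V] in
theorem perp_inv (hK : K ≤ f.O) {W : Submodule F V} (h : ∀ k ∈ K, ∀ v ∈ W, k v ∈ W) :
    ∀ k ∈ K, ∀ v ∈ f.perp W, k v ∈ f.perp W := fun k hk v hv w hw => by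
  rw [← hv _ (h _ (K.inv_mem hk) w hw), ← mem_O_B (hK hk) (k⁻¹ w)]; simp

/-- the vectors of `S` mapped into `S` -/
def J (S : Set V) (g : V ≃ₗ[F] V) : Set V := {v | v ∈ S ∧ g v ∈ S}

/-- a radical vector -/
def Rad (f : Form (alt F) V) (X : Set V) : Prop := ∃ v ∈ X, v ≠ 0 ∧ ∀ x ∈ X, f.B v x = 0

theorem false_of_J (h : R3 f K) {S : Set V} (hS : ∀ k ∈ K, ∀ v ∈ S, k v ∈ S) {a b c : V ≃ₗ[F] V}
    (ha : a ∈ f.O) (hb : b ∈ f.O) (hc : c ∈ f.O) (h1 : J S a ⊂ S) (h2 : J S b ⊂ J S a) (h3 : J S c ⊂ J S a)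
    (h4 : J S c ⊂ J S b ∨ (Rad f (J S b) ∧ ¬ Rad f (J S c))) : False := by
  have : Finite V := Module.finite_of_finite F
  have hS' : ∀ k ∈ K, ∀ v, k v ∈ S ↔ v ∈ S := fun k hk v =>
    ⟨fun e => by simpa using hS _ (K.inv_mem hk) _ e, hS k hk v⟩
  have e0 : J S (1 : V ≃ₗ[F] V) = S := Set.ext fun v => and_self_iff
  have l1 := Set.ncard_lt_ncard h1
  have l2 := Set.ncard_lt_ncard h2
  have l3 := Set.ncard_lt_ncard h3
  refine h.false_of_inv (fun g => ((J S g).ncard, Rad f (J S g))) (fun g _ k hk k' hk' => ?_) ha hb hc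
    (fun e => ?_) (fun e => ?_) (fun e => ?_) (fun e => ?_) (fun e => ?_) fun e => ?_
  · have e : J S g = k' '' J S (k * g * k') := by
      ext v
      obtain ⟨v, rfl⟩ := k'.surjective v
      rw [k'.injective.mem_set_image]
      simp [J, hS' k hk, hS' k' hk']
    rw [e, Set.ncard_image_of_injective _ k'.injective]
    simp [Rad, mem_O_B (h.le hk')]
  all_goals simp only [Prod.mk.injEq, e0] at e
  all_goals try omega
  exact h4.elim (fun h => (Set.ncard_lt_ncard h).ne' e.1) fun h => h.2 (e.2 ▸ h.1)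

omit [Finite F] [FiniteDimensional F V] in
theorem side {A B : Submodule F V} (hAB : ∀ a ∈ A, ∀ b ∈ B, f.B a b = 0) (hd : ∀ x ∈ A, x ∈ B → x = 0)
    {y z y' z' v : V} (hy : y ∈ A) (hz : z ∈ A) (hy' : y' ∈ B) (hz' : z' ∈ B)
    (ind : ∀ a b : F, a • y' + b • z' = 0 → a = 0 ∧ b = 0) (hc : 1 + f.B y z * f.B y' z' ≠ 0) (hv : v ∈ A)
    (h : f.tv (z + z') (-1) (f.tv (y + y') 1 v) ∈ A ∨ f.tv (z + z') (-1) (f.tv (y + y') 1 v) ∈ B) :
    f.B (y + y') v = 0 ∧ f.B (z + z') v = 0 := by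
  obtain ⟨a, ha⟩ : ∃ a, a = f.B (y + y') v := ⟨_, rfl⟩
  obtain ⟨b, hb⟩ : ∃ b, b = -f.B (z + z') (v + a • (y + y')) := ⟨_, rfl⟩
  have e : f.tv (z + z') (-1) (f.tv (y + y') 1 v) = (v + a • y + b • z) + (a • y' + b • z') := by
    rw [tv_apply, tv_apply, one_mul, ← ha, neg_one_mul, ← hb]; module
  have m1 : v + a • y + b • z ∈ A := add_mem (add_mem hv (A.smul_mem _ hy)) (A.smul_mem _ hz)
  have m2 : a • y' + b • z' ∈ B := add_mem (B.smul_mem _ hy') (B.smul_mem _ hz')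
  have hBA : ∀ a ∈ A, ∀ b ∈ B, f.B b a = 0 := fun a ha b hb => f.B_eq_zero_symm (hAB a ha b hb)
  suffices a = 0 ∧ b = 0 by
    obtain ⟨rfl, rfl⟩ := this
    exact ⟨ha.symm, by rwa [zero_smul, add_zero, eq_comm, neg_eq_zero] at hb⟩
  rw [e] at h
  refine h.elim (fun h => ind a b (hd _ ((add_mem_cancel_left m1).1 h) m2)) fun h => ?_
  obtain rfl : v = -(a • y + b • z) := by
    linear_combination (norm := module) hd _ m1 ((add_mem_cancel_right m2).1 h)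
  simp only [map_add, map_neg, map_smul, LinearMap.add_apply, smul_eq_mul, f.alt_B_self, hAB _ hz _ hy', hBA _ hy _ hy',
    hBA _ hz _ hy', hBA _ hy _ hz', hBA _ hz _ hz', f.alt_symm y z, f.alt_symm y' z'] at ha hb
  obtain rfl : a = 0 := (mul_eq_zero.1 (show a * (1 + f.B y z * f.B y' z') = 0 by
    linear_combination ha - f.B y z * hb)).resolve_right hc
  exact ⟨rfl, by simpa using hb⟩

omit [Finite F] in
theorem quad {A : Submodule F V} (hA : ∀ x ∈ A, x ∈ f.perp A → x = 0) (h3 : 3 ≤ finrank F A) :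
    ∃ y ∈ A, ∃ z ∈ A, ∃ u ∈ A, ∃ t ∈ A, f.B y z = 1 ∧ f.B y u = 0 ∧ f.B z u = 0 ∧ f.B y t = 0 ∧ f.B u t = 1 := by
  have key : ∀ y ∈ A, y ≠ 0 → ∃ z ∈ A, f.B y z = 1 := fun y hy h0 => by
    obtain ⟨z, hz, e⟩ : ∃ z ∈ A, f.B y z ≠ 0 := by
      by_contra! e
      exact h0 (hA y hy (f.mem_perp'.2 e))
    exact ⟨(f.B y z)⁻¹ • z, A.smul_mem _ hz, by rw [Br, inv_mul_cancel₀ e]⟩
  obtain ⟨y, hy, y0⟩ := A.exists_mem_ne_zero_of_ne_bot (by rintro rfl; simp at h3)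
  obtain ⟨z, hz, yz⟩ := key y hy y0
  obtain ⟨x, hx, x0⟩ : ∃ x ∈ A, x ∉ span F {y, z} := by
    by_contra! e
    classical
    have := (Submodule.finrank_mono e).trans ((finrank_span_le_card ({y, z} : Set V)).trans
      (show _ ≤ 2 by rw [Set.toFinset_insert, Set.toFinset_singleton]; exact Finset.card_le_two))
    omega
  obtain ⟨h1, h2⟩ := f.mem_perp_span_pair.1 (proj_perp yz x)
  have hu := sub_mem hx (add_mem (A.smul_mem (f.B x z) hy) (A.smul_mem (f.B y x) hz))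
  obtain ⟨t, ht, e⟩ := key _ hu fun e => x0 (mem_span_pair.2 ⟨_, _, (sub_eq_zero.1 e).symm⟩)
  refine ⟨y, hy, z, hz, _, hu, t - f.B y t • z, sub_mem ht (A.smul_mem _ hz), yz, h1, h2, by simp [yz], ?_⟩
  rw [f.B_sub_right, Br, f.B_eq_zero_symm h2, e, mul_zero, sub_zero]

theorem two (h : R3 f K) {A B : Submodule F V} (hAB : ∀ a ∈ A, ∀ b ∈ B, f.B a b = 0)
    (hA : ∀ x ∈ A, x ∈ f.perp A → x = 0) (hB : ∀ x ∈ B, x ∈ f.perp B → x = 0) (dA : 3 ≤ finrank F A)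
    (dB : 3 ≤ finrank F B) (hS : ∀ k ∈ K, ∀ v ∈ (A ∪ B : Set V), k v ∈ (A ∪ B : Set V)) : False := by
  obtain ⟨y, hy, z, hz, u, hu, t, ht, a1, a2, a3, a4, a5⟩ := quad hA dA
  obtain ⟨y', hy', z', hz', u', hu', t', -, b1, b2, b3, b4, b5⟩ := quad hB dB
  have hBA : ∀ b ∈ B, ∀ a ∈ A, f.B b a = 0 := fun b hb a ha => f.B_eq_zero_symm (hAB a ha b hb)
  have hd : ∀ x ∈ A, x ∈ B → x = 0 := fun x hx hx' => hA x hx fun a ha => hAB a ha x hx'
  have hd' : ∀ x ∈ B, x ∈ A → x = 0 := fun x hx hx' => hd x hx' hx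
  have i1 : ∀ {y z : V}, f.B y z = 1 → ∀ a b : F, a • y + b • z = 0 → a = 0 ∧ b = 0 := fun {y z} h a b e =>
    ⟨by simpa [f.alt_B_self, f.alt_symm y z, h] using congrArg (f.B z) e,
      by simpa [f.alt_B_self, h] using congrArg (f.B y) e⟩
  have i2 : ∀ {y z u t : V}, f.B y z = 1 → f.B z u = 0 → f.B y t = 0 → f.B u t = 1 → ∀ a b : F,
      a • y + b • u = 0 → a = 0 ∧ b = 0 := fun {y z u t} h1 h2 h3 h4 a b e =>
    ⟨by simpa [f.alt_symm y z, h1, h2] using congrArg (f.B z) e,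
      by simpa [f.alt_symm y t, f.alt_symm u t, h3, h4] using congrArg (f.B t) e⟩
  have j2 : ∀ {z z' : V}, z ∈ A → z' ∈ B → (∀ a b : F, a • y + b • z = 0 → a = 0 ∧ b = 0) →
      (∀ a b : F, a • y' + b • z' = 0 → a = 0 ∧ b = 0) → 1 + f.B y z * f.B y' z' ≠ 0 → ∀ v,
      v ∈ J (A ∪ B) (f.tv (z + z') (-1) * f.tv (y + y') 1) ↔
        v ∈ (A ∪ B : Set V) ∧ f.B (y + y') v = 0 ∧ f.B (z + z') v = 0 := fun {z z'} hz hz' k1 k2 hc v => by
    refine and_congr_right fun hv => ⟨fun e => hv.elim (fun hv => side hAB hd hy hz hy' hz' k2 hc hv e) fun hv => ?_,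
      fun e => by rwa [LinearEquiv.mul_apply, f.tv_apply_of_B_eq_zero _ e.1, f.tv_apply_of_B_eq_zero _ e.2]⟩
    rw [add_comm y, add_comm z] at e ⊢
    exact side hBA hd' hy' hz' hy hz k1 (by rwa [mul_comm]) hv e.symm
  have j1 : ∀ v, v ∈ J (A ∪ B) (f.tv (y + y') 1) ↔ v ∈ (A ∪ B : Set V) ∧ f.B (y + y') v = 0 := fun v => by
    have key : ∀ {A B : Submodule F V} {y y' z' v : V}, (∀ b ∈ B, ∀ a ∈ A, f.B b a = 0) → y ∈ A → y' ∈ B → z' ∈ B →
        f.B y' z' = 1 → v ∈ A → (f.tv (y + y') 1 v ∈ A ∨ f.tv (y + y') 1 v ∈ B) → f.B (y + y') v = 0 :=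
      fun {A B y y' z' v} hBA hy hy' hz' h1 hv e => by
        rcases e with e | e
        · simpa [tv_apply, hBA _ hz' _ hv, hBA _ hz' _ hy, f.alt_symm y' z', h1, -neg_add_rev] using hBA _ hz' _ e
        · simpa [tv_apply, f.alt_B_self, hBA _ hy' _ hy, hBA _ hy' _ hv, f.alt_symm y v] using hBA _ e _ hy
    refine and_congr_right fun hv => ⟨fun e => hv.elim (fun hv => key hBA hy hy' hz' b1 hv e) fun hv => ?_,
      fun e => by rwa [f.tv_apply_of_B_eq_zero _ e]⟩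
    rw [add_comm y] at e ⊢
    exact key hAB hy' hy hz a1 hv e.symm
  have k2 := j2 hu hu' (i2 a1 a3 a4 a5) (i2 b1 b3 b4 b5) (by simp [a2])
  have k3 := j2 hz hz' (i1 a1) (i1 b1) (by rw [a1, b1, mul_one, one_add_one_eq_two]; exact h.two)
  refine false_of_J h hS (f.tv_mem_O (y + y') 1) (mul_mem (f.tv_mem_O (u + u') (-1)) (f.tv_mem_O (y + y') 1))
    (mul_mem (f.tv_mem_O (z + z') (-1)) (f.tv_mem_O (y + y') 1)) ⟨fun _ h => h.1, fun e => ?_⟩
    ⟨fun v hv => (j1 v).2 (((k2 v).1 hv).imp_right And.left), fun e => ?_⟩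
    ⟨fun v hv => (j1 v).2 (((k3 v).1 hv).imp_right And.left), fun e => ?_⟩ (.inr ⟨⟨y, (k2 y).2 ⟨.inl hy, ?_⟩, ?_, ?_⟩, ?_⟩)
  · simpa [a1, hBA _ hy' _ hz] using ((j1 z).1 (e (.inl hz))).2
  · simpa [a5, hBA _ hu' _ ht] using ((k2 t).1 (e ((j1 t).2 ⟨.inl ht, by simp [a4, hBA _ hy' _ ht]⟩))).2.2
  · simpa [f.alt_symm y z, a1, hBA _ hz' _ hy] using
      ((k3 y).1 (e ((j1 y).2 ⟨.inl hy, by simp [f.alt_B_self, hBA _ hy' _ hy]⟩))).2.2
  · simp [f.alt_B_self, hBA _ hy' _ hy, f.alt_symm y u, a2, hBA _ hu' _ hy]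
  · rintro rfl; simp at a1
  · intro x hx
    obtain ⟨hx | hx, e, -⟩ := (k2 x).1 hx
    · simpa [hBA _ hy' _ hx] using e
    · exact hAB _ hy _ hx
  · have key : ∀ {A B : Submodule F V} {y y' z z' v : V}, (∀ b ∈ B, ∀ a ∈ A, f.B b a = 0) →
        (∀ x ∈ A, x ∈ f.perp A → x = 0) → y ∈ A → y' ∈ B → z ∈ A → z' ∈ B → f.B y z = 1 → v ∈ A →
        f.B (y + y') v = 0 → f.B (z + z') v = 0 →
        (∀ x ∈ A, f.B (y + y') x = 0 → f.B (z + z') x = 0 → f.B v x = 0) → v = 0 :=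
      fun {A B y y' z z' v} hBA hA hy hy' hz hz' h1 hv h2 h3 h4 => hA v hv (f.mem_perp'.2 fun x hx => by
        obtain ⟨p1, p2⟩ := f.mem_perp_span_pair.1 (proj_perp h1 x)
        have hu := sub_mem hx (add_mem (A.smul_mem (f.B x z) hy) (A.smul_mem (f.B y x) hz))
        have := h4 _ hu (by rw [f.B_add_left, p1, hBA _ hy' _ hu, add_zero])
          (by rw [f.B_add_left, p2, hBA _ hz' _ hu, add_zero])
        rw [f.B_add_left, hBA _ hy' _ hv, add_zero] at h2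
        rw [f.B_add_left, hBA _ hz' _ hv, add_zero] at h3
        simpa [f.B_eq_zero_symm h2, f.B_eq_zero_symm h3] using this)
    rintro ⟨v, hv, v0, e⟩
    obtain ⟨hv | hv, e1, e2⟩ := (k3 v).1 hv
    · exact v0 (key hBA hA hy hy' hz hz' a1 hv e1 e2 fun x hx p q => e x ((k3 x).2 ⟨.inl hx, p, q⟩))
    · rw [add_comm] at e1 e2
      exact v0 (key hAB hB hy' hy hz' hz b1 hv e1 e2 fun x hx p q =>
        e x ((k3 x).2 ⟨.inr hx, by rwa [add_comm], by rwa [add_comm]⟩))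

section
omit [Finite F] [FiniteDimensional F V]
variable {c d : V}

theorem mem_perp_span {S : Set V} {y : V} (h : ∀ x ∈ S, f.B y x = 0) : y ∈ f.perp (span F S) :=
  f.mem_perp'.2 (span_le (p := LinearMap.ker (f.B y)).2 h)

/-- the span of a component -/
def VC (f : Form (alt F) V) (K : Subgroup (V ≃ₗ[F] V)) (c : V) : Submodule F V := span F {x | Conn f K c x}

theorem self_mem (c : V) : c ∈ VC f K c := subset_span Relation.ReflTransGen.refl

theorem symm (h : Conn f K c d) : Conn f K d c := by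
  induction h with
  | refl => exact .refl
  | tail _ h ih => exact .head ⟨h.2.1, h.1, fun e => h.2.2 (f.B_eq_zero_symm e)⟩ ih

theorem ctr (hc : Ctr f K c) (h : Conn f K c d) : Ctr f K d := by
  induction h with
  | refl => exact hc
  | tail _ h _ => exact h.2.1

theorem vc_eq (h : Conn f K c d) : VC f K c = VC f K d :=
  congrArg (span F) (Set.ext fun _ => ⟨fun e => (symm h).trans e, fun e => h.trans e⟩)

theorem vc_perp (hc : Ctr f K c) (hd : Ctr f K d) (h : ¬ Conn f K c d) : VC f K d ≤ f.perp (VC f K c) :=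
  span_le.2 fun _ hy => mem_perp_span fun _ hx =>
    by_contra fun e => h (symm ((hy.tail ⟨ctr hd hy, ctr hc hx, e⟩).trans (symm hx)))

theorem vc_map (hK : K ≤ f.O) {k : V ≃ₗ[F] V} (hk : k ∈ K) {v : V} (h : v ∈ VC f K c) : k v ∈ VC f K (k c) :=
  (span_le (p := (VC f K (k c)).comap (k : V →ₗ[F] V))).2 (fun x hx => subset_span (show Conn f K (k c) (k x) by
    induction hx with
    | refl => exact .refl
    | tail _ h ih => exact ih.tail ⟨h.1.conj hK hk, h.2.1.conj hK hk, by rw [mem_O_B (hK hk)]; exact h.2.2⟩)) h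

theorem span_ctr (hK : K ≤ f.O) (hI : Irr K) (hc : Ctr f K c) : span F {x | Ctr f K x} = ⊤ :=
  (hI _ fun k hk => (span_le (p := (span F {x | Ctr f K x}).comap (k : V →ₗ[F] V))).2 fun _ hx =>
    subset_span (Ctr.conj hK hx hk)).resolve_left fun e => hc.1 (e.le (subset_span hc))

theorem vc_nd (h : R3 f K) (hI : Irr K) (hc : Ctr f K c) : ∀ x ∈ VC f K c, x ∈ f.perp (VC f K c) → x = 0 :=
  fun x hx hx' => by
    refine (f.perp_top h.nd).le ?_
    rw [← span_ctr h.le hI hc]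
    refine mem_perp_span fun d hd => ?_
    by_cases e : Conn f K c d
    · exact f.B_eq_zero_symm (hx' d (subset_span e))
    · exact vc_perp hc hd e (self_mem d) x hx

end

end I1

open I1

/-- Reducible case.
PROOF. `K` preserves `W^⊥` and `R = W ⊓ W^⊥`. `R = 0`: `x ∈ W`, `y ∈ W^⊥`, `x + y` with
`three_of_inv (· ∈ W) (· ∈ W^⊥)`. `0 ≠ R ≠ R^⊥`: `x ∈ R`, `y ∈ R^⊥ \ R`, `z ∉ R^⊥`.
`R = R^⊥` (dim `≥ 3`): `R3.false_of_inv` with `I g = Nat.card {v ∈ R | g v ∈ R}`; take independent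
`e₁ e₂ e₃ ∈ R`, `f_i` with `B f_i e_j = δ` (`exists_B_eq_family`), `g_j = tv f₁ 1 ⋯ tv f_j 1`:
`g_j v ∈ R ↔ B f_i v = 0 (i ≤ j)` (pair `g_j v - v ∈ span f_i` with the `e_i`; triangular), a
strictly decreasing chain of finite sets. -/
theorem three_of_red (h : R3 f K) (hK : ¬ Irr K) : Three K := by
  obtain ⟨W, hW, h0⟩ : ∃ W : Submodule F V, (∀ k ∈ K, ∀ v ∈ W, k v ∈ W) ∧ ¬ (W = ⊥ ∨ W = ⊤) := by
    by_contra! e
    exact hK e
  have iv : ∀ {W : Submodule F V}, (∀ k ∈ K, ∀ v ∈ W, k v ∈ W) → ∀ k ∈ K, ∀ (c : F) v, c ≠ 0 →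
    (c • k v ∈ W ↔ v ∈ W) := fun {W} h => inv_iff h fun c _ => W.smul_mem c
  have hP := perp_inv h.le hW
  by_cases hR : W ⊓ f.perp W = ⊥
  · obtain ⟨x, hx, x0⟩ := W.exists_mem_ne_zero_of_ne_bot fun e => h0 (.inl e)
    obtain ⟨y, hy, y0⟩ := (f.perp W).exists_mem_ne_zero_of_ne_bot fun e => h0 (.inr (by
      rw [← h.nd.perp_perp W, e, f.perp_bot]))
    have h1 : x + y ∉ W := fun e => y0 (hR.le ⟨(add_mem_cancel_left hx).1 e, hy⟩)
    exact three_of_inv _ _ (iv hW) (iv hP) x0 y0 (fun e => h1 (by rw [e]; exact W.zero_mem)) hx (fun e => y0 (hR.le ⟨e, hy⟩)) h1 hy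
      fun e => x0 (hR.le ⟨hx, (add_mem_cancel_right hy).1 e⟩)
  have h1 : ∀ k ∈ K, ∀ v ∈ W ⊓ f.perp W, k v ∈ W ⊓ f.perp W := fun k hk v hv => ⟨hW k hk v hv.1, hP k hk v hv.2⟩
  have h2 : W ⊓ f.perp W ≤ f.perp (W ⊓ f.perp W) := inf_le_right.trans (f.perp_anti inf_le_left)
  generalize W ⊓ f.perp W = R at hR h1 h2
  by_cases h3 : f.perp R ≤ R
  swap
  · obtain ⟨x, hx, x0⟩ := R.exists_mem_ne_zero_of_ne_bot hR
    obtain ⟨y, hy, y0⟩ := SetLike.not_le_iff_exists.1 h3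
    obtain ⟨z, hz⟩ : ∃ z, z ∉ f.perp R := by
      by_contra! e
      exact hR (by rw [← h.nd.perp_perp R, eq_top_iff'.2 e, f.perp_top h.nd])
    exact three_of_inv _ _ (iv h1) (iv (perp_inv h.le h1)) x0 (fun e => y0 (by rw [e]; exact R.zero_mem))
      (fun e => hz (by rw [e]; exact zero_mem _)) hx y0 (fun e => hz (h2 e)) hy hz
  exfalso
  have h4 := h.nd.finrank_add_finrank_perp R
  rw [le_antisymm h3 h2] at h4
  obtain ⟨e, he⟩ := exists_linearIndependent_of_le_finrank (R := F) (M := R) (n := 3) (by have := h.dim; omega)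
  choose t ht using fun i => h.nd.exists_B_eq_family (he.map' _ R.ker_subtype) (Pi.single i 1)
  simp only [Function.comp, subtype_apply] at ht
  have p : ∀ {x}, x ∈ R → ∀ i, f.B x (e i) = 0 := fun hx i => h2 (e i).2 _ hx
  have q : ∀ i j x, f.B (f.tv (t i) 1 x) (e j) = f.B x (e j) + f.B (t i) x * (Pi.single i 1 : Fin 3 → F) j :=
    fun i j x => by rw [tv_apply, f.B_add_left, Bl, ht, one_mul]
  have j1 : ∀ v, v ∈ J R (f.tv (t 0) 1) ↔ v ∈ R ∧ f.B (t 0) v = 0 := fun v => and_congr_right fun hv =>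
    ⟨fun e => by simpa [q, p hv] using p e 0, fun e => by rwa [f.tv_apply_of_B_eq_zero _ e]⟩
  have j2 : ∀ v, v ∈ J R (f.tv (t 1) 1 * f.tv (t 0) 1) ↔ v ∈ R ∧ f.B (t 0) v = 0 ∧ f.B (t 1) v = 0 := fun v =>
    and_congr_right fun hv => ⟨fun e => by
      have a0 : f.B (t 0) v = 0 := by simpa [q, p hv] using p e 0
      exact ⟨a0, by simpa [q, p hv, f.tv_apply_of_B_eq_zero _ a0] using p e 1⟩,
    fun e => by rwa [LinearEquiv.mul_apply, f.tv_apply_of_B_eq_zero _ e.1, f.tv_apply_of_B_eq_zero _ e.2]⟩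
  have j3 : ∀ v, v ∈ J R (f.tv (t 2) 1 * (f.tv (t 1) 1 * f.tv (t 0) 1)) ↔
      v ∈ R ∧ f.B (t 0) v = 0 ∧ f.B (t 1) v = 0 ∧ f.B (t 2) v = 0 := fun v =>
    and_congr_right fun hv => ⟨fun e => by
      have a0 : f.B (t 0) v = 0 := by simpa [q, p hv] using p e 0
      have a1 : f.B (t 1) v = 0 := by simpa [q, p hv, f.tv_apply_of_B_eq_zero _ a0] using p e 1
      exact ⟨a0, a1, by simpa [q, p hv, f.tv_apply_of_B_eq_zero _ a0, f.tv_apply_of_B_eq_zero _ a1] using p e 2⟩,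
    fun e => by rwa [LinearEquiv.mul_apply, LinearEquiv.mul_apply, f.tv_apply_of_B_eq_zero _ e.1,
      f.tv_apply_of_B_eq_zero _ e.2.1, f.tv_apply_of_B_eq_zero _ e.2.2]⟩
  have s1 : J R (f.tv (t 1) 1 * f.tv (t 0) 1) ⊂ J R (f.tv (t 0) 1) :=
    ⟨fun v hv => (j1 v).2 (((j2 v).1 hv).imp_right And.left), fun a => by
      simpa [ht] using (j2 _).1 (a ((j1 (e 1)).2 (by simp [ht])))⟩
  have s2 : J R (f.tv (t 2) 1 * (f.tv (t 1) 1 * f.tv (t 0) 1)) ⊂ J R (f.tv (t 1) 1 * f.tv (t 0) 1) :=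
    ⟨fun v hv => (j2 v).2 (((j3 v).1 hv).imp_right (And.imp_right And.left)), fun a => by
      simpa [ht] using (j3 _).1 (a ((j2 (e 2)).2 (by simp [ht])))⟩
  exact false_of_J h h1 (f.tv_mem_O _ _) (mul_mem (f.tv_mem_O _ _) (f.tv_mem_O _ _))
    (mul_mem (f.tv_mem_O _ _) (mul_mem (f.tv_mem_O _ _) (f.tv_mem_O _ _)))
    ⟨fun _ h => h.1, fun a => by simpa [ht] using (j1 _).1 (a (e 0).2)⟩ s1 (s2.trans s1) (.inl s2)

/-- Irreducible, disconnected set of centres.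
PROOF. Components `C` of `Conn` on centres, `V_C = span C`; different components are
perpendicular, the centres span `V` (irreducible), so `V_C ⊓ V_C^⊥ = 0`, and `K` permutes the `V_C`.
`S = ⋃ V_C`. Three components: `x₁ ∈ S`, `x₁+x₂ ∈ (S+S) \ S`, `x₁+x₂+x₃ ∉ S+S` (pair with the
component that is missed), `three_of_inv`. Exactly two components: `V = V₁ ⊥ V₂`, some `k ∈ K`
swaps them (irreducible), so both have dimension `≥ 3`. `J g = {v ∈ S | g v ∈ S}`,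
`J (k g k') = k'⁻¹ J g`; invariant `I g = (Nat.card (J g), ∃ v ∈ J g, v ≠ 0 ∧ ∀ x ∈ J g, B v x = 0)`.
`y = y₁+y₂`, `y' = y₁'+y₂'` (`y_i, y_i' ∈ V_i` independent, `c_i = B y_i y_i'`):
`J (tv y 1) = ⋃ V_i ⊓ y_i^⊥`, `J (tv y a * tv y' b) = ⋃ V_i ⊓ ⟨y_i,y_i'⟩^⊥` as soon as no nonzero
vector of `V₁` is mapped into `V₂` and conversely (true if `c₁ = c₂ = 0`, and if
`a b c₁ c₂ ≠ ±1`-type determinant `≠ 0`; choose `b`, `q ≥ 3`). `c₁ = c₂ = 0`: `y₁` is a radical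
vector; `c₁ c₂ ≠ 0`: no radical vector. `J 1 ⊋ J g₁ ⊋ J g₂, J g₃`. -/
theorem three_of_disc (h : R3 f K) (hK : Irr K) {v w : V} (hv : Ctr f K v) (hw : Ctr f K w)
    (hc : ¬ Conn f K v w) : Three K := by
  have nd := fun {c} => vc_nd (c := c) h hK
  by_cases h3 : ∃ u, Ctr f K u ∧ ¬ Conn f K v u ∧ ¬ Conn f K w u
  · obtain ⟨u, hu, vu, wu⟩ := h3
    have miss : ∀ {a r}, Ctr f K a → r ∈ f.perp (VC f K a) → a + r ∉ f.perp (VC f K a) := fun ha hr e =>
      ha.1 (nd ha _ (self_mem _) ((add_mem_cancel_right hr).1 e))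
    have p : ∀ {a b}, Ctr f K a → Ctr f K b → ¬ Conn f K a b → b ∈ f.perp (VC f K a) := fun ha hb e =>
      vc_perp ha hb e (self_mem _)
    have z1 : ¬ ∃ c d, Ctr f K c ∧ Ctr f K d ∧ v + (w + u) ∈ VC f K c ⊔ VC f K d := by
      rintro ⟨c, d, h1, h2, e⟩
      have key : ∀ {a}, Ctr f K a → ¬ Conn f K a c → ¬ Conn f K a d → v + (w + u) ∈ f.perp (VC f K a) :=
        fun ha p q => sup_le (vc_perp ha h1 p) (vc_perp ha h2 q) e
      have k1 : Conn f K v c ∨ Conn f K v d := by_contra fun a => miss hv (add_mem (p hv hw hc) (p hv hu vu))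
        (key hv (fun b => a (.inl b)) fun b => a (.inr b))
      have k2 : Conn f K w c ∨ Conn f K w d := by_contra fun a => miss hw (add_mem (p hw hv (mt symm hc)) (p hw hu wu))
        (add_left_comm v w u ▸ key hw (fun b => a (.inl b)) fun b => a (.inr b))
      have k3 : Conn f K u c ∨ Conn f K u d := by_contra fun a => miss hu
        (add_mem (p hu hv (mt symm vu)) (p hu hw (mt symm wu)))
        ((by abel : v + (w + u) = u + (v + w)) ▸ key hu (fun b => a (.inl b)) fun b => a (.inr b))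
      rcases k1 with k1 | k1 <;> rcases k2 with k2 | k2 <;> rcases k3 with k3 | k3 <;>
        first | exact hc (k1.trans (symm k2)) | exact vu (k1.trans (symm k3)) | exact wu (k2.trans (symm k3))
    refine three_of_inv (fun x => ∃ c, Ctr f K c ∧ x ∈ VC f K c)
      (fun x => ∃ c d, Ctr f K c ∧ Ctr f K d ∧ x ∈ VC f K c ⊔ VC f K d)
      (inv_iff (P := fun x => ∃ c, Ctr f K c ∧ x ∈ VC f K c) (fun k hk x ⟨c, h1, h2⟩ => ⟨_, h1.conj h.le hk, vc_map h.le hk h2⟩)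
        fun a x ⟨c, h1, h2⟩ => ⟨c, h1, smul_mem _ a h2⟩)
      (inv_iff (P := fun x => ∃ c d, Ctr f K c ∧ Ctr f K d ∧ x ∈ VC f K c ⊔ VC f K d)
        (fun k hk x ⟨c, d, h1, h2, e⟩ => ⟨_, _, h1.conj h.le hk, h2.conj h.le hk, ?_⟩)
        fun a x ⟨c, d, h1, h2, e⟩ => ⟨c, d, h1, h2, smul_mem _ a e⟩) (x := v) (y := v + w) (z := v + (w + u)) hv.1
      (fun e => miss hv (p hv hw hc) (e ▸ zero_mem _)) (fun e => z1 ⟨v, v, hv, hv, e ▸ zero_mem _⟩)
      ⟨v, hv, self_mem v⟩ ?_ (fun ⟨c, h1, h2⟩ => z1 ⟨c, c, h1, h1, mem_sup_left h2⟩)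
      ⟨v, w, hv, hw, add_mem_sup (self_mem v) (self_mem w)⟩ z1
    · obtain ⟨a, ha, b, hb, rfl⟩ := mem_sup.1 e
      rw [map_add]
      exact add_mem_sup (vc_map h.le hk ha) (vc_map h.le hk hb)
    · rintro ⟨c, h1, e⟩
      by_cases a : Conn f K v c
      · exact miss hw (p hw hv (mt symm hc)) (add_comm v w ▸ vc_perp hw h1 (fun b => hc (a.trans (symm b))) e)
      · exact miss hv (p hv hw hc) (vc_perp hv h1 a e)
  exfalso
  have h4 : ∀ u, Ctr f K u → VC f K u = VC f K v ∨ VC f K u = VC f K w := fun u hu => by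
    by_contra! e
    exact h3 ⟨u, hu, fun a => e.1 (vc_eq a).symm, fun a => e.2 (vc_eq a).symm⟩
  have h5 : ∀ {v w}, Ctr f K v → Ctr f K w → ¬ Conn f K v w →
      (∀ u, Ctr f K u → VC f K u = VC f K v ∨ VC f K u = VC f K w) → finrank F (VC f K v) ≤ finrank F (VC f K w) :=
    fun {v w} hv hw hc h4 => by
      obtain ⟨k, hk, e⟩ : ∃ k ∈ K, VC f K (k v) ≠ VC f K v := by
        by_contra! e
        rcases hK (VC f K v) fun k hk x hx => e k hk ▸ vc_map h.le hk hx with a | a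
        · exact hv.1 (a.le (self_mem v))
        · exact hw.1 ((f.perp_top h.nd).le (a ▸ vc_perp hv hw hc (self_mem w)))
      rw [← (h4 _ (hv.conj h.le hk)).resolve_left e, ← LinearEquiv.finrank_map_eq k]
      exact Submodule.finrank_mono (by rintro _ ⟨x, hx, rfl⟩; exact vc_map h.le hk hx)
  have d1 := h5 hv hw hc h4
  have d2 := h5 hw hv (mt symm hc) fun u hu => (h4 u hu).symm
  have d3 := finrank_sup_add_finrank_inf_eq (VC f K v) (VC f K w)
  rw [show VC f K v ⊔ VC f K w = ⊤ from top_unique ((span_ctr h.le hK hv).ge.trans (span_le.2 fun u hu =>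
    (h4 u hu).elim (fun e => mem_sup_left (e ▸ self_mem u)) fun e => mem_sup_right (e ▸ self_mem u))), finrank_top] at d3
  have := h.dim
  refine two h (fun a ha b hb => vc_perp hv hw hc hb a ha) (nd hv) (nd hw) (by omega) (by omega) ?_
  rintro k hk x (hx | hx)
  · exact (h4 _ (hv.conj h.le hk)).imp (·.le (vc_map h.le hk hx)) (·.le (vc_map h.le hk hx))
  · exact (h4 _ (hw.conj h.le hk)).imp (·.le (vc_map h.le hk hx)) (·.le (vc_map h.le hk hx))

end CL.Rk
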