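/-
Rank three actions of the symplectic groups in odd characteristic: the connected case, first part.
-/
import Cfsg.Agent.CLAS.RkDef
import Cfsg.Agent.PLOC.Dickson
import Cfsg.Agent.KSG.CoopS1

set_option autoImplicit false

namespace CL.Rk.I2

open Module CL.Witt CL.Witt.Form FormType Submodule CL.Root
open scoped MatrixGroups

variable {F : Type*} [Field F] {V : Type*} [AddCommGroup V] [Module F V]
  {f : Form (alt F) V} {K : Subgroup (V ≃ₗ[F] V)}

variable (f K) in
/-- The parameters of the transvections of `K` with centre `v`. -/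
def A (v : V) : AddSubgroup F where
  carrier := {a | f.tv v a ∈ K}
  add_mem' ha hb := by
    simp only [Set.mem_ofPred_eq] at ha hb ⊢
    rw [← tv_mul]; exact K.mul_mem ha hb
  zero_mem' := by simp only [Set.mem_ofPred_eq]; rw [tv_zero]; exact K.one_mem
  neg_mem' ha := by
    simp only [Set.mem_ofPred_eq] at ha ⊢
    rw [← tv_inv]; exact K.inv_mem ha

theorem mem_A {v : V} {a : F} : a ∈ A f K v ↔ f.tv v a ∈ K := Iff.rfl

theorem A_apply (hK : K ≤ f.O) {k : V ≃ₗ[F] V} (hk : k ∈ K) (v : V) (a : F) :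
    a ∈ A f K (k v) ↔ a ∈ A f K v := by
  rw [mem_A, mem_A, ← tv_conj (hK hk)]
  constructor
  · intro h
    have := K.mul_mem (K.mul_mem (K.inv_mem hk) h) hk
    simpa [mul_assoc] using this
  · intro h
    exact K.mul_mem (K.mul_mem hk h) (K.inv_mem hk)

theorem A_smul (v : V) (c a : F) : a ∈ A f K (c • v) ↔ c ^ 2 * a ∈ A f K v := by
  rw [mem_A, mem_A, tv_smul]

variable (f K) in
/-- The multipliers of `A v`. -/
def M [Finite F] (v : V) : Subfield F where
  carrier := {μ | ∀ a ∈ A f K v, μ * a ∈ A f K v}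
  mul_mem' hx hy a ha := by rw [mul_assoc]; exact hx _ (hy _ ha)
  one_mem' a ha := by rwa [one_mul]
  add_mem' hx hy a ha := by rw [add_mul]; exact add_mem (hx _ ha) (hy _ ha)
  zero_mem' a _ := by rw [zero_mul]; exact zero_mem _
  neg_mem' hx a ha := by rw [neg_mul]; exact neg_mem (hx _ ha)
  inv_mem' x hx a ha := by
    by_cases h0 : x = 0
    · rw [h0, inv_zero, zero_mul]; exact zero_mem _
    · let φ : A f K v → A f K v := fun b => ⟨x * b, hx _ b.2⟩
      have hφ : Function.Injective φ := fun b b' h =>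
        Subtype.ext (mul_left_cancel₀ h0 (congrArg Subtype.val h))
      obtain ⟨b, hb⟩ := (Finite.injective_iff_surjective.1 hφ) ⟨a, ha⟩
      have h1 : x * b = a := congrArg Subtype.val hb
      rw [← h1, ← mul_assoc, inv_mul_cancel₀ h0, one_mul]
      exact b.2

theorem mem_M [Finite F] {v : V} {μ : F} : μ ∈ M f K v ↔ ∀ a ∈ A f K v, μ * a ∈ A f K v := Iff.rfl

theorem M_eq [Finite F] (hK : K ≤ f.O) {v w : V} (h0 : w ≠ 0) (h : Eqv K v w) :
    M f K w = M f K v := by
  obtain ⟨k, hk, c, rfl⟩ := h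
  have hc : c ≠ 0 := by rintro rfl; simp at h0
  ext μ
  simp only [mem_M, A_smul, A_apply hK hk]
  constructor
  · intro h a ha
    have := h (a / c ^ 2) (by rwa [mul_div_cancel₀ _ (pow_ne_zero 2 hc)])
    convert this using 1
    field_simp
  · intro h a ha
    have := h _ ha
    convert this using 1
    ring

theorem card_A_eq (hK : K ≤ f.O) {v w : V} (h0 : w ≠ 0) (h : Eqv K v w) :
    Nat.card (A f K w) = Nat.card (A f K v) := by
  obtain ⟨k, hk, c, rfl⟩ := h
  have hc : c ^ 2 ≠ 0 := pow_ne_zero 2 (by rintro rfl; simp at h0)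
  refine Nat.card_congr ((Equiv.mulLeft₀ (c ^ 2) hc).subtypeEquiv fun a => ?_)
  rw [A_smul, A_apply hK hk]
  rfl

theorem Eqv.apply {v x : V} (h : Eqv K v x) {k : V ≃ₗ[F] V} (hk : k ∈ K) : Eqv K v (k x) := by
  obtain ⟨k', hk', c, rfl⟩ := h
  exact ⟨k * k', K.mul_mem hk hk', c, by simp⟩

theorem Eqv.smul {v x : V} (h : Eqv K v x) (c : F) : Eqv K v (c • x) := by
  obtain ⟨k', hk', c', rfl⟩ := h
  exact ⟨k', hk', c * c', by rw [mul_smul]⟩

theorem Eqv.trans {u v w : V} (h : Eqv K u v) (h' : Eqv K v w) : Eqv K u w := by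
  obtain ⟨k, hk, c, rfl⟩ := h'
  exact Eqv.smul (Eqv.apply h hk) c

section Fin
variable [Finite F] [FiniteDimensional F V]

theorem card_modEq (P : V → Prop) {c : V} {a : F} (hP : ∀ x, P x → P (f.tv c a x)) (hc : c ≠ 0)
    (ha : a ≠ 0) :
    Nat.card {x // P x} ≡ Nat.card {x // P x ∧ f.B c x = 0} [MOD ringChar F] := by
  classical
  have : Finite V := Module.finite_of_finite F
  have := Fintype.ofFinite {x // P x}
  have : Fact (ringChar F).Prime := ⟨CharP.char_is_prime F _⟩
  let σ : Function.End {x // P x} := fun x => ⟨f.tv c a x, hP _ x.2⟩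
  have hσ : ∀ (n : ℕ) x, ((σ ^ n) x : V) = f.tv c (n * a) x := by
    intro n
    induction n with
    | zero => intro x; simp only [Nat.cast_zero, zero_mul, tv_zero, pow_zero]; rfl
    | succ n ih =>
      intro x
      rw [pow_succ']
      change f.tv c a ((σ ^ n) x : V) = _
      rw [ih, ← LinearEquiv.mul_apply, tv_mul]
      congr 2
      push_cast; ring
  have h1 : σ ^ ringChar F ^ 1 = 1 := by
    funext x
    apply Subtype.ext
    rw [pow_one, hσ, ringChar.Nat.cast_ringChar, zero_mul, tv_zero]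
    rfl
  have h2 := Equiv.Perm.card_fixedPoints_modEq h1
  rw [← Nat.card_eq_fintype_card, ← Nat.card_eq_fintype_card] at h2
  convert h2 using 1
  have key : ∀ x, f.tv c a x = x ↔ f.B c x = 0 := fun x => by
    rw [tv_apply, add_eq_left, smul_eq_zero, or_iff_left hc, mul_eq_zero, or_iff_right ha]
  exact Nat.card_congr ⟨fun x => ⟨⟨x.1, x.2.1⟩, Subtype.ext ((key _).2 x.2.2)⟩,
    fun x => ⟨x.1.1, x.1.2, (key _).1 (congrArg Subtype.val x.2)⟩, fun _ => rfl, fun _ => rfl⟩

/-- Non-perpendicular centres are in the same orbit. -/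
theorem eqv_of_ne {v w : V} (hv : Ctr f K v) (hw : Ctr f K w) (h : f.B v w ≠ 0) : Eqv K w v := by
  have : Finite V := Module.finite_of_finite F
  obtain ⟨hv0, a, ha, hva⟩ := hv
  obtain ⟨hw0, b, hb, hwb⟩ := hw
  have hp : (ringChar F).Prime := CharP.char_is_prime F _
  let P : V → Prop := fun x => x ∈ span F {v, w} ∧ Eqv K w x
  have hv1 : v ∈ span F {v, w} := subset_span (by simp)
  have hw1 : w ∈ span F {v, w} := subset_span (by simp)
  have h1 := card_modEq (f := f) P (c := v) (a := a)
    (fun x hx => ⟨add_mem hx.1 (smul_mem _ _ hv1), Eqv.apply hx.2 hva⟩) hv0 ha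
  have h2 := card_modEq (f := f) P (c := w) (a := b)
    (fun x hx => ⟨add_mem hx.1 (smul_mem _ _ hw1), Eqv.apply hx.2 hwb⟩) hw0 hb
  have h3 : Nat.card F = Nat.card {x // P x ∧ f.B w x = 0} := by
    refine Nat.card_eq_of_bijective (fun t : F => ⟨t • w, ⟨smul_mem _ _ hw1,
      Eqv.smul (Eqv.refl w) t⟩, by simp [f.alt_B_self]⟩) ⟨fun t t' htt => ?_, ?_⟩
    · exact smul_left_injective F hw0 (congrArg Subtype.val htt)
    · rintro ⟨x, ⟨hx, hx1⟩, hx2⟩
      obtain ⟨α, β, rfl⟩ := mem_span_pair.1 hx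
      have h4 : α = 0 := by
        have h5 : f.B w v ≠ 0 := by rw [f.alt_symm]; exact neg_ne_zero.2 h
        simpa [f.alt_B_self, h5] using hx2
      exact ⟨β, Subtype.ext (by simp [h4])⟩
  by_contra hn
  have h4 : Nat.card {x // P x ∧ f.B v x = 0} = 1 := by
    rw [Nat.card_eq_one_iff_exists]
    refine ⟨⟨0, ⟨zero_mem _, by simpa using Eqv.smul (Eqv.refl (K := K) w) 0⟩, by simp⟩, ?_⟩
    rintro ⟨x, ⟨hx, hx1⟩, hx2⟩
    obtain ⟨α, β, rfl⟩ := mem_span_pair.1 hx
    have h4 : β = 0 := by simpa [f.alt_B_self, h] using hx2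
    subst h4
    by_cases h5 : α = 0
    · exact Subtype.ext (by simp [h5])
    · refine absurd ?_ hn
      have := Eqv.smul hx1 α⁻¹
      simpa [smul_smul, h5] using this
  have h5 : ringChar F ∣ Nat.card F := by
    have := Fintype.ofFinite F
    obtain ⟨n, -, hn⟩ := FiniteField.card F (ringChar F)
    rw [Nat.card_eq_fintype_card, hn]
    exact dvd_pow_self _ n.ne_zero
  rw [← h3] at h2
  rw [h4] at h1
  have h6 : ringChar F ∣ 1 := (h1.symm.trans h2).dvd_iff dvd_rfl |>.2 h5
  exact hp.one_lt.ne' (Nat.dvd_one.1 h6)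

theorem eqv_of_conn {v w : V} (h : Conn f K v w) : Eqv K w v := by
  induction h with
  | refl => exact Eqv.refl v
  | tail _ h2 ih => exact Eqv.trans (eqv_of_ne h2.1 h2.2.1 h2.2.2) ih

omit [FiniteDimensional F V] in
/-- `-1` on the line spanned by two non-perpendicular centres. -/
theorem exists_neg (h2 : (2 : F) ≠ 0) {v w : V} (hv : Ctr f K v) (hw : Ctr f K w)
    (h : f.B v w ≠ 0) : ∃ n ∈ K, n v = -v ∧ n w = -w ∧
      ∀ x, f.B v x = 0 → f.B w x = 0 → n x = x := by
  obtain ⟨hv0, a, ha, hva⟩ := hv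
  obtain ⟨hw0, b, hb, hwb⟩ := hw
  have : Fact (ringChar F).Prime := ⟨CharP.char_is_prime F _⟩
  have hp2 : ringChar F ≠ 2 := fun h => h2 (by
    have := ringChar.Nat.cast_ringChar (R := F)
    rw [h] at this
    exact_mod_cast this)
  let G : Subgroup SL(2, F) :=
    { carrier := {m | ∃ k ∈ K, k v = m 0 0 • v + m 1 0 • w ∧ k w = m 0 1 • v + m 1 1 • w ∧
        ∀ x, f.B v x = 0 → f.B w x = 0 → k x = x}
      one_mem' := ⟨1, K.one_mem, by simp, by simp, fun _ _ _ => rfl⟩
      mul_mem' := by
        rintro m m' ⟨k, hk, h1, h2, h3⟩ ⟨k', hk', h1', h2', h3'⟩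
        refine ⟨k * k', K.mul_mem hk hk', ?_, ?_, fun x hx hx' => ?_⟩
        · rw [LinearEquiv.mul_apply, h1', map_add, map_smul, map_smul, h1, h2,
            Dickson.mul_apply2, Dickson.mul_apply2]
          module
        · rw [LinearEquiv.mul_apply, h2', map_add, map_smul, map_smul, h1, h2,
            Dickson.mul_apply2, Dickson.mul_apply2]
          module
        · rw [LinearEquiv.mul_apply, h3' x hx hx', h3 x hx hx']
      inv_mem' := by
        rintro m ⟨k, hk, h1, h2, h3⟩
        have hd := Dickson.det2 m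
        refine ⟨k⁻¹, K.inv_mem hk, ?_, ?_, fun x hx hx' => ?_⟩
        · apply k.injective
          rw [Dickson.inv00, Dickson.inv10, map_add, map_smul, map_smul, h1, h2]
          simp only [LinearEquiv.coe_inv, LinearEquiv.apply_symm_apply]
          linear_combination (norm := module) (-hd) • v
        · apply k.injective
          rw [Dickson.inv01, Dickson.inv11, map_add, map_smul, map_smul, h1, h2]
          simp only [LinearEquiv.coe_inv, LinearEquiv.apply_symm_apply]
          linear_combination (norm := module) (-hd) • w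
        · apply k.injective
          simp only [LinearEquiv.coe_inv, LinearEquiv.apply_symm_apply]
          exact (h3 x hx hx').symm }
  have hx : Dickson.u (a * f.B v w) ∈ G := ⟨f.tv v a, hva, by simp [Dickson.u00, Dickson.u10,
    tv_apply_self], by simp [Dickson.u01, Dickson.u11, tv_apply, add_comm],
    fun x hx _ => f.tv_apply_of_B_eq_zero a hx⟩
  have hy : Dickson.l (b * f.B w v) ∈ G := ⟨f.tv w b, hwb, by simp [Dickson.l00, Dickson.l10,
    tv_apply], by simp [Dickson.l01, Dickson.l11, tv_apply_self],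
    fun x _ hx => f.tv_apply_of_B_eq_zero b hx⟩
  have hwv : f.B w v ≠ 0 := by rw [f.alt_symm]; exact neg_ne_zero.2 h
  obtain ⟨ψ, hψ⟩ := Dickson.exists_embedding hp2 G hx hy (a := 1) (b := 1)
    (by rw [pow_one, Dickson.u_pow, ringChar.Nat.cast_ringChar, zero_mul, Dickson.u_zero])
    (by rw [pow_one, Dickson.l_pow, ringChar.Nat.cast_ringChar, zero_mul, Dickson.l_zero])
    (fun h1 => by
      have h3 := congrArg (fun m : SL(2, F) => m 0 0) h1
      simp only [Dickson.mul_apply2, Dickson.u00, Dickson.u01, Dickson.l00, Dickson.l10,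
        Dickson.l01, Dickson.u10] at h3
      have h4 : a * f.B v w * (b * f.B w v) = 0 := by linear_combination h3
      simp [ha, hb, h, hwv] at h4)
  have hm : ((ψ (-1) : G) : SL(2, F)) = -1 := by
    set m : SL(2, F) := ((ψ (-1) : G) : SL(2, F)) with hm
    have h3 : m⁻¹ = m := by
      rw [inv_eq_iff_mul_eq_one, hm, ← Subgroup.coe_mul, ← map_mul]
      simp
    have h4 : m ∈ Subgroup.center SL(2, F) := by
      rw [Dickson.mem_center_iff']
      have e1 := Dickson.inv00 m
      have e2 := Dickson.inv01 m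
      have e3 := Dickson.inv10 m
      rw [h3] at e1 e2 e3
      refine ⟨?_, ?_, e1⟩
      · exact (mul_eq_zero.1 (show 2 * m 0 1 = 0 by linear_combination e2)).resolve_left h2
      · exact (mul_eq_zero.1 (show 2 * m 1 0 = 0 by linear_combination e3)).resolve_left h2
    rcases (Dickson.mem_center_iff'' m).1 h4 with h5 | h5
    · exfalso
      have h6 : (-1 : SL(2, ZMod (ringChar F))) = 1 := hψ (by
        rw [map_one]; exact Subtype.ext h5)
      have h7 := congrArg (fun m : SL(2, ZMod (ringChar F)) => m 0 0) h6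
      have h8 : ((2 : ℕ) : ZMod (ringChar F)) = 0 := by
        simp at h7
        push_cast
        linear_combination -h7
      rw [ZMod.natCast_eq_zero_iff] at h8
      exact hp2 ((Nat.prime_dvd_prime_iff_eq Fact.out Nat.prime_two).1 h8)
    · exact h5
  obtain ⟨n, hn, h3, h4, h5⟩ := (ψ (-1)).2
  rw [hm] at h3 h4
  exact ⟨n, hn, by simpa using h3, by simpa using h4, h5⟩

end Fin

end CL.Rk.I2
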