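/-
Rank three actions of the symplectic groups in odd characteristic: the connected case.
-/
import Cfsg.Agent.CLAS.RkDef
import Cfsg.Agent.PLOC.Dickson
import Cfsg.Agent.KSG.CoopS1
import Cfsg.Agent.CLAS.RkI2a

set_option autoImplicit false

namespace CL.Rk

open Module CL.Witt CL.Witt.Form FormType Submodule

variable {F : Type*} [Field F] [Finite F] {V : Type*} [AddCommGroup V] [Module F V]
  [FiniteDimensional F V] {f : Form (alt F) V} {K : Subgroup (V ≃ₗ[F] V)}

namespace I2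

open CL.Root

omit [Finite F] [FiniteDimensional F V] in
theorem ne_symm {v w : V} (h : f.B v w ≠ 0) : f.B w v ≠ 0 := by
  rw [f.alt_symm]; exact neg_ne_zero.2 h

omit [Finite F] [FiniteDimensional F V] in
/-- The centres span. -/
theorem span_ctr (hle : K ≤ f.O) (hK : Irr K) {v : V} (hv : Ctr f K v) :
    span F {x | Ctr f K x} = ⊤ := by
  refine (hK _ fun k hk x hx => ?_).resolve_left fun h => hv.1 ?_
  · induction hx using span_induction with
    | mem x hx => exact subset_span (Ctr.conj hle hx hk)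
    | zero => simp
    | add x y _ _ hx hy => rw [map_add]; exact add_mem hx hy
    | smul c x _ hx => rw [map_smul]; exact smul_mem _ _ hx
  · rw [← mem_bot F, ← h]
    exact subset_span hv

omit [Finite F] [FiniteDimensional F V] in
theorem exists_ctr (hf : f.Nondeg) (hle : K ≤ f.O) (hK : Irr K) {v : V} (hv : Ctr f K v) {x : V}
    (hx : x ≠ 0) : ∃ c, Ctr f K c ∧ f.B x c ≠ 0 := by
  by_contra! hn
  refine hx (hf x fun y => ?_)
  have hy : y ∈ span F {x | Ctr f K x} := by rw [span_ctr hle hK hv]; trivial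
  induction hy using span_induction with
  | mem y hy => exact hn y hy
  | zero => simp
  | add y z _ _ hy hz => rw [map_add, hy, hz, add_zero]
  | smul c y _ hy => rw [map_smul, hy, smul_zero]

omit [Finite F] [FiniteDimensional F V] in
theorem step (hle : K ≤ f.O) {r x c : V} {a : F} (h : Rad f K r x) (ha : a ∈ A f K c)
    (hc : f.B c r = 0) : Rad f K r ((a * f.B c x) • c) := by
  have := h.sub_fix ha (hle ha) (f.tv_apply_of_B_eq_zero a hc)
  rwa [tv_apply, add_sub_cancel_left] at this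

omit [Finite F] [FiniteDimensional F V] in
theorem rad_A {r x y : V} (h : Rad f K r x) (h' : Rad f K r y) : 2 * f.B x y ∈ A f K r := by
  have := h.comm h'
  rw [ei_zero_eq_tv, f.alt_symm x y] at this
  rw [mem_A]
  convert this using 2
  ring

omit [FiniteDimensional F V] in
theorem exists_rad (hle : K ≤ f.O) (h2 : (2 : F) ≠ 0) {v w : V} (hv : Ctr f K v) (hw : Ctr f K w)
    (h : f.B v w ≠ 0) {u r : V} (hu : u ∈ span F {v, w}) (hu0 : u ≠ 0) (h1 : f.B v r = 0)
    (h1' : f.B w r = 0) (hz : Ctr f K (u + r)) : ∃ β : F, β ≠ 0 ∧ Rad f K r (β • w) := by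
  obtain ⟨n, hn, hnv, hnw, hnr⟩ := exists_neg h2 hv hw h
  obtain ⟨α, β, rfl⟩ := mem_span_pair.1 hu
  set u := α • v + β • w with hu_def
  have hru : f.B r u = 0 := by
    simp [hu_def, f.alt_symm v r, f.alt_symm w r, h1, h1']
  have hur : f.B u r = 0 := by rw [f.alt_symm, hru, neg_zero]
  obtain ⟨-, d, hd, hdz⟩ := hz
  have h3 : n (u + r) = -u + r := by
    rw [map_add, hnr r h1 h1', hu_def, map_add, map_smul, map_smul, hnv, hnw]
    module
  have h4 : -d ∈ A f K (-u + r) := by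
    rw [← h3, A_apply hle hn]
    exact neg_mem hdz
  have h5 : Rad f K r ((2 * d) • u) := by
    have h6 : f.B r ((2 * d) • u) = 0 := by rw [Br, hru, mul_zero]
    refine ⟨0, CL.Coop.okA h6 0, ?_⟩
    convert K.mul_mem hdz h4 using 1
    ext x
    simp only [LinearEquiv.mul_apply, CL.Coop.eiA_apply h6, tv_apply, map_add, map_smul, map_neg,
      LinearMap.add_apply, LinearMap.neg_apply, B_smul_left, hru, hur, f.alt_B_self, alt_σ]
    module
  obtain ⟨-, a, ha, hva⟩ := hv
  obtain ⟨-, b, hb, hwb⟩ := hw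
  by_cases hα : α = 0
  · have hβ : β ≠ 0 := by rintro rfl; exact hu0 (by simp [hu_def, hα])
    refine ⟨2 * d * β, by simp [h2, hd, hβ], ?_⟩
    convert h5 using 1
    simp [hu_def, hα, smul_smul]
  · refine ⟨_, ?_, step hle h5 hwb h1'⟩
    simp [hu_def, f.alt_B_self, hb, h2, hd, hα, ne_symm h]

omit [FiniteDimensional F V] in
/-- The projection of a centre to the complement of a line spanned by centres. -/
theorem ctr_proj (hle : K ≤ f.O) (h2 : (2 : F) ≠ 0) {v w : V} (hv : Ctr f K v) (hw : Ctr f K w)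
    (h : f.B v w ≠ 0) {u r : V} (hu : u ∈ span F {v, w}) (hr : r ≠ 0) (h1 : f.B v r = 0)
    (h1' : f.B w r = 0) (hz : Ctr f K (u + r)) : Ctr f K r := by
  by_cases hu0 : u = 0
  · simpa [hu0] using hz
  obtain ⟨β, hβ, h3⟩ := exists_rad hle h2 hv hw h hu hu0 h1 h1' hz
  obtain ⟨-, a, ha, hva⟩ := hv
  refine ⟨hr, _, ?_, rad_A (step hle h3 hva h1) h3⟩
  simp [h2, ha, hβ, h]

omit [Finite F] [FiniteDimensional F V] in
theorem exists_dec {v w : V} (h : f.B v w ≠ 0) (x : V) :
    ∃ u ∈ span F {v, w}, ∃ r, f.B v r = 0 ∧ f.B w r = 0 ∧ x = u + r := by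
  obtain ⟨u, hu, r, hr, rfl⟩ := (hyp_of_ne h).exists_add x
  exact ⟨u, hu, r, (f.mem_perp_span_pair.1 hr).1, (f.mem_perp_span_pair.1 hr).2, rfl⟩

omit [Finite F] [FiniteDimensional F V] in
/-- A subspace containing a centre, such that all centres are in it or perpendicular to it. -/
theorem eq_top_of_conn (hle : K ≤ f.O) (hK : Irr K) {v : V} (hv : Ctr f K v)
    (hc : ∀ v w, Ctr f K v → Ctr f K w → Conn f K v w) {C : Submodule F V} (hvC : v ∈ C)
    (h : ∀ x, Ctr f K x → x ∈ C ∨ x ∈ f.perp C) : C = ⊤ := by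
  rw [eq_top_iff, ← span_ctr hle hK hv, span_le]
  intro x hx
  have := hc v x hv hx
  clear hx
  induction this with
  | refl => exact hvC
  | tail _ h2 ih => exact (h _ h2.2.1).resolve_right fun h3 => h2.2.2 (h3 _ ih)

omit [Finite F] in
theorem exists_mixed (h : R3 f K) (hK : Irr K)
    (hc : ∀ v w, Ctr f K v → Ctr f K w → Conn f K v w) {v w : V} (hv : Ctr f K v)
    (hvw : f.B v w ≠ 0) : ∃ u ∈ span F {v, w}, ∃ r, u ≠ 0 ∧ r ≠ 0 ∧ f.B v r = 0 ∧ f.B w r = 0 ∧
      Ctr f K (u + r) := by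
  by_contra! hn
  have h1 : span F {v, w} = ⊤ := by
    refine eq_top_of_conn h.le hK hv hc (subset_span (by simp)) fun x hx => ?_
    obtain ⟨u, hu, r, h1, h2, rfl⟩ := exists_dec hvw x
    by_cases hu0 : u = 0
    · right
      rw [hu0, zero_add]
      exact f.mem_perp_span_pair.2 ⟨h1, h2⟩
    · left
      by_cases hr0 : r = 0
      · rwa [hr0, add_zero]
      · exact absurd hx (hn u hu r hu0 hr0 h1 h2)
  classical
  have h2 := finrank_span_finset_le_card (R := F) ({v, w} : Finset V)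
  have h3 := h.dim
  have h4 : ({v, w} : Finset V).card ≤ 2 := Finset.card_le_two
  have h5 : span F (({v, w} : Finset V) : Set V) = ⊤ := by simpa using h1
  rw [Set.finrank, h5, finrank_top] at h2
  omega

/-- The field structure. -/
theorem mul_mem_M (h : R3 f K) (hK : Irr K)
    (hc : ∀ v w, Ctr f K v → Ctr f K w → Conn f K v w) {v w : V} (hv : Ctr f K v)
    (hw : Ctr f K w) {a b : F} (ha : a ∈ A f K v) (hb : b ∈ A f K w) :
    a * b * f.B v w ^ 2 ∈ M f K v := by
  by_cases hvw : f.B v w = 0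
  · rw [hvw, zero_pow two_ne_zero, mul_zero]; exact zero_mem _
  obtain ⟨u, hu, r, hu0, hr0, h1, h1', hz⟩ := exists_mixed h hK hc hv hvw
  have hr := ctr_proj h.le h.two hv hw hvw hu hr0 h1 h1' hz
  obtain ⟨β, hβ, h3⟩ := exists_rad h.le h.two hv hw hvw hu hu0 h1 h1' hz
  have hcard : Nat.card (A f K r) = Nat.card (A f K v) :=
    card_A_eq h.le hr0 (eqv_of_conn (hc r v hr hv))
  let Y := {α : F // Rad f K r (α • v)}
  let φ : A f K v → Y := fun a => ⟨a * f.B v (β • w), step h.le h3 a.2 h1⟩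
  let ψ : Y → A f K r := fun α => ⟨_, rad_A α.2 h3⟩
  have h4 : f.B v (β • w) ≠ 0 := by rw [Br]; exact mul_ne_zero hβ hvw
  have hφ : Function.Injective φ := fun a a' haa =>
    Subtype.ext (mul_right_cancel₀ h4 (congrArg Subtype.val haa))
  have hψ : Function.Injective ψ := fun α α' hαα => by
    have h5 : 2 * f.B (α.1 • v) (β • w) = 2 * f.B (α'.1 • v) (β • w) := congrArg Subtype.val hαα
    rw [Bl, Bl] at h5
    exact Subtype.ext (mul_right_cancel₀ h4 (mul_left_cancel₀ h.two h5))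
  have hφ' : Function.Surjective φ :=
    (hφ.bijective_of_nat_card_le (hcard ▸ Nat.card_le_card_of_injective ψ hψ)).2
  intro a' ha'
  have h5 := step h.le (step h.le (step h.le h3 ha h1) hb h1') ha' h1
  obtain ⟨a'', h6⟩ := hφ' ⟨_, h5⟩
  have h7 : (a'' : F) * f.B v (β • w) = _ := congrArg Subtype.val h6
  have h8 : a * b * f.B v w ^ 2 * a' = -a'' := by
    apply mul_right_cancel₀ h4
    rw [neg_mul, h7]
    simp only [Br, f.alt_symm v w]
    ring
  rw [h8]
  exact neg_mem a''.2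

/-- A field containing all the products `a b B(v,w)²`. -/
def Fld (f : Form (alt F) V) (K : Subgroup (V ≃ₗ[F] V)) (F₀ : Subfield F) : Prop :=
  ∀ v w, Ctr f K v → Ctr f K w → ∀ a ∈ A f K v, ∀ b ∈ A f K w, a * b * f.B v w ^ 2 ∈ F₀

omit [Finite F] [FiniteDimensional F V] in
theorem Fld.one {F₀ : Subfield F} (hF : Fld f K F₀) (hle : K ≤ f.O) (h2 : (2 : F) ≠ 0) {v w c : V}
    (hv : Ctr f K v) (hw : Ctr f K w) (hc : Ctr f K c) (hvw : f.B v w ≠ 0) (hvc : f.B v c ≠ 0)
    {a : F} (ha : a ∈ A f K v) (ha0 : a ≠ 0) : f.B c w / (a * f.B v w * f.B v c) ∈ F₀ := by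
  have key : ∀ c, Ctr f K c → f.B v c ≠ 0 → (f.B c w / (a * f.B v w * f.B v c)) ^ 2 ∈ F₀ := by
    intro c hc hvc
    obtain ⟨e, he, hce⟩ := hc.2
    obtain ⟨b, hb, hwb⟩ := hw.2
    have := F₀.div_mem (hF c w hc hw e hce b hwb)
      (F₀.mul_mem (hF v c hv hc a ha e hce) (hF v w hv hw a ha b hwb))
    convert this using 1
    field_simp
  have h1 := key c hc hvc
  have h3 : f.B v (f.tv v a c) = f.B v c := by simp [tv_apply, f.alt_B_self]
  have h4 := key _ (hc.conj hle ha) (by rwa [h3])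
  have h5 := F₀.div_mem (F₀.sub_mem (F₀.sub_mem h4 h1) F₀.one_mem)
    (F₀.add_mem F₀.one_mem F₀.one_mem)
  convert h5 using 1
  rw [h3, tv_apply, f.B_add_left, Bl, one_add_one_eq_two]
  field_simp
  ring

omit [Finite F] [FiniteDimensional F V] in
theorem Fld.two {F₀ : Subfield F} (hF : Fld f K F₀) (hle : K ≤ f.O) (h2 : (2 : F) ≠ 0)
    {v m r c : V} (hv : Ctr f K v) (hm : Ctr f K m) (hr : Ctr f K r) (hc : Ctr f K c)
    (hvm : f.B v m ≠ 0) (hmr : f.B m r ≠ 0) (hvr : f.B v r = 0) (hvc : f.B v c ≠ 0)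
    {a d : F} (ha : a ∈ A f K v) (ha0 : a ≠ 0) (hd : d ∈ A f K m) (hd0 : d ≠ 0) :
    f.B c r / (a * d * f.B v m * f.B m r * f.B v c) ∈ F₀ := by
  have key : ∀ m, Ctr f K m → f.B v m ≠ 0 → f.B m r ≠ 0 → d ∈ A f K m → f.B m c ≠ 0 →
      f.B c r / (a * d * f.B v m * f.B m r * f.B v c) ∈ F₀ := by
    intro m hm hvm hmr hd hmc
    have := F₀.neg_mem (F₀.mul_mem (hF.one hle h2 hv hm hc hvm hvc ha ha0)
      (hF.one hle h2 hm hr hc hmr hmc hd hd0))
    convert this using 1
    rw [f.alt_symm m c]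
    field_simp
  by_cases hmc : f.B m c = 0
  · have h3 : f.B v (f.tv v a m) = f.B v m := by simp [tv_apply, f.alt_B_self]
    have h4 : f.B (f.tv v a m) r = f.B m r := by simp [tv_apply, hvr]
    have := key _ (hm.conj hle ha) (by rwa [h3]) (by rwa [h4]) ((A_apply hle ha m d).2 hd)
      (by simp [tv_apply, hmc, ha0, hvm, hvc])
    rwa [h3, h4] at this
  · exact key m hm hvm hmr hd hmc

omit [Finite F] [FiniteDimensional F V] in
theorem exists_path {v r : V} (h : Conn f K v r) : r ∈ F ∙ v ∨ f.B v r ≠ 0 ∨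
    ∃ m r, Ctr f K m ∧ Ctr f K r ∧ f.B v m ≠ 0 ∧ f.B m r ≠ 0 ∧ f.B v r = 0 ∧ r ∉ F ∙ v := by
  induction h with
  | refl => exact Or.inl (mem_span_singleton_self v)
  | @tail m r _ h2 ih =>
    rcases ih with ih | ih | ih
    · obtain ⟨t, rfl⟩ := mem_span_singleton.1 ih
      refine Or.inr (Or.inl fun h => h2.2.2 ?_)
      rw [Bl, h, mul_zero]
    · by_cases h3 : r ∈ F ∙ v
      · exact Or.inl h3
      · by_cases h4 : f.B v r = 0
        · exact Or.inr (Or.inr ⟨m, r, h2.1, h2.2.1, ih, h2.2.2, h4, h3⟩)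
        · exact Or.inr (Or.inl h4)
    · exact Or.inr (Or.inr ih)

omit [Finite F] [FiniteDimensional F V] in
theorem forall_ctr (hle : K ≤ f.O) {k : V ≃ₗ[F] V} (hk : k ∈ K) {p : V → Prop} :
    (∀ c, Ctr f K c → p c) ↔ ∀ c, Ctr f K c → p (k c) := by
  refine ⟨fun h c hc => h _ (hc.conj hle hk), fun h c hc => ?_⟩
  simpa using h _ (hc.conj hle (K.inv_mem hk))

end I2

open I2 in
/-- Irreducible, connected set of centres (only `h.nd h.two h.dim h.le h.ne` are used). -/
theorem three_of_conn (h : R3 f K) (hK : Irr K) {v : V} (hv : Ctr f K v)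
    (hc : ∀ v w, Ctr f K v → Ctr f K w → Conn f K v w) : Three K := by
  have hF : Fld f K (M f K v) := fun x y hx hy a ha b hb => by
    rw [← M_eq h.le hx.1 (eqv_of_conn (hc x v hx hv))]
    exact mul_mem_M h hK hc hx hy ha hb
  obtain ⟨w, hw, hvw⟩ := exists_ctr h.nd h.le hK hv hv.1
  obtain ⟨θ, hθ⟩ : ∃ θ, θ ∉ M f K v := by
    by_contra! hall
    have hD : ∀ x, Ctr f K x → CL.Coop.Dv f K x := fun x hx c => by
      obtain ⟨a, ha, hxa⟩ := hx.2
      have h1 : c / a ∈ M f K x := by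
        rw [M_eq h.le hx.1 (eqv_of_conn (hc x v hx hv))]
        exact hall _
      have := h1 a hxa
      rwa [div_mul_cancel₀ _ ha] at this
    obtain ⟨C, h1, -, h2, h3⟩ := CL.Coop.exists_comp (f := f) (K := K)
      ⟨-1, by simp, fun h1 => h.two (by linear_combination -h1)⟩ (hD v hv)
      ((hD w hw).smul (f.B v w)⁻¹) (by rw [Br, inv_mul_cancel₀ hvw])
    have h4 : C = ⊤ := eq_top_of_conn h.le hK hv hc h1 fun x hx => h3 x (hD x hx)
    exact h.ne (h.nd.O_le_of_tv fun x c => h2 x (by rw [h4]; trivial) c)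
  have hθ0 : θ ≠ 0 := by rintro rfl; exact hθ (zero_mem _)
  obtain ⟨m, r, hm, hr, hvm, hmr, hvr, hrv⟩ : ∃ m r, Ctr f K m ∧ Ctr f K r ∧ f.B v m ≠ 0 ∧
      f.B m r ≠ 0 ∧ f.B v r = 0 ∧ r ∉ F ∙ v := by
    obtain ⟨u, hu, r, hu0, hr0, h1, h1', hz⟩ := exists_mixed h hK hc hv hvw
    have hr := ctr_proj h.le h.two hv hw hvw hu hr0 h1 h1' hz
    rcases exists_path (hc v r hv hr) with h2 | h2 | h2
    · obtain ⟨t, rfl⟩ := mem_span_singleton.1 h2
      rw [Br, mul_eq_zero, or_iff_left (ne_symm hvw)] at h1'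
      exact absurd (by rw [h1', zero_smul]) hr0
    · exact absurd h1 h2
    · exact h2
  obtain ⟨a, ha0, ha⟩ := hv.2
  obtain ⟨d, hd0, hd⟩ := hm.2
  have hy : ∀ c, Ctr f K c → f.B c (r + (θ * (a * d * f.B v m * f.B m r)) • v) = 0 →
      f.B c v = 0 := fun c hc' h1 => by
    by_contra h2
    have h3 := ne_symm h2
    have h4 := hF.two h.le h.two hv hm hr hc' hvm hmr hvr h3 ha ha0 hd hd0
    rw [f.B_add_right, Br, f.alt_symm v c] at h1
    refine hθ ?_
    convert h4 using 1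
    rw [eq_div_iff (by simp [ha0, hd0, hvm, hmr, h3])]
    linear_combination -h1
  have hz : ∀ c, Ctr f K c → f.B c (w + (θ * (a * f.B v w)) • v) = 0 →
      f.B c v = 0 := fun c hc' h1 => by
    by_contra h2
    have h3 := ne_symm h2
    have h4 := hF.one h.le h.two hv hw hc' hvw h3 ha ha0
    rw [f.B_add_right, Br, f.alt_symm v c] at h1
    refine hθ ?_
    convert h4 using 1
    rw [eq_div_iff (by simp [ha0, hvw, h3])]
    linear_combination -h1
  refine three_of_inv
    (fun x => ∀ x', (∀ c, Ctr f K c → f.B c x = 0 → f.B c x' = 0) → x' ∈ F ∙ x)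
    (fun x => ∃ c, Ctr f K c ∧ f.B c x = 0 ∧ ∀ c', Ctr f K c' → f.B c' x = 0 → f.B c c' = 0)
    (fun k hk t x ht => ?_) (fun k hk t x ht => ?_) (x := v)
    (y := r + (θ * (a * d * f.B v m * f.B m r)) • v) (z := w + (θ * (a * f.B v w)) • v)
    hv.1 ?_ ?_ ?_ ?_ ?_ ?_ ?_
  · have key : ∀ c, f.B (k c) (t • k x) = 0 ↔ f.B c x = 0 := fun c => by
      rw [Br, mem_O_B (h.le hk), mul_eq_zero, or_iff_right ht]
    rw [k.surjective.forall]
    refine forall_congr' fun x' => imp_congr ?_ ?_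
    · rw [forall_ctr h.le hk]
      simp only [key, mem_O_B (h.le hk)]
    · rw [span_singleton_smul_eq ht.isUnit, mem_span_singleton, mem_span_singleton]
      refine exists_congr fun s => ?_
      rw [← map_smul, k.injective.eq_iff]
  · have key : ∀ c, f.B (k c) (t • k x) = 0 ↔ f.B c x = 0 := fun c => by
      rw [Br, mem_O_B (h.le hk), mul_eq_zero, or_iff_right ht]
    rw [k.surjective.exists]
    refine exists_congr fun c => and_congr ?_ (and_congr (key c) ?_)
    · exact ⟨fun h1 => by simpa using h1.conj h.le (K.inv_mem hk), fun h1 => h1.conj h.le hk⟩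
    · rw [forall_ctr h.le hk]
      simp only [key, mem_O_B (h.le hk)]
  · intro h1
    exact hrv (mem_span_singleton.2 ⟨_, (eq_neg_of_add_eq_zero_left h1 ▸ neg_smul _ v :)⟩)
  · intro h1
    have := congrArg (f.B v) h1
    simp [f.alt_B_self, hvw] at this
  · intro x' hx'
    obtain ⟨u, hu, s, h1, h1', rfl⟩ := exists_dec hvw x'
    have hs : s = 0 := by
      by_contra hs
      obtain ⟨c, hc', h2⟩ := exists_ctr h.nd h.le hK hv hs
      obtain ⟨u', hu', s', h3, h3', rfl⟩ := exists_dec hvw c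
      have h4 : f.B s u' = 0 := f.mem_perp'.1 (f.mem_perp_span_pair.2 ⟨h1, h1'⟩) _ hu'
      have h5 : f.B s' u = 0 := f.mem_perp'.1 (f.mem_perp_span_pair.2 ⟨h3, h3'⟩) _ hu
      rw [f.B_add_right, h4, zero_add] at h2
      have h6 := hx' s' (ctr_proj h.le h.two hv hw hvw hu' (by rintro rfl; simp at h2) h3 h3' hc')
        (by rw [f.alt_symm, h3, neg_zero])
      rw [f.B_add_right, h5, zero_add] at h6
      exact ne_symm h2 h6
    obtain ⟨α, β, rfl⟩ := mem_span_pair.1 hu
    have h2 := hx' v hv (f.alt_B_self v)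
    have h3 : β = 0 := by simpa [hs, f.alt_B_self, hvw] using h2
    exact mem_span_singleton.2 ⟨α, by simp [hs, h3]⟩
  · intro h1
    obtain ⟨t, ht⟩ := mem_span_singleton.1 (h1 v hy)
    have ht0 : t ≠ 0 := by rintro rfl; exact hv.1 (by simpa using ht.symm)
    refine hrv (mem_span_singleton.2 ⟨t⁻¹ - θ * (a * d * f.B v m * f.B m r), ?_⟩)
    apply smul_right_injective V ht0
    simp only [smul_smul, mul_sub, mul_inv_cancel₀ ht0]
    linear_combination (norm := module) -ht
  · intro h1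
    obtain ⟨t, ht⟩ := mem_span_singleton.1 (h1 v hz)
    have h2 := congrArg (f.B v) ht
    have ht0 : t = 0 := by simpa [f.alt_B_self, hvw] using h2
    exact hv.1 (by simpa [ht0] using ht.symm)
  · refine ⟨v, hv, by simp [f.alt_B_self, hvr], fun c hc' h1 => ?_⟩
    rw [f.alt_symm, hy c hc' h1, neg_zero]
  · rintro ⟨c, hc', h1, h2⟩
    have h3 := hz c hc' h1
    have h4 : f.B c w = 0 := by simpa [h3] using h1
    obtain ⟨c', hc'', h5⟩ := exists_ctr h.nd h.le hK hv hc'.1
    obtain ⟨u', hu', s', h6, h6', rfl⟩ := exists_dec hvw c'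
    have h7 : f.B c u' = 0 := by
      obtain ⟨α, β, rfl⟩ := mem_span_pair.1 hu'
      simp [h3, h4]
    rw [f.B_add_right, h7, zero_add] at h5
    refine h5 (h2 s' (ctr_proj h.le h.two hv hw hvw hu' (by rintro rfl; simp at h5) h6 h6' hc'') ?_)
    simp [f.alt_symm v s', f.alt_symm w s', h6, h6']

end CL.Rk
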