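/-
Rank three actions of the symplectic groups in odd characteristic: the theorem.
-/
import Cfsg.Agent.CLAS.RkA
import Cfsg.Agent.CLAS.RkI1
import Cfsg.Agent.CLAS.RkI2
import Cfsg.Agent.CLAS.RkB2
import Cfsg.Agent.CLAS.RkB4
import Cfsg.Agent.CLAS.RkB5
import Cfsg.Agent.CLAS.RkG

set_option autoImplicit false

namespace CL.Rk

open Module CL.Witt CL.Witt.Form FormType Submodule MulAction
open scoped LinearAlgebra.Projectivization

variable {F : Type*} [Field F] [Finite F] {V : Type*} [AddCommGroup V] [Module F V]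
  [FiniteDimensional F V] {f : Form (alt F) V} {K : Subgroup (V ≃ₗ[F] V)}

omit [FiniteDimensional F V] in
theorem par_of_dc (h : R3 f K) (hD : ∀ v ≠ 0, ∀ a ≠ 0, ∀ w ≠ 0, ∀ b ≠ 0,
    DC K (f.tv v a) (f.tv w b)) : Par f K := by
  intro v hv a ha w hw
  obtain ⟨ν, hν⟩ := FiniteField.exists_nonsquare (F := F) (fun h2 => h.two (by
    have := ringChar.of_eq h2
    simpa using CharP.cast_eq_zero F 2))
  have hν0 : ν ≠ 0 := by rintro rfl; exact hν ⟨0, by simp⟩
  obtain ⟨k, hk, k', hk', e⟩ := hD v hv a ha w hw (a * ν) (mul_ne_zero ha hν0)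
  refine ⟨k⁻¹, K.inv_mem hk, a * ν, fun ⟨c, hc⟩ => hν ⟨c / a, by
    field_simp; linear_combination hc⟩, ?_⟩
  rw [← tv_inv, ← tv_conj (h.le (K.inv_mem hk)), e,
    show (k⁻¹ * (k * f.tv v a * k') * k⁻¹⁻¹)⁻¹ * f.tv v a = (k' * k)⁻¹ by group]
  exact K.inv_mem (K.mul_mem hk' hk)

theorem index_le (h : R3 f K) (hT : TF f K) {v w : V} {a b : F} (hv : v ≠ 0) (ha : a ≠ 0)
    (hw : w ≠ 0) (hb : b ≠ 0) (hD : ¬ DC K (f.tv v a) (f.tv w b)) :
    K.relIndex f.O ≤ Nat.card F ^ finrank F V := by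
  have : Finite V := Module.finite_of_finite F
  have key : ∀ {v : V} {a : F} {g : V ≃ₗ[F] V}, v ≠ 0 → a ≠ 0 → DC K (f.tv v a) g →
      ∃ (p : ℙ F V) (c : Fˣ), (f.tv p.rep c)⁻¹ * g ∈ K := by
    rintro v a _ hv ha ⟨k, hk, k', hk', rfl⟩
    have h0 : k v ≠ 0 := by simpa using hv
    obtain ⟨c, hc⟩ := Projectivization.exists_smul_eq_mk_rep F (k v) h0
    refine ⟨Projectivization.mk F (k v) h0, Units.mk0 a ha / c ^ 2, ?_⟩
    rw [← hc, Units.smul_def, tv_smul, show (c : F) ^ 2 * ((Units.mk0 a ha / c ^ 2 : Fˣ) : F) = a by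
      simp [mul_div_cancel₀], ← tv_conj (h.le hk),
      show (k * f.tv v a * k⁻¹)⁻¹ * (k * f.tv v a * k') = k * k' by group]
    exact K.mul_mem hk hk'
  have h1 := Nat.card_le_card_of_surjective (fun o : Option (ℙ F V × Fˣ) =>
    (QuotientGroup.mk (o.elim 1 fun p => f.tvO p.1.rep p.2) : f.O ⧸ K.subgroupOf f.O)) (by
      rintro ⟨g, hg⟩
      by_cases hK : g ∈ K
      · exact ⟨none, QuotientGroup.eq.2 (by simpa [Subgroup.mem_subgroupOf] using hK)⟩
      · obtain ⟨p, c, e⟩ : ∃ (p : ℙ F V) (c : Fˣ), (f.tv p.rep c)⁻¹ * g ∈ K := by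
          rcases h.four _ (f.tv_mem_O v a) _ (f.tv_mem_O w b) g hg
            (fun e => (hT _ _ e).elim hv ha) (fun e => (hT _ _ e).elim hw hb) hK with e | e | e
          · exact absurd e hD
          · exact key hv ha e
          · exact key hw hb e
        exact ⟨some (p, c), QuotientGroup.eq.2 e⟩)
  rw [Finite.card_option, Nat.card_prod, Nat.card_units, ← Projectivization.card',
    Module.natCard_eq_pow_finrank (K := F) (V := V)] at h1
  exact h1

theorem R3.three (h : R3 f K) : Three K := by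
  by_cases hI : Irr K
  swap
  · exact three_of_red h hI
  by_cases hC : ∃ v, Ctr f K v
  · obtain ⟨v, hv⟩ := hC
    by_cases hc : ∀ v w, Ctr f K v → Ctr f K w → Conn f K v w
    · exact three_of_conn h hI hv hc
    · push Not at hc
      obtain ⟨v, w, hv, hw, hc⟩ := hc
      exact three_of_disc h hI hv hw hc
  exfalso
  have hT : TF f K := fun v c e => by
    by_contra hcon
    exact hC ⟨v, fun h => hcon (Or.inl h), c, fun h => hcon (Or.inr h), e⟩
  by_cases hD : ∀ v ≠ 0, ∀ a ≠ 0, ∀ w ≠ 0, ∀ b ≠ 0, DC K (f.tv v a) (f.tv w b)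
  · have hP := par_of_dc h hD
    by_cases hL : ∃ U, IL f K U
    · obtain ⟨U, hU⟩ := hL
      exact false_of_cover h hT (cover_of_IL h hT hP hU)
    · push Not at hL
      exact false_of_ell h hT hP hL fun v w a b => perp_of_no_IL h hT hP hL
  · push Not at hD
    obtain ⟨v, hv, a, ha, w, hw, b, hb, hD⟩ := hD
    exact (index_gt h hT).not_ge (index_le h hT hv ha hw hb hD)

omit [Finite F] in
theorem orbits_points_le (hf : f.Nondeg) (h3 : 3 ≤ finrank F V) :
    Nat.card (orbitRel.Quotient f.O (ℙ F V × ℙ F V)) ≤ 3 := by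
  obtain ⟨x, hx⟩ : ∃ x : V, x ≠ 0 := (finrank_pos_iff_exists_ne_zero (R := F)).1 (by omega)
  obtain ⟨y, hy⟩ := hf.exists_B_eq hx 1
  have hy0 : y ≠ 0 := by rintro rfl; simp at hy
  obtain ⟨z, hz, hz'⟩ : ∃ z ∈ f.perp (F ∙ x), z ∉ F ∙ x := SetLike.not_le_iff_exists.1 fun h => by
    have h1 := Submodule.finrank_mono h
    rw [hf.finrank_perp, finrank_span_singleton hx] at h1
    omega
  have hz0 : z ≠ 0 := by rintro rfl; exact hz' (zero_mem _)
  rw [mem_perp_span_singleton] at hz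
  have li : ∀ {v w : V}, v ≠ 0 → w ∉ F ∙ v → LinearIndependent F ![v, w] := fun hv hw =>
    (LinearIndependent.pair_iff' hv).2 fun a e => hw (mem_span_singleton.2 ⟨a, e⟩)
  have nm : ∀ {v w : V}, f.B v w ≠ 0 → w ∉ F ∙ v := fun h hw => by
    obtain ⟨a, rfl⟩ := mem_span_singleton.1 hw
    exact h (by simp [f.alt_B_self])
  refine orbits_le_three (a := (.mk F x hx, .mk F x hx)) (b := (.mk F x hx, .mk F y hy0))
    (c := (.mk F x hx, .mk F z hz0)) ?_
  rintro ⟨p, p'⟩
  induction p using Projectivization.ind with | _ v hv =>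
  induction p' using Projectivization.ind with | _ w hw =>
  by_cases h1 : w ∈ F ∙ v
  · obtain ⟨g, hg, e⟩ := hf.witt_vector hx hv (by simp [alt_q])
    obtain ⟨a, rfl⟩ := mem_span_singleton.1 h1
    refine Or.inl ⟨⟨g, hg⟩, Prod.ext ?_ ?_⟩ <;> simp only [Prod.smul_fst, Prod.smul_snd, O_smul_mk, e]
    exact ((Projectivization.mk_eq_mk_iff' F _ _ _ _).2 ⟨a, rfl⟩).symm
  by_cases h2 : f.B v w = 0
  · obtain ⟨g, hg, e, e'⟩ := hf.witt_pair (li hx hz') (li hv h1) (by simp [alt_q]) (by simp [alt_q])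
      (h2.trans hz.symm)
    refine Or.inr (Or.inr ⟨⟨g, hg⟩, Prod.ext ?_ ?_⟩) <;>
      simp only [Prod.smul_fst, Prod.smul_snd, O_smul_mk, e, e']
  · have h4 : f.B v ((f.B v w)⁻¹ • w) = f.B x y := by rw [Br, inv_mul_cancel₀ h2, hy]
    obtain ⟨g, hg, e, e'⟩ := hf.witt_pair (li hx (nm (by simp [hy])))
      (li hv (nm (by simp [h4, hy]))) (by simp [alt_q]) (by simp [alt_q]) h4
    refine Or.inr (Or.inl ⟨⟨g, hg⟩, Prod.ext ?_ ?_⟩) <;>
      simp only [Prod.smul_fst, Prod.smul_snd, O_smul_mk, e, e']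
    exact (Projectivization.mk_eq_mk_iff' F _ _ _ _).2 ⟨_, rfl⟩

/-- A primitive rank three action of `Sp(V)` has the degree of the action on points. -/
theorem card_eq (hf : f.Nondeg) (h2 : (2 : F) ≠ 0) (h6 : 6 ≤ finrank F V) {X : Type*}
    [MulAction f.O X] [Finite X] [IsPreprimitive f.O X] (x : X)
    (h3 : Nat.card (orbitRel.Quotient (stabilizer f.O x) X) = 3) :
    Nat.card X * (Nat.card F - 1) = Nat.card F ^ finrank F V - 1 := by
  have : Finite V := Module.finite_of_finite F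
  have : Finite (V ≃ₗ[F] V) := Finite.of_injective _ (DFunLike.coe_injective (F := V ≃ₗ[F] V))
  have : Nontrivial X := by
    by_contra hn
    have := not_nontrivial_iff_subsingleton.1 hn
    have h1 : Subsingleton (orbitRel.Quotient (stabilizer f.O x) X) :=
      ⟨fun a b => Quotient.inductionOn₂' a b fun a b => by rw [Subsingleton.elim a b]⟩
    have := Finite.card_le_one_iff_subsingleton.2 h1
    omega
  have hco := IsPreprimitive.isCoatom_stabilizer_of_isPreprimitive f.O x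
  set K := (stabilizer f.O x).map f.O.subtype
  have hK : ∀ g : f.O, g.1 ∈ K ↔ g • x = x := fun g =>
    Subgroup.mem_map_iff_mem Subtype.val_injective
  have hle : K ≤ f.O := Subgroup.map_subtype_le _
  have hR : R3 f K := {
    nd := hf
    two := h2
    dim := h6
    le := hle
    ne := fun h => hco.1 (eq_top_iff.2 fun g _ => (hK g).1 (h g.2))
    max := fun H h1 h2 => by
      rcases (hco.le_iff (x := H.subgroupOf f.O)).1 (fun g hg => h1 ((hK g).2 hg)) with e | e
      · exact Or.inr (Subgroup.subgroupOf_eq_top.1 e)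
      · exact Or.inl fun g hg => (hK ⟨g, h2 hg⟩).2 (by
          have : (⟨g, h2 hg⟩ : f.O) ∈ H.subgroupOf f.O := hg
          rwa [e] at this)
    four := fun a ha b hb c hc h4 h5 h6 => by
      have key : ∀ (a b k : f.O), k ∈ stabilizer f.O x → k • a • x = b • x → DC K a b :=
        fun a b k hk e => ⟨k, (hK k).2 hk, ((k * a)⁻¹ * b : f.O), (hK _).2 (by
          rw [mul_smul, ← e, ← mul_smul k, inv_smul_smul]), by simp [mul_assoc]⟩
      rcases four_of_rank h3 (a := (⟨a, ha⟩ : f.O) • x) (b := (⟨b, hb⟩ : f.O) • x)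
        (c := (⟨c, hc⟩ : f.O) • x) (fun e => h4 ((hK _).2 e)) (fun e => h5 ((hK _).2 e))
        (fun e => h6 ((hK _).2 e)) with ⟨k, hk, e⟩ | ⟨k, hk, e⟩ | ⟨k, hk, e⟩
      · exact Or.inl (key _ _ k hk e)
      · exact Or.inr (Or.inl (key _ _ k hk e))
      · exact Or.inr (Or.inr (key _ _ k hk e)) }
  obtain ⟨a, b, c, ha, hb, hc, h4, h5, h7⟩ := hR.three
  have key : ∀ {a b : V} (ha : a ≠ 0) (hb : b ≠ 0), ¬ Eqv K a b → ∀ g : f.O,
      g • (x, Projectivization.mk F a ha) ≠ (x, Projectivization.mk F b hb) := by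
    intro a b ha hb h g e
    have e2 := congrArg Prod.snd e
    simp only [Prod.smul_snd, O_smul_mk] at e2
    obtain ⟨c, hc⟩ := (Projectivization.mk_eq_mk_iff' F _ _ _ _).1 e2.symm
    exact h ⟨g, (hK g).2 (congrArg Prod.fst e), c, hc.symm⟩
  rw [card_eq_of_orbits (H := f.O) ((orbits_prod_le x).trans h3.le)
    (orbits_points_le hf (by omega)) (three_le_orbits (key ha hb h4) (key ha hc h5) (key hb hc h7)),
    ← Projectivization.card, Module.natCard_eq_pow_finrank (K := F)]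

end CL.Rk
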