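/-
Irreducible subgroups of symplectic groups in characteristic two containing a complement to the
transvections in the unipotent radical of a point stabiliser: the point set and the full case.
-/
import Mathlib
import Cfsg.Agent.CLAS.Eichler4

set_option autoImplicit false

namespace CL.SpTwo

open Module CL.Witt CL.Witt.Form

attribute [-simp] LinearEquiv.coe_inv
attribute [local simp] FormType.alt_σ FormType.alt_ε FormType.alt_π alt_B_self

variable {F V : Type*} [Field F] [AddCommGroup V] [Module F V] {f : Form (FormType.alt F) V}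
  {L : Subgroup (V ≃ₗ[F] V)}

theorem ok {p v : V} (h : f.B p v = 0) (s : F) : f.EichOK p v s :=
  ⟨f.alt_q p, h, by simp [f.alt_q]⟩

theorem ei_app {p v : V} (h : f.B p v = 0) (s : F) (x : V) :
    f.ei p v s x = x + f.B p x • v + (f.B v x + s * f.B p x) • p := by
  rw [(ok h s).ei_apply]
  simp only [FormType.alt_ε]
  module

theorem symm2 (h2 : (2 : F) = 0) (x y : V) : f.B y x = f.B x y := by
  rw [f.alt_symm]
  linear_combination (-f.B x y) * h2

theorem add_self (h2 : (2 : F) = 0) (x : V) : x + x = 0 := by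
  rw [← two_smul F, h2, zero_smul]

theorem eq_of_add_eq_zero (h2 : (2 : F) = 0) {s t : F} (h : s + t = 0) : s = t := by
  linear_combination h - t * h2

theorem exists_perp2 [FiniteDimensional F V] (hn : 3 ≤ finrank F V) (u v : V) :
    ∃ w, w ≠ 0 ∧ f.B u w = 0 ∧ f.B v w = 0 := by
  obtain ⟨w, hw, h0⟩ := Submodule.exists_mem_ne_zero_of_ne_bot (LinearMap.ker_ne_bot_of_finrank_lt
    (f := (f.B u).prod (f.B v)) (by simp; omega))
  exact ⟨w, h0, congrArg Prod.fst hw, congrArg Prod.snd hw⟩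

theorem exists_perp_B [FiniteDimensional F V] (hf : f.Nondeg) {p u : V} (hu : u ∉ F ∙ p) (c : F) :
    ∃ v, f.B p v = 0 ∧ f.B u v = c := by
  obtain ⟨t, h1, h2⟩ := hf.exists_perp_eq' hu c
  exact ⟨t, h1 p (Submodule.mem_span_singleton_self p), h2⟩

theorem nmem_of_B {p u w : V} (hu : u ≠ 0) (h1 : f.B p w ≠ 0) (h2 : f.B u w = 0) : u ∉ F ∙ p := by
  intro h
  obtain ⟨c, rfl⟩ := Submodule.mem_span_singleton.1 h
  simp only [map_smulₛₗ, FormType.alt_σ, LinearMap.smul_apply, smul_eq_mul, mul_eq_zero] at h2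
  rcases h2 with rfl | h2
  · simp at hu
  · exact h1 h2

theorem nmem_of_B' {p u w : V} (h1 : f.B p w = 0) (h2 : f.B u w ≠ 0) : u ∉ F ∙ p := by
  intro h
  obtain ⟨c, rfl⟩ := Submodule.mem_span_singleton.1 h
  simp [h1] at h2

theorem nmem_symm {p u : V} (hp : p ≠ 0) (h : u ∉ F ∙ p) : p ∉ F ∙ u := by
  intro h'
  obtain ⟨c, rfl⟩ := Submodule.mem_span_singleton.1 h'
  have hc : c ≠ 0 := by rintro rfl; simp at hp
  exact h (Submodule.mem_span_singleton.2 ⟨c⁻¹, by simp [smul_smul, hc]⟩)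

variable (f L) in
/-- `L` contains the Eichler element with the given data. -/
def R (p v : V) (s : F) : Prop := f.B p v = 0 ∧ f.ei p v s ∈ L

theorem R.add {p v v' : V} {s s' : F} (h : R f L p v s) (h' : R f L p v' s') :
    R f L p (v + v') (s + s' + f.B v v') :=
  ⟨by simp [h.1, h'.1], (ok h.1 s).ei_mul (ok h'.1 s') ▸ L.mul_mem h.2 h'.2⟩

theorem R.map (hL : L ≤ f.O) {p v : V} {s : F} (h : R f L p v s) {g : V ≃ₗ[F] V} (hg : g ∈ L) :
    R f L (g p) (g v) s :=
  ⟨by rw [mem_O_B (hL hg), h.1],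
    (ok h.1 s).conj_ei (hL hg) ▸ L.mul_mem (L.mul_mem hg h.2) (L.inv_mem hg)⟩

theorem R.zero (p : V) : R f L p 0 0 := ⟨by simp, by rw [ei_zero]; exact L.one_mem⟩

theorem R_smul {p v : V} {s c : F} (hc : c ≠ 0) :
    R f L (c • p) v s ↔ R f L p (c • v) (c * c * s) := by
  constructor
  · rintro ⟨h1, h2⟩
    have h3 : f.B p v = 0 := by simpa [hc] using h1
    exact ⟨by simp [h3], by rwa [(ok h3 s).ei_smul_left] at h2⟩
  · rintro ⟨h1, h2⟩
    have h3 : f.B p v = 0 := by simpa [hc] using h1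
    exact ⟨by simp [h3], by rwa [(ok h3 s).ei_smul_left]⟩

theorem R_add_smul (h2 : (2 : F) = 0) {p v : V} {s : F} (c : F) :
    R f L p (v + c • p) s ↔ R f L p v s := by
  have e : ∀ h : f.B p v = 0, f.ei p (v + c • p) s = f.ei p v s := fun h => by
    rw [(ok h s).ei_add_smul_u]
    congr 1
    simp only [FormType.alt_σ, FormType.alt_ε]
    linear_combination c * h2
  constructor
  · rintro ⟨h1, h3⟩
    have h4 : f.B p v = 0 := by simpa using h1
    exact ⟨h4, e h4 ▸ h3⟩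
  · rintro ⟨h1, h3⟩
    exact ⟨by simp [h1], (e h1).symm ▸ h3⟩

theorem R.congr {p v v' : V} {s s' : F} (h : R f L p v s) (hv : v = v') (hs : s = s') :
    R f L p v' s' := hv ▸ hs ▸ h

theorem R.diff (h2 : (2 : F) = 0) {p v : V} {s s' : F} (h : R f L p v s) (h' : R f L p v s') :
    R f L p 0 (s + s') := (h.add h').congr (add_self h2 v) (by simp)

theorem R.line (h2 : (2 : F) = 0) (p : V) (c : F) : R f L p (c • p) 0 :=
  ((R_add_smul h2 c).2 (R.zero p)).congr (zero_add _) rfl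

/-- Conjugating by an Eichler element that fixes `p`. -/
theorem R.conj (h2 : (2 : F) = 0) (hL : L ≤ f.O) {p p' u v : V} {s t : F} (h : R f L p' u s)
    (hv : R f L p v t) (hp : f.B p' p = 0) (hu : f.B u p = 0) :
    R f L p (f.B p' v • u + (f.B u v + s * f.B p' v) • p') (s * f.B p' v ^ 2) := by
  have h1 := hv.map hL h.2
  rw [ei_app h.1, ei_app h.1, hp, hu] at h1
  simp only [zero_smul, add_zero, mul_zero] at h1
  refine (hv.add h1).congr ?_ ?_
  · linear_combination (norm := module) add_self h2 v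
  · simp only [map_add, map_smul, smul_eq_mul, alt_B_self, symm2 h2 u v, symm2 h2 p' v]
    linear_combination (t + f.B p' v * f.B u v) * h2

variable (f L) in
/-- An invariant set of points carrying full families of Eichler elements. -/
structure Pts (P : Set V) : Prop where
  h2 : (2 : F) = 0
  hf : f.Nondeg
  hL : L ≤ f.O
  irr : ∀ W : Submodule F V, (∀ g ∈ L, ∀ w ∈ W, g w ∈ W) → W = ⊥ ∨ W = ⊤
  ne : ∀ p ∈ P, p ≠ 0
  ex : ∀ p ∈ P, ∀ v, f.B p v = 0 → ∃ s, R f L p v s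
  map : ∀ g ∈ L, ∀ p ∈ P, g p ∈ P
  smul : ∀ c : F, c ≠ 0 → ∀ p ∈ P, c • p ∈ P
  nonempty : P.Nonempty

theorem exists_B_ne (hf : f.Nondeg) (hL : L ≤ f.O)
    (irr : ∀ W : Submodule F V, (∀ g ∈ L, ∀ w ∈ W, g w ∈ W) → W = ⊥ ∨ W = ⊤) {S : Set V}
    (hS : ∀ g ∈ L, ∀ p ∈ S, g p ∈ S) {s : V} (hs : s ∈ S) (hs0 : s ≠ 0) {x : V} (hx : x ≠ 0) :
    ∃ p ∈ S, f.B x p ≠ 0 := by
  by_contra! H
  rcases irr (f.perp (Submodule.span F S)) (fun g hg w hw => by
    rw [mem_perp_span] at hw ⊢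
    intro p hp
    rw [f.B_eq_zero_comm, B_apply_left (hL hg), f.B_eq_zero_comm]
    exact hw _ (hS _ (L.inv_mem hg) p hp)) with h | h
  · have : x ∈ f.perp (Submodule.span F S) :=
      f.mem_perp_span.2 fun p hp => f.B_eq_zero_symm (H p hp)
    rw [h] at this
    exact hx this
  · refine hs0 (hf s fun y => ?_)
    have : y ∈ f.perp (Submodule.span F S) := h ▸ Submodule.mem_top
    exact f.mem_perp_span.1 this s hs

/-- All transvections with centre `p` lie in `L`. -/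
theorem eq_O_of_full [FiniteDimensional F V] (h2 : (2 : F) = 0) (hf : f.Nondeg) (hL : L ≤ f.O)
    (irr : ∀ W : Submodule F V, (∀ g ∈ L, ∀ w ∈ W, g w ∈ W) → W = ⊥ ∨ W = ⊤) {p : V} (hp : p ≠ 0)
    (ex : ∀ v, f.B p v = 0 → ∃ s, R f L p v s) (h : ∀ s, R f L p 0 s) : L = f.O := by
  have hU : f.U p ≤ L := U_le_iff.2 fun v a hv => by
    obtain ⟨s, hs⟩ := ex v hv.huv
    exact ((hs.add (h (s + a))).congr (add_zero v)
      (by simp only [map_zero]; linear_combination s * h2)).2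
  obtain ⟨p', hp', hB⟩ := exists_B_ne hf hL irr (S := {x | f.U x ≤ L})
    (fun g hg x hx => U_apply_le hx (hL hg) hg) hU hp hp
  exact le_antisymm hL (hf.alt_E_eq_O ▸ hf.E_le_of_B_ne (f.alt_q p) (f.alt_q p') hB hU hp')

namespace Pts

variable {P : Set V} (H : Pts f L P)
include H

theorem map_iff {g : V ≃ₗ[F] V} (hg : g ∈ L) (p : V) : g p ∈ P ↔ p ∈ P :=
  ⟨fun h => g.symm_apply_apply p ▸ H.map _ (L.inv_mem hg) _ h, H.map g hg p⟩

theorem smul_iff {c : F} (hc : c ≠ 0) (p : V) : c • p ∈ P ↔ p ∈ P :=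
  ⟨fun h => by simpa [smul_smul, hc] using H.smul _ (inv_ne_zero hc) _ h, H.smul c hc p⟩

theorem exists_opp {x : V} (hx : x ≠ 0) : ∃ p ∈ P, f.B x p = 1 := by
  obtain ⟨s, hs⟩ := H.nonempty
  obtain ⟨p, hp, hB⟩ := exists_B_ne H.hf H.hL H.irr H.map hs (H.ne s hs) hx
  exact ⟨(f.B x p)⁻¹ • p, H.smul _ (inv_ne_zero hB) p hp, by simp [hB]⟩

variable [FiniteDimensional F V]

theorem add_smul_iff {p u : V} (hp : p ∈ P) (hu : f.B p u = 0) (hu' : u ∉ F ∙ p) (c : F) :
    u + c • p ∈ P ↔ u ∈ P := by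
  obtain ⟨v, h1, h2⟩ := exists_perp_B H.hf hu' c
  obtain ⟨s, hs⟩ := H.ex p hp v h1
  rw [← H.map_iff hs.2 u, ei_app h1, hu, symm2 H.h2, h2]
  simp

theorem perp_iff {p p' u : V} (hp : p ∈ P) (hB : f.B p p' = 1) (hu : u ≠ 0) (h1 : f.B p u = 0)
    {s : F} (h : R f L p' u s) : u ∈ P ↔ p + s • p' ∈ P := by
  have h2 := H.h2
  rw [← H.add_smul_iff hp h1 (nmem_of_B hu (by rw [hB]; exact one_ne_zero)
    (f.B_eq_zero_symm h.1)) 1, ← H.map_iff h.2 (p + s • p'), ei_app h.1]
  simp only [map_add, map_smul, smul_eq_mul, alt_B_self, symm2 h2 p p', hB,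
    f.B_eq_zero_symm h1, f.B_eq_zero_symm h.1]
  refine iff_of_eq (congrArg (· ∈ P) ?_)
  linear_combination (norm := module) -add_self h2 (s • p')

variable [Finite F]

theorem mem_of_perp {p p' : V} (hp : p ∈ P) (hp' : p' ∈ P) (hB : f.B p p' = 1) {ν : F}
    (hν : ν ≠ 0) (h : p + ν • p' ∈ P) {x : V} (hx : x ≠ 0) (hpx : f.B p x = 0) : x ∈ P := by
  have h2 := H.h2
  have key : ∀ u, u ≠ 0 → f.B p u = 0 → f.B p' u = 0 → u ∈ P := by
    intro u hu h1 h3
    by_contra hn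
    choose ψ hψ using fun t : F => H.ex p' hp' (t • u) (by simp [h3])
    have h4 : ∀ {t s : F}, R f L p' (t • u) s → p + s • p' ∈ P → t = 0 := by
      intro t s hs hm
      by_contra ht
      exact hn ((H.smul_iff ht u).1 ((H.perp_iff hp hB (smul_ne_zero ht hu) (by simp [h1]) hs).2 hm))
    have hinj : Function.Injective ψ := fun t t' e => by
      refine eq_of_add_eq_zero h2 (h4 (s := 0) (((hψ t).add (hψ t')).congr (add_smul _ _ _).symm ?_)
        (by simpa using hp))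
      simp only [map_smul, map_smulₛₗ, LinearMap.smul_apply, alt_B_self, smul_zero, e]
      linear_combination ψ t' * h2
    have hsurj := Finite.surjective_of_injective hinj
    obtain ⟨t, ht⟩ := hsurj ν
    obtain ⟨t', ht'⟩ := hsurj 0
    have e1 := h4 (hψ t) (ht ▸ h)
    have e2 := h4 (hψ t') (by rw [ht']; simpa using hp)
    exact hν (by rw [← ht, ← ht', e1, e2])
  by_cases hm : x ∈ F ∙ p
  · obtain ⟨c, rfl⟩ := Submodule.mem_span_singleton.1 hm
    exact H.smul c (by rintro rfl; simp at hx) p hp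
  · refine (H.add_smul_iff hp hpx hm (f.B p' x)).1 (key _ (fun h0 => hm ?_) (by simp [hpx]) ?_)
    · exact Submodule.mem_span_singleton.2 ⟨-f.B p' x, by linear_combination (norm := module) -h0⟩
    · simp only [map_add, map_smul, smul_eq_mul, symm2 h2 p p', hB]
      linear_combination f.B p' x * h2

theorem mem_all (h3 : 3 ≤ finrank F V) {p p' : V} (hp : p ∈ P) (hp' : p' ∈ P) (hB : f.B p p' = 1)
    {ν : F} (hν : ν ≠ 0) (h : p + ν • p' ∈ P) {w : V} (hw : w ≠ 0) : w ∈ P := by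
  by_cases hpw : f.B p w = 0
  · exact H.mem_of_perp hp hp' hB hν h hw hpw
  obtain ⟨u, hu, h1, h4⟩ := exists_perp2 (f := f) h3 p w
  have h5 := f.B_eq_zero_symm h4
  obtain ⟨u', h6, h7⟩ := exists_perp_B H.hf (nmem_of_B hu hpw h5) 1
  have hu' : u' ≠ 0 := by rintro rfl; simp at h7
  refine H.mem_of_perp (H.mem_of_perp hp hp' hB hν h hu h1) (H.mem_of_perp hp hp' hB hν h hu' h6)
    h7 one_ne_zero (H.mem_of_perp hp hp' hB hν h (fun h0 => ?_) (by simp [h1, h6])) hw h5
  simpa [h7] using congrArg (f.B u) h0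

end Pts

section Full

variable [FiniteDimensional F V] (h2 : (2 : F) = 0) (hf : f.Nondeg) (hL : L ≤ f.O)
  (ex : ∀ p, p ≠ 0 → ∀ v, f.B p v = 0 → ∃ s, R f L p v s)
include h2 hf

theorem full_of_zero (h3 : 3 ≤ finrank F V) {p : V} (hp : p ≠ 0)
    (h : ∀ w, f.B p w = 0 → R f L p w 0) (s : F) : R f L p 0 s := by
  obtain ⟨p', hp'⟩ := hf.exists_B_eq hp 1
  obtain ⟨w, hw, h1, h4⟩ := exists_perp2 (f := f) h3 p p'
  obtain ⟨w', h5, h6⟩ := exists_perp_B hf (nmem_of_B hw (by rw [hp']; exact one_ne_zero)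
    (f.B_eq_zero_symm h4)) s
  exact (((h w h1).add (h w' h5)).diff h2 (h _ (by simp [h1, h5]))).congr rfl (by simp [h6])

include hL ex

theorem R.flip {p p' : V} (hp : p ≠ 0) (hn : p' ∉ F ∙ p) (hpp : f.B p' p = 0) {c s : F}
    (h : R f L p' (c • p) s) (β : F) : R f L p ((s * β) • p') (s * β ^ 2) := by
  obtain ⟨v, h1, h3⟩ := exists_perp_B hf hn β
  obtain ⟨t, ht⟩ := ex p hp v h1
  have := h.conj h2 hL ht hpp (by simp)
  rw [h3] at this
  refine (R_add_smul h2 (β * c)).1 (this.congr ?_ rfl)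
  simp only [map_smulₛₗ, LinearMap.smul_apply, h1, smul_zero, zero_add]
  module

theorem full_of_five (h5 : 5 ≤ finrank F V) {p : V} (hp : p ≠ 0) (s : F) : R f L p 0 s := by
  refine full_of_zero h2 hf (by omega) hp (fun w hw => ?_) s
  by_cases hm : w ∈ F ∙ p
  · obtain ⟨c, rfl⟩ := Submodule.mem_span_singleton.1 hm
    exact R.line h2 p c
  have hw0 : w ≠ 0 := by rintro rfl; exact hm (Submodule.zero_mem _)
  obtain ⟨u, hu, hu'⟩ : ∃ u ∈ f.perp (Submodule.span F {p, w}), u ∉ Submodule.span F {p, w} := by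
    by_contra! H
    have h1 := Submodule.finrank_mono (show f.perp (Submodule.span F {p, w}) ≤ _ from H)
    have h3 := hf.finrank_add_finrank_perp (Submodule.span F {p, w})
    have h4 : finrank F (Submodule.span F ({p, w} : Set V)) ≤ 2 := by
      classical
      refine (finrank_span_le_card _).trans ?_
      rw [Set.toFinset_insert, Set.toFinset_singleton]
      exact Finset.card_le_two
    omega
  obtain ⟨h1, h3⟩ := f.mem_perp_span_pair.1 hu
  obtain ⟨v, h4, h6⟩ := hf.exists_perp_eq' hu' 1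
  have h7 := h4 p (Submodule.subset_span (by simp))
  have h8 := h4 w (Submodule.subset_span (by simp))
  obtain ⟨t, ht⟩ := ex w hw0 u h3
  obtain ⟨t', ht'⟩ := ex p hp v h7
  simpa [h6, h8] using ht.conj h2 hL ht' (f.B_eq_zero_symm hw) (f.B_eq_zero_symm h1)

theorem full_of_big [Finite F] (h3 : 3 ≤ finrank F V) {b : F} (hb0 : b ≠ 0) (hb1 : b ≠ 1) {p : V}
    (hp : p ≠ 0) (s : F) : R f L p 0 s := by
  by_cases H : ∀ w, f.B p w = 0 → R f L p w 0
  · exact full_of_zero h2 hf h3 hp H s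
  push Not at H
  obtain ⟨w, h1, h4⟩ := H
  obtain ⟨t, ht⟩ := ex p hp w h1
  have ht0 : t ≠ 0 := by rintro rfl; exact h4 ht
  have hm : w ∉ F ∙ p := fun hm => by
    obtain ⟨c, rfl⟩ := Submodule.mem_span_singleton.1 hm
    exact h4 (R.line h2 p c)
  have hw0 : w ≠ 0 := by rintro rfl; exact hm (Submodule.zero_mem _)
  have k1 := R.flip h2 hf hL ex hw0 (nmem_symm hp hm) h1 (c := 1) (by rwa [one_smul])
  have k2 := fun β => R.flip h2 hf hL ex hp hm (f.B_eq_zero_symm h1) (k1 β)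
  have hb : 1 + b ≠ 0 := fun h => hb1 (eq_of_add_eq_zero h2 h).symm
  have : CharP F 2 := CharTwo.of_one_ne_zero_of_two_eq_zero one_ne_zero h2
  obtain ⟨r, hr⟩ := FiniteField.isSquare_of_char_two (ringChar.eq F 2) (s / t)
  have k3 := k2 1 (r * b / (1 + b))
  have k4 := (k2 b (r / (b * (1 + b)))).congr (v' := (t * 1 ^ 2 * (r * b / (1 + b))) • w)
    (by congr 1; field_simp) rfl
  refine (k3.diff h2 k4).congr rfl ?_
  have hs : s = t * (r * r) := by rw [← hr]; field_simp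
  rw [hs]
  field_simp
  linear_combination (-b * r ^ 2) * h2

end Full

end CL.SpTwo
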