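/-
Irreducible subgroups of symplectic groups in characteristic two containing a complement to the
transvections in the unipotent radical of a point stabiliser: the orthogonal case.
-/
import Mathlib
import Cfsg.Agent.CLAS.SpTwo1

set_option autoImplicit false

namespace CL.SpTwo

open Module CL.Witt CL.Witt.Form

attribute [-simp] LinearEquiv.coe_inv
attribute [local simp] FormType.alt_σ FormType.alt_ε FormType.alt_π alt_B_self FormType.quad_σ
  FormType.quad_ε FormType.quad_π

variable {F V : Type*} [Field F] [AddCommGroup V] [Module F V] {f : Form (FormType.alt F) V}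
  {L : Subgroup (V ≃ₗ[F] V)}

variable (f) in
/-- The projection onto the orthogonal complement of a hyperbolic pair. -/
def pr (a a' x : V) : V := x + f.B x a' • a + f.B a x • a'

theorem pr_left (h2 : (2 : F) = 0) {a a' : V} (hB : f.B a a' = 1) (x : V) :
    f.B a (pr f a a' x) = 0 := by
  simp only [pr, map_add, map_smul, smul_eq_mul, alt_B_self, hB]
  linear_combination f.B a x * h2

theorem pr_right (h2 : (2 : F) = 0) {a a' : V} (hB : f.B a a' = 1) (x : V) :
    f.B a' (pr f a a' x) = 0 := by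
  simp only [pr, map_add, map_smul, smul_eq_mul, alt_B_self, hB, symm2 h2 a a', symm2 h2 x a']
  linear_combination f.B x a' * h2

theorem pr_add (a a' x y : V) : pr f a a' (x + y) = pr f a a' x + pr f a a' y := by
  simp only [pr, map_add, LinearMap.add_apply]
  module

theorem pr_smul (a a' : V) (c : F) (x : V) : pr f a a' (c • x) = c • pr f a a' x := by
  simp only [pr, map_smul, map_smulₛₗ, LinearMap.smul_apply, smul_eq_mul, FormType.alt_σ]
  module

theorem eq_pr (h2 : (2 : F) = 0) (a a' x : V) :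
    x = pr f a a' x + f.B x a' • a + f.B a x • a' := by
  rw [pr]
  linear_combination (norm := module) -add_self h2 (f.B x a' • a + f.B a x • a')

theorem B_pr (h2 : (2 : F) = 0) {a a' : V} (hB : f.B a a' = 1) (x y : V) :
    f.B (pr f a a' x) (pr f a a' y) = f.B x y + f.B x a' * f.B a y + f.B y a' * f.B a x := by
  conv_lhs => rw [pr]
  simp only [map_add, map_smulₛₗ, LinearMap.add_apply, LinearMap.smul_apply, pr_left h2 hB,
    pr_right h2 hB, smul_zero, add_zero]
  simp only [pr, map_add, map_smul, smul_eq_mul, symm2 h2 a x]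
  ring

variable (f L) in
/-- Each hyperbolic line through two points of `P` contains no further point of `P`. -/
structure Thin (P : Set V) : Prop extends Pts f L P where
  thin : ∀ p ∈ P, ∀ p' ∈ P, f.B p p' = 1 → ∀ ν : F, p + ν • p' ∈ P → ν = 0

namespace Thin

variable {P : Set V} (H : Thin f L P)
include H

theorem uniq {p v : V} (hp : p ∈ P) {s s' : F} (h : R f L p v s) (h' : R f L p v s') : s = s' := by
  obtain ⟨p', hp', hB⟩ := H.exists_opp (H.ne p hp)
  have h1 := H.map _ (h.diff H.h2 h').2 p' hp'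
  rw [ei_app (by simp), hB] at h1
  exact eq_of_add_eq_zero H.h2 (H.thin p' hp' p hp (by rw [symm2 H.h2, hB]) _ (by simpa using h1))

theorem mem_iff {a a' v : V} (ha : a ∈ P) (ha' : a' ∈ P) (hB : f.B a a' = 1) (hv : f.B a' v = 0)
    {φ : F} (h : R f L a v φ) (s : F) : a' + v + s • a ∈ P ↔ s = φ := by
  have h2 := H.h2
  have e : f.ei a v φ (a' + v + s • a) = a' + (φ + s) • a := by
    rw [ei_app h.1]
    simp only [map_add, map_smul, smul_eq_mul, alt_B_self, hB, h.1, f.B_eq_zero_symm h.1,
      f.B_eq_zero_symm hv]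
    linear_combination (norm := module) add_self h2 v
  rw [← H.map_iff h.2, e]
  refine ⟨fun hm => (eq_of_add_eq_zero h2 (H.thin a' ha' a ha (by rw [symm2 h2, hB]) _ hm)).symm, ?_⟩
  rintro rfl
  rwa [add_smul, add_self h2, add_zero]

theorem swap {a a' v : V} (ha : a ∈ P) (ha' : a' ∈ P) (hB : f.B a a' = 1) (hv : f.B a' v = 0)
    {s : F} (hs : s ≠ 0) (h : R f L a v s) : R f L a' (s⁻¹ • v) s⁻¹ := by
  obtain ⟨ψ, hψ⟩ := H.ex a' ha' (s⁻¹ • v) (by simp [hv])
  have h1 := H.smul _ (inv_ne_zero hs) _ ((H.mem_iff ha ha' hB hv h s).2 rfl)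
  rw [show s⁻¹ • (a' + v + s • a) = a + s⁻¹ • v + s⁻¹ • a' by
    match_scalars <;> field_simp] at h1
  exact hψ.congr rfl ((H.mem_iff ha' ha (by rw [symm2 H.h2, hB]) (by simp [h.1]) hψ _).1 h1).symm

theorem transfer {a a' v : V} (ha : a ∈ P) (ha' : a' ∈ P) (hB : f.B a a' = 1) (hv : f.B a' v = 0)
    {s : F} (hs : s ≠ 0) (h : R f L a v s) {t ψ : F} (h' : R f L a' (t • v) ψ) :
    R f L a ((s * t) • v) (s * s * ψ) := by
  have h2 := H.h2
  have h1 := H.swap ha ha' hB hv hs h
  have h3 := (h'.map H.hL h.2).map H.hL h1.2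
  rw [ei_app h.1, ei_app h.1, ei_app h1.1, ei_app h1.1] at h3
  simp only [map_add, map_smul, map_smulₛₗ, LinearMap.smul_apply, smul_eq_mul, alt_B_self, hB, h.1,
    f.B_eq_zero_symm h.1, f.B_eq_zero_symm hv, hv, symm2 h2 a a', FormType.alt_σ, mul_zero,
    zero_smul, add_zero, zero_add, mul_one, one_smul, inv_mul_cancel₀ hs, smul_smul,
    mul_inv_cancel₀ hs, zero_mul] at h3
  rw [show a' + v + s • a + v + a' = s • a by
    linear_combination (norm := module) add_self h2 (a' + v), R_smul hs, smul_smul] at h3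
  exact h3

variable [FiniteDimensional F V]

theorem perp {a a' u : V} (ha : a ∈ P) (ha' : a' ∈ P) (hB : f.B a a' = 1) (hu : u ≠ 0)
    (h1 : f.B a u = 0) {s : F} (h : R f L a' u s) : u ∈ P ↔ s = 0 := by
  rw [H.perp_iff ha hB hu h1 h]
  exact ⟨H.thin a ha a' ha' hB s, by rintro rfl; simpa using ha⟩

theorem quad [Finite F] {a a' v : V} (ha : a ∈ P) (ha' : a' ∈ P) (hB : f.B a a' = 1)
    (hv : f.B a' v = 0) {s : F} (h : R f L a v s) :
    (∀ t, R f L a (t • v) (t * t * s)) ∧ R f L a' v s := by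
  have h2 := H.h2
  have hB' : f.B a' a = 1 := by rw [symm2 h2, hB]
  obtain ⟨ψ, hψ⟩ := H.ex a' ha' v hv
  choose φ hφ using fun t : F => H.ex a ha (t • v) (by simp [h.1])
  have hφ0 : φ 0 = 0 := H.uniq ha (hφ 0) ((R.zero a).congr (by simp) rfl)
  by_cases hv0 : v = 0
  · subst hv0
    obtain rfl : s = 0 := H.uniq ha h (R.zero a)
    exact ⟨fun t => (R.zero a).congr (by simp) (by simp), R.zero a'⟩
  have h4 : ∀ {t : F}, t ≠ 0 → ∀ {r : F}, R f L a (t • v) r → (r = 0 ↔ s = 0) := by
    intro t ht r hr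
    rw [← H.perp ha' ha hB' (smul_ne_zero ht hv0) (by simp [hv]) hr, H.smul_iff ht,
      H.perp ha' ha hB' hv0 hv h]
  by_cases hs : s = 0
  · refine ⟨fun t => ?_, hψ.congr rfl ?_⟩
    · by_cases ht : t = 0
      · exact (R.zero a).congr (by simp [ht]) (by simp [ht])
      · exact (hφ t).congr rfl (by rw [(h4 ht (hφ t)).2 hs, hs, mul_zero])
    · rw [(H.perp ha ha' hB hv0 h.1 hψ).1 ((H.perp ha' ha hB' hv0 hv h).2 hs), hs]
  have hinj : Function.Injective φ := fun t t' e => by
    refine eq_of_add_eq_zero h2 (by_contra fun hne => hs ((h4 hne (r := 0)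
      (((hφ t).add (hφ t')).congr (add_smul _ _ _).symm ?_)).1 rfl))
    simp only [map_smul, map_smulₛₗ, LinearMap.smul_apply, alt_B_self, smul_zero, e]
    linear_combination φ t' * h2
  have key : ∀ t, R f L a (t • v) (t * t * s) := fun t => by
    by_cases ht : t = 0
    · exact (R.zero a).congr (by simp [ht]) (by simp [ht])
    obtain ⟨r, hr⟩ := Finite.surjective_of_injective hinj (t * s)
    have hr0 : r ≠ 0 := by
      rintro rfl
      exact mul_ne_zero ht hs (hr.symm.trans hφ0)
    refine (H.transfer ha ha' hB (by simp [hv]) (mul_ne_zero ht hs) ((hφ r).congr rfl hr)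
      (t := s⁻¹ * r⁻¹) (ψ := s⁻¹) ((H.swap ha ha' hB hv hs h).congr ?_ rfl)).congr ?_ ?_
    · match_scalars; field_simp
    · match_scalars; field_simp
    · field_simp
  refine ⟨key, hψ.congr rfl (mul_left_cancel₀ (mul_ne_zero hs hs) ?_)⟩
  exact H.uniq ha (H.transfer ha ha' hB hv hs h (t := 1) (hψ.congr (one_smul _ _).symm rfl))
    ((key s).congr (by rw [mul_one]) rfl)

/-- In the thin case `L` lies between `Ω(Q)` and `O(Q)` for a quadratic form `Q`. -/
theorem exists_quad [Finite F] : ∃ Q : Form (FormType.quad F) V, (∀ x y, Q.B x y = f.B x y) ∧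
    Q.E ≤ L ∧ L ≤ Q.O ∧ ∃ x y, Q.q x = 0 ∧ Q.q y = 0 ∧ Q.B x y = 1 := by
  have h2 := H.h2
  obtain ⟨a, ha⟩ := H.nonempty
  obtain ⟨a', ha', hB⟩ := H.exists_opp (H.ne a ha)
  have hB' : f.B a' a = 1 := by rw [symm2 h2, hB]
  choose φ hφ using fun x => H.ex a ha _ (pr_left h2 hB x)
  let Q : Form (FormType.quad F) V :=
    { B := f.B
      q := fun x => f.B x a' * f.B a x + φ x
      symm := fun x y => by
        change f.B y x = 1 * f.B x y
        rw [one_mul, symm2 h2]
      q_add := fun x y => by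
        change _ = _ + _ + f.B x y
        rw [H.uniq ha (hφ (x + y)) (((hφ x).add (hφ y)).congr (pr_add _ _ _ _).symm rfl), B_pr h2 hB]
        simp only [map_add, LinearMap.add_apply]
        linear_combination (f.B x a' * f.B a y + f.B y a' * f.B a x) * h2
      q_smul := fun c x => by
        change _ = c * c * _
        rw [H.uniq ha (hφ (c • x)) (((H.quad ha ha' hB (pr_right h2 hB x) (hφ x)).1 c).congr
          (pr_smul _ _ _ _).symm rfl)]
        simp only [map_smul, map_smulₛₗ, LinearMap.smul_apply, smul_eq_mul, FormType.alt_σ]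
        ring
      lift := fun x => ⟨f.B x a' * f.B a x + φ x, rfl, by
        change f.B x x = _ + 1 * (f.B x a' * f.B a x + φ x)
        rw [alt_B_self]
        linear_combination (-(f.B x a' * f.B a x + φ x)) * h2⟩ }
  have hQB : ∀ x y, Q.B x y = f.B x y := fun _ _ => rfl
  have hQq : ∀ x, Q.q x = f.B x a' * f.B a x + φ x := fun _ => rfl
  have hQ : Q.Nondeg := H.hf
  have hei : ∀ {p v : V} {s : F}, Q.EichOK p v s → Q.ei p v s = f.ei p v s := fun {p v s} h => by
    ext x
    rw [h.ei_apply, ei_app h.huv]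
    simp only [hQB, FormType.quad_ε]
    linear_combination (norm := module) -add_self h2 ((f.B v x + s * f.B p x) • p)
  have hqa : Q.q a = 0 := by
    rw [hQq, H.uniq ha (hφ a) ((R.zero a).congr (by simp [pr, hB, add_self h2]) rfl)]
    simp
  have hqa' : Q.q a' = 0 := by
    rw [hQq, H.uniq ha (hφ a') ((R.zero a).congr (by simp [pr, hB, add_self h2]) rfl)]
    simp
  have hUa : Q.U a ≤ L := U_le_iff.2 fun v s hv => by
    have h1 : f.B a v = 0 := hv.huv
    have h3 : s = φ v := by simpa [hQq, h1] using hv.ha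
    rw [hei hv, h3]
    exact ((R_add_smul h2 (f.B v a')).1 ((hφ v).congr (by simp [pr, h1]) rfl)).2
  have hUa' : Q.U a' ≤ L := U_le_iff.2 fun v s hv => by
    have h1 : f.B v a' = 0 := f.B_eq_zero_symm hv.huv
    have h3 : s = φ v := by simpa [hQq, h1] using hv.ha
    rw [hei hv, h3]
    exact ((R_add_smul h2 (f.B a v)).1 ((H.quad ha ha' hB (pr_right h2 hB v) (hφ v)).2.congr
      (by simp [pr, h1]) rfl)).2
  have hP : ∀ w, w ≠ 0 → (w ∈ P ↔ Q.q w = 0) := by
    have h1 : ∀ w, f.B a w = 1 → (w ∈ P ↔ Q.q w = 0) := fun w hw => by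
      have e : w = a' + pr f a a' w + f.B w a' • a := by
        linear_combination (norm := module) eq_pr (f := f) h2 a a' w + hw • a'
      conv_lhs => rw [e]
      rw [H.mem_iff ha ha' hB (pr_right h2 hB w) (hφ w), hQq, hw, mul_one]
      exact ⟨fun h => by linear_combination h + φ w * h2, eq_of_add_eq_zero h2⟩
    intro w hw
    by_cases hb : f.B a w = 0
    · have e : w = pr f a a' w + f.B w a' • a := by
        linear_combination (norm := module) eq_pr (f := f) h2 a a' w + hb • a'
      rw [hQq, hb, mul_zero, zero_add]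
      by_cases h0 : pr f a a' w = 0
      · rw [H.uniq ha (hφ w) ((R.zero a).congr h0.symm rfl)]
        rw [h0, zero_add] at e
        refine iff_of_true (e ▸ H.smul _ (fun h => hw ?_) a ha) rfl
        rw [e, h, zero_smul]
      · conv_lhs => rw [e]
        rw [H.add_smul_iff ha (pr_left h2 hB w) (nmem_of_B h0 (by rw [hB]; exact one_ne_zero)
          (f.B_eq_zero_symm (pr_right h2 hB w))), H.perp ha' ha hB' h0 (pr_right h2 hB w) (hφ w)]
    · rw [← H.smul_iff (inv_ne_zero hb), h1 _ (by simp [hb]), Q.quad_q_smul]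
      simp [hb]
  refine ⟨Q, hQB, hQ.E_le_of_B_ne hqa hqa' (by rw [hQB, hB]; exact one_ne_zero) hUa hUa',
    fun g hg => (quad_isIsom_iff Q Q (g : V →ₗ[F] V)).2 fun x => ?_, a, a', hqa, hqa', hB⟩
  let W : Submodule F V :=
    { carrier := {x | Q.q (g x) = Q.q x}
      add_mem' := fun {x y} hx hy => by
        change Q.q (g (x + y)) = _
        rw [map_add, Q.quad_q_add, Q.quad_q_add, hx, hy, hQB, hQB, mem_O_B (H.hL hg)]
      zero_mem' := by change Q.q (g 0) = _; rw [map_zero]
      smul_mem' := fun c x hx => by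
        change Q.q (g (c • x)) = _
        rw [map_smul, Q.quad_q_smul, Q.quad_q_smul, hx] }
  refine le_of_singular (Z := ⊤) (W := W) hqa hqa' (by rw [hQB, hB]; exact one_ne_zero) trivial
    trivial (fun v _ hv => ?_) (Submodule.mem_top (x := x))
  by_cases hv0 : v = 0
  · exact hv0 ▸ W.zero_mem
  · exact ((hP _ (by simpa using hv0)).1 (H.map g hg v ((hP v hv0).2 hv))).trans hv.symm

end Thin

end CL.SpTwo
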