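/-
Irreducible subgroups of symplectic groups in characteristic two containing a complement to the
transvections in the unipotent radical of a point stabiliser: the Dickson invariant, the
`2`-core of a vector stabiliser and the main theorem.
-/
import Mathlib
import Cfsg.Agent.CLAS.SpTwo2
import Cfsg.Agent.CLAS.NonMax
import Cfsg.Agent.KSG.OrthOmega

set_option autoImplicit false
set_option maxHeartbeats 400000

namespace CL.SpTwo

open Module CL.Witt CL.Witt.Form

attribute [-simp] LinearEquiv.coe_inv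
attribute [local simp] FormType.alt_σ FormType.alt_ε FormType.alt_π alt_B_self FormType.quad_σ
  FormType.quad_ε FormType.quad_π

variable {F V : Type*} [Field F] [AddCommGroup V] [Module F V] [FiniteDimensional F V]

theorem dsign_mul' {Q : QuadraticForm F V} (hQ : (QuadraticMap.polarBilin Q).Nondegenerate)
    (g h : Orth.O Q) : Orth.dsign (g * h) = Orth.dsign g * Orth.dsign h := by
  by_cases h4 : finrank F V = 4
  · have e : ∀ k : Orth.O Q, Orth.dsign (Orth.prodO Q Q (k, 1)) = Orth.dsign k := fun k => by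
      rw [Orth.dsign_prodO, Orth.dsign_one, mul_one]
    rw [← e, ← e g, ← e h, ← Orth.dsign_mul (Orth.prod_nondeg hQ hQ) (Or.inr (by
      rw [finrank_prod]; omega)), ← map_mul, Prod.mk_mul_mk, mul_one]
  · exact Orth.dsign_mul hQ (Or.inr h4) g h

/-- The rank of `g - 1`. -/
noncomputable def rk (g : V ≃ₗ[F] V) : ℕ :=
  finrank F (LinearMap.range ((g : V →ₗ[F] V) - LinearMap.id))

section Quad

variable {Q : Form (FormType.quad F) V}

theorem even_rk_mul (hQ : Q.Nondeg) {g h : V ≃ₗ[F] V} (hg : g ∈ Q.O) (hh : h ∈ Q.O) :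
    Even (rk (g * h)) ↔ (Even (rk g) ↔ Even (rk h)) := by
  rw [O_eq_orth] at hg hh
  have e0 : ∀ k : Orth.O Q.toQuad, Orth.dsign k = 1 ↔ Even (rk k.1) := fun k => by
    rw [Orth.dsign_eq_one_iff, Orth.moved, Orth.mv, rk]
  have e1 : ∀ a b : ℤˣ, a * b = 1 ↔ (a = 1 ↔ b = 1) := fun a b => by
    rcases Int.units_eq_one_or a with rfl | rfl <;> rcases Int.units_eq_one_or b with rfl | rfl <;>
      simp
  have e2 := e0 (⟨g, hg⟩ * ⟨h, hh⟩)
  rw [dsign_mul' (FGL.toQuad_nondeg hQ), e1, e0, e0, Subgroup.coe_mul] at e2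
  exact e2.symm

omit [FiniteDimensional F V] in
theorem rk_one : rk (1 : V ≃ₗ[F] V) = 0 := by
  rw [rk, show ((1 : V ≃ₗ[F] V) : V →ₗ[F] V) - LinearMap.id = 0 from sub_self _,
    LinearMap.range_zero, finrank_bot]

theorem even_rk_ei (hQ : Q.Nondeg) {u v : V} {a : F} (h : Q.EichOK u v a) :
    Even (rk (Q.ei u v a)) := by
  by_cases hli : LinearIndependent F ![u, v]
  · have : LinearMap.range ((Q.ei u v a : V →ₗ[F] V) - LinearMap.id) =
        Submodule.span F (Set.range ![u, v]) := by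
      refine le_antisymm ?_ (Submodule.span_le.2 ?_)
      · rintro _ ⟨x, rfl⟩
        rw [Matrix.range_cons_cons_empty, Submodule.mem_span_pair]
        refine ⟨-(Q.B v x + a * Q.B u x), Q.B u x, ?_⟩
        simp only [LinearMap.sub_apply, LinearEquiv.coe_coe, h.ei_apply, LinearMap.id_apply,
          FormType.quad_ε]
        module
      · rintro _ ⟨i, rfl⟩
        fin_cases i
        · obtain ⟨t, ht⟩ := hQ.exists_B_eq_family' hli ![0, -1]
          have h0 : Q.B u t = 0 := ht 0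
          have h1 : Q.B v t = -1 := ht 1
          exact ⟨t, by simp [h.ei_apply, h0, h1]⟩
        · obtain ⟨t, ht⟩ := hQ.exists_B_eq_family' hli ![1, -a]
          have h0 : Q.B u t = 1 := ht 0
          have h1 : Q.B v t = -a := ht 1
          exact ⟨t, by simp [h.ei_apply, h0, h1]⟩
    rw [rk, this, finrank_span_eq_card hli]
    simp
  · have : Q.ei u v a = 1 := by
      by_cases hu : u = 0
      · ext x
        rw [h.ei_apply]
        simp [hu]
      · rw [LinearIndependent.pair_iff' hu] at hli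
        push Not at hli
        obtain ⟨c, rfl⟩ := hli
        have ha : a = 0 := by simpa [Q.quad_q_smul, h.hu] using h.ha
        ext x
        rw [h.ei_apply]
        simp [ha, smul_smul, mul_comm]
    rw [this, rk_one]
    exact Even.zero

theorem even_rk_of_mem_E (hQ : Q.Nondeg) {g : V ≃ₗ[F] V} (hg : g ∈ Q.E) : Even (rk g) := by
  let D : Subgroup (V ≃ₗ[F] V) :=
    { carrier := {g | g ∈ Q.O ∧ Even (rk g)}
      mul_mem' := fun {a b} ha hb =>
        ⟨Q.O.mul_mem ha.1 hb.1, (even_rk_mul hQ ha.1 hb.1).2 (iff_of_true ha.2 hb.2)⟩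
      one_mem' := ⟨Q.O.one_mem, rk_one (F := F) (V := V) ▸ Even.zero⟩
      inv_mem' := fun {a} ha => ⟨Q.O.inv_mem ha.1, ((even_rk_mul hQ ha.1 (Q.O.inv_mem ha.1)).1
        (by rw [mul_inv_cancel, rk_one]; exact Even.zero)).1 ha.2⟩ }
  exact ((E_le_iff' (M := D)).2 (fun u v a h => ⟨ei_mem_O u v a, even_rk_ei hQ h⟩) hg).2

omit [FiniteDimensional F V] in
theorem exists_weyl (h2 : (2 : F) = 0) {x y v : V} (hx : Q.q x = 0) (hy : Q.q y = 0)
    (hxy : Q.B x y = 1) (hxv : Q.B x v = 0) (hyv : Q.B y v = 0) (hv : Q.q v ≠ 0) :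
    ∃ w ∈ Q.E, w x = (Q.q v)⁻¹ • y ∧ w y = Q.q v • x ∧
      ∀ u, Q.B x u = 0 → Q.B y u = 0 → w u = u + ((Q.q v)⁻¹ * Q.B v u) • v := by
  obtain ⟨s, hs⟩ : ∃ s, s = Q.q v := ⟨_, rfl⟩
  rw [← hs] at hv ⊢
  have h1 : Q.EichOK x v s := ⟨hx, hxv, hs⟩
  have h3 : Q.EichOK y (s⁻¹ • v) s⁻¹ := ⟨hy, by simp [hyv], by
    rw [Q.quad_q_smul, FormType.quad_π, ← hs]; field_simp⟩
  have hvv : Q.B v v = 0 := by rw [quad_B_self, h2, zero_mul]
  have hyx : Q.B y x = 1 := by rw [quad_symm, hxy]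
  have hvx := h1.hvu
  have hvy : Q.B v y = 0 := Q.B_eq_zero_symm hyv
  have hxx := h1.huu
  have hyy := h3.huu
  refine ⟨Q.ei x v s * Q.ei y (s⁻¹ • v) s⁻¹ * Q.ei x v s,
    Q.E.mul_mem (Q.E.mul_mem (ei_mem_E _ _ _) (ei_mem_E _ _ _)) (ei_mem_E _ _ _), ?_, ?_,
    fun u hxu hyu => ?_⟩
  all_goals
    simp only [LinearEquiv.mul_apply, h1.ei_apply, h3.ei_apply, map_add, map_sub, map_smul,
      map_smulₛₗ, LinearMap.smul_apply, smul_eq_mul, FormType.quad_σ, FormType.quad_ε, hvv, hyx,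
      hvx, hvy, hxx, hyy, hxy, hxv, hyv]
    match_scalars <;> field_simp <;> grind

theorem diag_mem_E [Finite F] (h2 : (2 : F) = 0) (hQ : Q.Nondeg) (h3 : 3 ≤ finrank F V) {x y : V}
    (hx : Q.q x = 0) (hy : Q.q y = 0) (hxy : Q.B x y = 1) {h : V ≃ₗ[F] V} {c : F} (hc : c ≠ 0)
    (h1 : h x = c • x) (h4 : h y = c⁻¹ • y) (h5 : ∀ u, Q.B x u = 0 → Q.B y u = 0 → h u = u) :
    h ∈ Q.E := by
  obtain ⟨v, s, hxv, hyv, hs, hs0⟩ := hQ.exists_ne_zero_hyp (Or.inr (by omega)) hx hy
    (by rw [hxy]; exact one_ne_zero)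
  obtain rfl : s = Q.q v := hs
  obtain ⟨t, rfl⟩ := Orth.isSquare_of_two_eq_zero h2 c
  have ht : t ≠ 0 := left_ne_zero_of_mul hc
  have hvv : Q.B v v = 0 := by rw [quad_B_self, h2, zero_mul]
  obtain ⟨w, hw, a1, a2, a3⟩ := exists_weyl h2 hx hy hxy hxv hyv hs0
  obtain ⟨w', hw', b1, b2, b3⟩ := exists_weyl h2 hx hy hxy (v := t • v) (by simp [hxv])
    (by simp [hyv]) (by rw [quad_q_smul]; exact mul_ne_zero (pow_ne_zero _ ht) hs0)
  rw [quad_q_smul] at b1 b2 b3
  have : h = w' * w := LinearEquiv.toLinearMap_injective (ext_hyp hx hy hxy ?_ ?_ fun u hu hu' => ?_)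
  · exact this ▸ Q.E.mul_mem hw' hw
  · simp only [LinearEquiv.coe_coe, LinearEquiv.mul_apply, h1, a1, map_smul, b2]
    match_scalars; field_simp
  · simp only [LinearEquiv.coe_coe, LinearEquiv.mul_apply, h4, a2, map_smul, b1]
    match_scalars; field_simp
  · simp only [LinearEquiv.coe_coe, LinearEquiv.mul_apply, h5 u hu hu', a3 u hu hu']
    rw [b3 _ (by simp [hu, hxv]) (by simp [hu', hyv])]
    simp only [map_add, map_smul, map_smulₛₗ, LinearMap.smul_apply, smul_eq_mul, hvv,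
      FormType.quad_σ]
    match_scalars <;> (field_simp; try grind)

theorem mem_E_of_even [Finite F] (h2 : (2 : F) = 0) (hQ : Q.Nondeg) (h3 : 3 ≤ finrank F V)
    {x y : V} (hx : Q.q x = 0) (hy : Q.q y = 0) (hxy : Q.B x y = 1) {g : V ≃ₗ[F] V} (hg : g ∈ Q.O)
    (hev : Even (rk g)) : g ∈ Q.E := by
  obtain ⟨e, he, h, hh, rfl⟩ := hQ.exists_eq_E_mul_fix hx hy hxy hg
  refine Q.E.mul_mem he ?_
  have hh' : Even (rk h) := ((even_rk_mul hQ (E_le_O he) hh.1).1 hev).1 (even_rk_of_mem_E hQ he)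
  have hyx : Q.B y x = 1 := by rw [quad_symm, hxy]
  have hxx := Q.B_self_eq_zero hx
  have hyy := Q.B_self_eq_zero hy
  have h5 : ∀ u, Q.B x u = 0 → Q.B y u = 0 → h u = u := fun u hu hu' =>
    hh.2 u (Q.mem_perp_span_pair.2 ⟨hu, hu'⟩)
  have h6 : ∀ z ∈ Submodule.span F {x, y}, ∃ α β : F, α • x + β • y = h z := fun z hz =>
    Submodule.mem_span_pair.1 (hQ.perp_perp (Submodule.span F {x, y}) ▸
      mem_perp_of_mem_fix hh (Q.le_perp_perp _ hz))
  obtain ⟨α, β, h7⟩ := h6 x (Submodule.subset_span (by simp))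
  obtain ⟨γ, δ, h8⟩ := h6 y (Submodule.subset_span (by simp))
  have e1 : α * β = 0 := by
    have := mem_O_q hh.1 x
    rw [← h7, quad_q_add, quad_q_smul, quad_q_smul, hx, hy] at this
    simpa [hxy, mul_comm] using this
  have e2 : γ * δ = 0 := by
    have := mem_O_q hh.1 y
    rw [← h8, quad_q_add, quad_q_smul, quad_q_smul, hx, hy] at this
    simpa [hxy, mul_comm] using this
  have e3 : α * δ + β * γ = 1 := by
    have := mem_O_B hh.1 x y
    rw [← h7, ← h8, hxy] at this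
    simp only [map_add, map_smul, map_smulₛₗ, LinearMap.add_apply, LinearMap.smul_apply,
      smul_eq_mul, FormType.quad_σ, hxx, hyy, hxy, hyx] at this
    linear_combination this
  by_cases hβ : β = 0
  · subst hβ
    have hα : α ≠ 0 := by rintro rfl; simp at e3
    have hδ : δ = α⁻¹ := eq_inv_of_mul_eq_one_right (by linear_combination e3)
    have hγ : γ = 0 := by simpa [hδ, hα] using e2
    exact diag_mem_E h2 hQ h3 hx hy hxy hα (by simp [← h7]) (by simp [← h8, hγ, hδ]) h5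
  · exfalso
    obtain rfl : α = 0 := by simpa [hβ] using e1
    have hγ : γ = β⁻¹ := eq_inv_of_mul_eq_one_right (by linear_combination e3)
    have hδ : δ = 0 := by simpa [hγ, hβ] using e2
    have hc : (FormType.quad F).π ((FormType.quad F).σ 1) + (FormType.quad F).σ 1 * 1 * Q.q (x + y) =
        0 := by
      rw [quad_q_add, hx, hy, hxy]
      simp only [FormType.quad_σ, FormType.quad_π]
      linear_combination h2
    have hr := Q.rk1Equiv_mem_O (x + y) 1 hc
    have hv : ∀ v : V, v + v = 0 := fun v => by rw [← two_smul F, h2, zero_smul]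
    have k1 : Q.rk1Equiv (x + y) 1 hc * h ∈ Q.E := by
      refine diag_mem_E h2 hQ h3 hx hy hxy hβ ?_ ?_ fun u hu hu' => ?_
      · simp only [LinearEquiv.mul_apply, rk1Equiv_apply, ← h7, zero_smul, zero_add, map_add,
          map_smul, LinearMap.add_apply, hxy, hyy]
        linear_combination (norm := module) hv (β • y)
      · simp only [LinearEquiv.mul_apply, rk1Equiv_apply, ← h8, hγ, hδ, zero_smul, add_zero,
          map_add, map_smul, LinearMap.add_apply, hyx, hxx]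
        linear_combination (norm := module) hv (β⁻¹ • x)
      · simp [rk1Equiv_apply, h5 u hu hu', hu, hu']
    have k2 : rk (Q.rk1Equiv (x + y) 1 hc) = 1 := by
      have h0 : x + y ≠ 0 := fun h0 => by simpa [hxx, hxy] using congrArg (Q.B x) h0
      suffices e : LinearMap.range ((Q.rk1Equiv (x + y) 1 hc : V →ₗ[F] V) - LinearMap.id) =
        F ∙ (x + y) by rw [rk, e, finrank_span_singleton h0]
      refine le_antisymm ?_ ((Submodule.span_singleton_le_iff_mem _ _).2 ⟨x, ?_⟩)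
      · rintro _ ⟨v, rfl⟩
        exact Submodule.mem_span_singleton.2 ⟨1 * Q.B (x + y) v, by simp [rk1Equiv_apply]⟩
      · simp [rk1Equiv_apply, hxx, hyx]
    have k3 := ((even_rk_mul hQ hr hh.1).1 (even_rk_of_mem_E hQ k1)).2 hh'
    rw [k2] at k3
    exact Nat.not_even_one k3

theorem eq_O_or_even [Finite F] (h2 : (2 : F) = 0) (hQ : Q.Nondeg) (h3 : 3 ≤ finrank F V)
    {x y : V} (hx : Q.q x = 0) (hy : Q.q y = 0) (hxy : Q.B x y = 1) {L : Subgroup (V ≃ₗ[F] V)}
    (hE : Q.E ≤ L) (hL : L ≤ Q.O) : L = Q.O ∨ ∀ g, g ∈ L ↔ g ∈ Q.O ∧ Even (rk g) := by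
  by_cases H : ∀ g ∈ L, Even (rk g)
  · exact Or.inr fun g => ⟨fun hg => ⟨hL hg, H g hg⟩,
      fun hg => hE (mem_E_of_even h2 hQ h3 hx hy hxy hg.1 hg.2)⟩
  push Not at H
  obtain ⟨k, hk, hk'⟩ := H
  refine Or.inl (le_antisymm hL fun g hg => ?_)
  by_cases hg' : Even (rk g)
  · exact hE (mem_E_of_even h2 hQ h3 hx hy hxy hg hg')
  · exact (L.mul_mem_cancel_left hk).1 (hE (mem_E_of_even h2 hQ h3 hx hy hxy (Q.O.mul_mem (hL hk) hg)
      ((even_rk_mul hQ (hL hk) hg).2 (iff_of_false hk' hg'))))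

end Quad

section Core

variable [Finite F] {f : Form (FormType.alt F) V}

/-- A normal `2`-subgroup of the stabiliser of a vector lies in the unipotent radical. -/
theorem le_U_of_normal (h2 : (2 : F) = 0) (hf : f.Nondeg) (h3 : 3 ≤ finrank F V) {a : V}
    (ha : a ≠ 0) {N : Subgroup (V ≃ₗ[F] V)} (hN : IsPGroup 2 N) (hO : N ≤ f.O)
    (hNa : ∀ n ∈ N, n a = a) (hn : ∀ g ∈ f.O, g a = a → ∀ n ∈ N, g * n * g⁻¹ ∈ N) : N ≤ f.U a := by
  obtain ⟨a', hB⟩ := hf.exists_B_eq ha 1
  have hB' : f.B a' a = 1 := by rw [symm2 h2, hB]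
  have := Module.finite_of_finite F (M := V)
  let W := f.perp (Submodule.span F {a, a'})
  have hW : ∀ x, pr f a a' x ∈ W := fun x =>
    f.mem_perp_span_pair.2 ⟨pr_left h2 hB x, pr_right h2 hB x⟩
  have hWa : ∀ w : W, f.B a w = 0 := fun w => (f.mem_perp_span_pair.1 w.2).1
  have hWa' : ∀ w : W, f.B w a' = 0 := fun w => f.B_eq_zero_symm (f.mem_perp_span_pair.1 w.2).2
  have hna : ∀ n ∈ N, ∀ x, f.B a (n x) = f.B a x := fun n hn x => by
    conv_lhs => rw [← hNa n hn, mem_O_B (hO hn)]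
  have hpa : pr f a a' a = 0 := by simp [pr, hB, add_self h2]
  let _ : MulAction N W :=
    { smul := fun n w => ⟨pr f a a' (n.1 w), hW _⟩
      one_smul := fun w => Subtype.ext (by
        change pr f a a' w = w
        simp [pr, hWa, hWa'])
      mul_smul := fun n m w => Subtype.ext (by
        change pr f a a' (n.1 (m.1 w)) = pr f a a' (n.1 (pr f a a' (m.1 w)))
        conv_rhs => rw [pr, pr, hna _ m.2, hWa, zero_smul, add_zero, ← pr, map_add, map_smul,
          hNa _ n.2, pr_add, pr_smul, hpa, smul_zero, add_zero]) }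
  have hs : ∀ (n : N) (w : W), ((n • w : W) : V) = pr f a a' (n.1 w) := fun _ _ => rfl
  obtain ⟨u, hu, hu1, hu2⟩ := exists_perp2 (f := f) h3 a a'
  have hdvd : 2 ∣ Nat.card W := by
    let u' : W := ⟨u, f.mem_perp_span_pair.2 ⟨hu1, hu2⟩⟩
    have : addOrderOf u' = 2 := addOrderOf_eq_prime
      (Subtype.ext (by simp [u', two_nsmul, add_self h2])) fun h => hu (congrArg Subtype.val h)
    exact this ▸ addOrderOf_dvd_natCard u'
  obtain ⟨v, hv, hv0⟩ := hN.exists_fixed_point_of_prime_dvd_card_of_fixed_point W hdvd (a := 0)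
    fun n => Subtype.ext (by simp [hs, pr])
  have hv1 : v.1 ∉ F ∙ a := nmem_of_B (fun h => hv0 (Subtype.ext h.symm))
    (by rw [hB]; exact one_ne_zero) (hWa' v)
  have key : ∀ n ∈ N, ∀ w, f.B a w = 0 → ∃ c : F, n w = w + c • a := by
    intro n hnN w hw
    by_cases hm : w ∈ F ∙ a
    · obtain ⟨c, rfl⟩ := Submodule.mem_span_singleton.1 hm
      exact ⟨0, by simp [hNa n hnN]⟩
    have li : ∀ {x : V}, x ∉ F ∙ a → LinearIndependent F ![a, x] := fun {x} hx =>
      (LinearIndependent.pair_iff' ha).2 fun c hc => hx (Submodule.mem_span_singleton.2 ⟨c, hc⟩)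
    obtain ⟨g, hg, h1, h4⟩ := hf.witt_pair (li hv1) (li hm) rfl (by rw [alt_q, alt_q])
      (by rw [hw, hWa])
    have h5 := hn _ (f.O.inv_mem hg) (by conv_lhs => rw [← h1]; exact g.symm_apply_apply a) n hnN
    have h6 := congrArg Subtype.val (hv ⟨_, h5⟩)
    rw [hs, pr, hna _ h5, hWa, zero_smul, add_zero] at h6
    have h7 := congrArg g h6
    rw [map_add, map_smul, h1, h4] at h7
    simp only [inv_inv, LinearEquiv.mul_apply, h4] at h7
    rw [show ∀ z, g (g⁻¹ z) = z from g.apply_symm_apply] at h7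
    exact ⟨_, eq_add_neg_of_add_eq h7 |>.trans (by rw [← neg_smul])⟩
  intro n hnN
  obtain ⟨k, hk, hk'⟩ := exists_mem_U_apply_eq (f := f) (u := a) (w := a') (w' := n a') (f.alt_q a)
    (by rw [alt_q, alt_q]) (hna n hnN a').symm (by rw [hB]; exact one_ne_zero)
  have : n = k := by
    obtain ⟨v', s, hv', rfl⟩ := (mem_U (f.alt_q a)).1 hk
    refine LinearEquiv.toLinearMap_injective (ext_hyp (f.alt_q a) (f.alt_q a') hB
      ((hNa n hnN).trans hv'.ei_apply_u.symm) hk'.symm fun w hw hw' => ?_)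
    obtain ⟨c, hc⟩ := key n hnN w hw
    have e1 := mem_O_B (hO hnN) w a'
    have e2 := mem_O_B (ei_mem_O (f := f) a v' s) w a'
    rw [hk', ei_app hv'.huv, hw] at e2
    rw [hc] at e1
    simp only [map_add, map_smulₛₗ, LinearMap.add_apply, LinearMap.smul_apply, hna n hnN, hB,
      smul_eq_mul, FormType.alt_σ, zero_smul, add_zero, mul_zero, mul_one] at e1 e2
    simp only [LinearEquiv.coe_coe, hc, ei_app hv'.huv, hw, zero_smul, add_zero, mul_zero]
    congr 2
    linear_combination e1 - e2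
  exact this ▸ hk

end Core

end CL.SpTwo
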