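/-
Irreducible subgroups of symplectic groups in characteristic two containing a complement to the
transvections in the unipotent radical of a point stabiliser: the main theorem.
-/
import Mathlib
import Cfsg.Agent.CLAS.SpTwo3
import Cfsg.Agent.PERM.SymIndex

set_option autoImplicit false
set_option maxHeartbeats 400000

namespace CL.SpTwo

open Module CL.Witt CL.Witt.Form

attribute [-simp] LinearEquiv.coe_inv
attribute [local simp] FormType.alt_σ FormType.alt_ε FormType.alt_π alt_B_self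

variable {F V : Type*} [Field F] [AddCommGroup V] [Module F V] [FiniteDimensional F V] [Finite F]
  {f : Form (FormType.alt F) V}

omit [Finite F] in
theorem rk_ei_zero (hf : f.Nondeg) {a : V} (ha : a ≠ 0) {s : F} (hs : s ≠ 0) :
    rk (f.ei a 0 s) = 1 := by
  suffices e : LinearMap.range ((f.ei a 0 s : V →ₗ[F] V) - LinearMap.id) = F ∙ a by
    rw [rk, e, finrank_span_singleton ha]
  have h0 : f.B a 0 = 0 := by simp
  refine le_antisymm ?_ ((Submodule.span_singleton_le_iff_mem _ _).2 ?_)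
  · rintro _ ⟨v, rfl⟩
    exact Submodule.mem_span_singleton.2 ⟨s * f.B a v, by simp [ei_app h0]⟩
  · obtain ⟨t, ht⟩ := hf.exists_B_eq ha s⁻¹
    exact ⟨t, by simp [ei_app h0, ht, hs]⟩

theorem exists_R_of_card (h2 : (2 : F) = 0) (hf : f.Nondeg) {a : V} (ha : a ≠ 0)
    {X : Subgroup (V ≃ₗ[F] V)} (hU : X ≤ f.U a) (hc : Nat.card X = Nat.card F ^ (finrank F V - 2))
    (hn : ∀ x ∈ X, rk x ≠ 1) (v : V) (hv : f.B a v = 0) : ∃ s, R f X a v s := by
  obtain ⟨a', hB⟩ := hf.exists_B_eq ha 1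
  have := Module.finite_of_finite F (M := V)
  let W := f.perp (Submodule.span F {a, a'})
  have hW : ∀ x, pr f a a' x ∈ W := fun x =>
    f.mem_perp_span_pair.2 ⟨pr_left h2 hB x, pr_right h2 hB x⟩
  have hp : ∀ {u : V} {s : F}, f.B a u = 0 → (R f X a (pr f a a' u) s ↔ R f X a u s) :=
    fun {u s} hu => by rw [pr, hu, zero_smul, add_zero, R_add_smul h2]
  choose w s hw using fun x : X => (mem_U (f.alt_q a)).1 (hU x.2)
  have hR : ∀ x : X, R f X a (w x) (s x) := fun x => ⟨(hw x).1.huv, (hw x).2 ▸ x.2⟩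
  let φ : X → W := fun x => ⟨pr f a a' (w x), hW _⟩
  have hinj : Function.Injective φ := fun x y e => by
    have e1 : pr f a a' (w x) = pr f a a' (w y) := congrArg Subtype.val e
    have e2 := (((hp (hR x).1).2 (hR x)).congr e1 rfl).diff h2 ((hp (hR y).1).2 (hR y))
    have e3 : s x = s y := eq_of_add_eq_zero h2 (by_contra fun h => hn _ e2.2 (rk_ei_zero hf ha h))
    have e4 : ∀ {u : V} (t : F), f.B a u = 0 → f.ei a (pr f a a' u) t = f.ei a u t := fun {u} t hu => by
      rw [pr, hu, zero_smul, add_zero, (ok hu t).ei_add_smul_u]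
      congr 1
      simp only [FormType.alt_σ, FormType.alt_ε]
      linear_combination f.B u a' * h2
    exact Subtype.ext (by rw [(hw x).2, (hw y).2, ← e4 _ (hR x).1, ← e4 _ (hR y).1, e1, e3])
  have hli : LinearIndependent F ![a, a'] := (LinearIndependent.pair_iff' ha).2 fun c hc => by
    rw [← hc] at hB
    simp at hB
  have hcW : Nat.card W = Nat.card X := by
    rw [hc, Module.natCard_eq_pow_finrank (K := F), hf.finrank_perp, ← Matrix.range_cons_cons_empty,
      finrank_span_eq_card hli, Fintype.card_fin]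
  obtain ⟨x, hx⟩ := (hinj.bijective_of_nat_card_le hcW.le).2 ⟨_, hW v⟩
  exact ⟨s x, (hp hv).1 (((hp (hR x).1).2 (hR x)).congr (congrArg Subtype.val hx) rfl)⟩

theorem main (h2 : (2 : F) = 0) (hf : f.Nondeg) (h4 : 4 ≤ finrank F V) {a : V} (ha : a ≠ 0)
    {X L : Subgroup (V ≃ₗ[F] V)} (hU : X ≤ f.U a)
    (hc : Nat.card X = Nat.card F ^ (finrank F V - 2)) (hn : ∀ x ∈ X, rk x ≠ 1) (hXL : X ≤ L)
    (hL : L ≤ f.O) (irr : ∀ W : Submodule F V, (∀ g ∈ L, ∀ w ∈ W, g w ∈ W) → W = ⊥ ∨ W = ⊤) :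
    L = f.O ∨ (∃ Q : Form (FormType.quad F) V, (∀ x y, Q.B x y = f.B x y) ∧
      (L = Q.O ∨ ∀ g, g ∈ L ↔ g ∈ Q.O ∧ Even (rk g))) ∨
      (Nat.card F = 2 ∧ finrank F V = 4 ∧ 120 ≤ Nat.card L) := by
  have hex : ∀ v, f.B a v = 0 → ∃ s, R f L a v s := fun v hv => by
    obtain ⟨s, hs⟩ := exists_R_of_card h2 hf ha hU hc hn v hv
    exact ⟨s, hs.1, hXL hs.2⟩
  let P : Set V := {p | ∃ g ∈ L, ∃ c : F, c ≠ 0 ∧ p = c • g a}
  have H : Pts f L P :=
    { h2 := h2, hf := hf, hL := hL, irr := irr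
      ne := by
        rintro _ ⟨g, -, c, hc, rfl⟩
        exact smul_ne_zero hc (by simpa using ha)
      ex := by
        rintro _ ⟨g, hg, c, hc, rfl⟩ v hv
        obtain ⟨s, hs⟩ := hex (c • g⁻¹ v) (by
          rw [map_smul, ← B_apply_left (hL hg)]; simpa [hc] using hv)
        refine ⟨c⁻¹ * c⁻¹ * s, (R_smul hc).2 ((hs.map hL hg).congr ?_ (by field_simp))⟩
        rw [map_smul, show g (g⁻¹ v) = v from g.apply_symm_apply v]
      map := by
        rintro k hk _ ⟨g, hg, c, hc, rfl⟩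
        exact ⟨k * g, L.mul_mem hk hg, c, hc, by simp⟩
      smul := by
        rintro d hd _ ⟨g, hg, c, hc, rfl⟩
        exact ⟨g, hg, d * c, mul_ne_zero hd hc, smul_smul _ _ _⟩
      nonempty := ⟨a, 1, L.one_mem, 1, one_ne_zero, by simp⟩ }
  by_cases ht : ∀ p ∈ P, ∀ p' ∈ P, f.B p p' = 1 → ∀ ν : F, p + ν • p' ∈ P → ν = 0
  · obtain ⟨Q, h1, h3, h5, x, y, hx, hy, hxy⟩ := Thin.exists_quad ⟨H, ht⟩
    exact Or.inr (Or.inl ⟨Q, h1, eq_O_or_even h2 (fun z hz => hf z fun w => h1 z w ▸ hz w)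
      (by omega) hx hy hxy h3 h5⟩)
  push Not at ht
  obtain ⟨p, hp, p', hp', hB, ν, hm, hν⟩ := ht
  have hall : ∀ w, w ≠ 0 → w ∈ P := fun w hw => H.mem_all (by omega) hp hp' hB hν hm hw
  have ex : ∀ p, p ≠ 0 → ∀ v, f.B p v = 0 → ∃ s, R f L p v s := fun p hp => H.ex p (hall p hp)
  by_cases h5 : 5 ≤ finrank F V
  · exact Or.inl (eq_O_of_full h2 hf hL irr ha hex (full_of_five h2 hf hL ex h5 ha))
  by_cases hb : ∃ b : F, b ≠ 0 ∧ b ≠ 1
  · obtain ⟨b, hb0, hb1⟩ := hb
    exact Or.inl (eq_O_of_full h2 hf hL irr ha hex (full_of_big h2 hf hL ex (by omega) hb0 hb1 ha))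
  push Not at hb
  have hF : Nat.card F = 2 := Nat.card_eq_two_iff.2 ⟨0, 1, zero_ne_one, by
    ext b; by_cases h : b = 0 <;> simp [h, hb b]⟩
  have hV : finrank F V = 4 := by omega
  refine Or.inr (Or.inr ⟨hF, hV, ?_⟩)
  have := Module.finite_of_finite F (M := V)
  have : Finite (V ≃ₗ[F] V) := Finite.of_injective _ DFunLike.coe_injective
  obtain ⟨v, hv, hv'⟩ : ∃ v, v ∉ F ∙ a ∧ R f L a v 1 := by
    obtain ⟨a', hB⟩ := hf.exists_B_eq ha 1
    obtain ⟨w, hw, h1, h3⟩ := exists_perp2 (f := f) (by omega) a a'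
    have h6 := nmem_of_B hw (by rw [hB]; exact one_ne_zero) (f.B_eq_zero_symm h3)
    obtain ⟨w', h7, h8⟩ := exists_perp_B hf h6 1
    obtain ⟨s, hs⟩ := hex w h1
    obtain ⟨s', hs'⟩ := hex w' h7
    by_cases e : s = 0
    · by_cases e' : s' = 0
      · exact ⟨w + w', nmem_of_B' h7 (by simp [h8]), (hs.add hs').congr rfl (by simp [e, e', h8])⟩
      · exact ⟨w', nmem_of_B' h1 (by simp [symm2 h2 w w', h8]), hs'.congr rfl (hb _ e')⟩
    · exact ⟨w, h6, hs.congr rfl (hb _ e)⟩
  have hv0 : v ≠ 0 := by rintro rfl; exact hv (Submodule.zero_mem _)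
  have hva := f.B_eq_zero_symm hv'.1
  have k := R.flip h2 hf hL ex hv0 (nmem_symm ha hv) hv'.1 (c := 1) (by rwa [one_smul]) 1
  simp only [mul_one, one_smul, one_pow] at k
  have k1 : f.ei v a 1 ∉ X := fun hx => by
    obtain ⟨u, s, hu, e⟩ := (mem_U (f.alt_q a)).1 (hU hx)
    obtain ⟨x, h1, h3⟩ := exists_perp_B hf hv 1
    have := DFunLike.congr_fun e x
    rw [ei_app hva, ei_app hu.huv, h1, h3] at this
    exact hv (Submodule.mem_span_singleton.2 ⟨f.B u x - 1, by
      linear_combination (norm := module) -this⟩)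
  let S := MulAction.stabilizer L a
  have hXS : X.subgroupOf L ≤ S := fun x hx => by
    obtain ⟨u, s, hu, e⟩ := (mem_U (f.alt_q a)).1 (hU hx)
    change x.1 a = a
    rw [show x.1 = _ from e, hu.ei_apply_u]
  have hS : 8 ≤ Nat.card S := by
    have c1 : Nat.card (X.subgroupOf L) = 4 := by
      rw [Nat.card_congr (Subgroup.subgroupOfEquivOfLe hXL).toEquiv, hc, hF, hV]
      rfl
    have c2 := Subgroup.card_dvd_of_le hXS
    have c3 : Nat.card S ≠ 4 := fun h => k1 (by
      have := Subgroup.eq_of_le_of_card_ge hXS (by rw [c1, h])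
      have h' : (⟨_, k.2⟩ : L) ∈ S := by
        change f.ei v a 1 a = a
        simp [ei_app hva, hva]
      rw [← this] at h'
      exact h')
    have c4 : 0 < Nat.card S := Nat.card_pos
    rw [c1] at c2
    omega
  have hO : MulAction.orbit L a = {0}ᶜ := by
    ext w
    constructor
    · rintro ⟨g, rfl⟩ h
      exact ha (g.1.injective ((show g.1 a = 0 from h).trans (map_zero _).symm))
    · intro hw
      obtain ⟨g, hg, c, hc, rfl⟩ := hall w hw
      exact ⟨⟨g, hg⟩, by rw [hb c hc, one_smul]; rfl⟩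
  have hi : S.index = 15 := by
    have := Set.ncard_add_ncard_compl ({0} : Set V)
    rw [Set.ncard_singleton, Module.natCard_eq_pow_finrank (K := F), hF, hV] at this
    rw [MulAction.index_stabilizer, hO]
    omega
  rw [← S.index_mul_card, hi]
  omega

/-- Subgroups of index at most six in the symmetric group of degree six. -/
theorem perm_six (H : Subgroup (Equiv.Perm (Fin 6))) (h : 120 ≤ Nat.card H) :
    H = ⊤ ∨ Nonempty (H ≃* alternatingGroup (Fin 6)) ∨ Nonempty (H ≃* Equiv.Perm (Fin 5)) := by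
  by_cases hA : alternatingGroup (Fin 6) ≤ H
  · rcases (Nat.dvd_prime Nat.prime_two).1 (SymIdx.index_dvd_two_of_le (by simp) hA) with e | e
    · exact Or.inl (Subgroup.index_eq_one.1 e)
    · exact Or.inr (Or.inl ⟨MulEquiv.subgroupCongr (Equiv.Perm.eq_alternatingGroup_of_index_eq_two e)⟩)
  · have h1 := SymIdx.card_le_index (by simp) H hA
    have h3 := H.index_mul_card
    rw [Nat.card_perm, Nat.card_eq_fintype_card (α := Fin 6)] at h3
    simp only [Fintype.card_fin, Nat.factorial] at h1 h3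
    obtain ⟨θ, x, rfl⟩ := SymIdx.exists_mulAut_of_index (by simp) H (by
      rw [Fintype.card_fin]; nlinarith)
    have e1 : MulAction.stabilizer (Equiv.Perm (Fin 6)) x =
        (Equiv.Perm.ofSubtype (p := fun y => y ≠ x)).range := by
      ext g
      rw [Equiv.Perm.mem_range_ofSubtype_iff, MulAction.mem_stabilizer_iff, Equiv.Perm.smul_def]
      refine ⟨fun h y hy e => ?_, fun h => by_contra fun h' => h (by simpa using h') rfl⟩
      subst e
      simp [h] at hy
    have e2 : {y : Fin 6 // y ≠ x} ≃ Fin 5 := Fintype.equivFinOfCardEq (by simp)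
    refine Or.inr (Or.inr ⟨((((θ.subgroupMap _).trans (MulEquiv.subgroupCongr ?_)).trans
      (MonoidHom.ofInjective Equiv.Perm.ofSubtype_injective).symm).trans e2.permCongrHom)⟩)
    rw [← e1]
    exact Subgroup.map_comap_eq_self_of_surjective θ.surjective _

end CL.SpTwo
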